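import Cfsg.Agent.Fischer.RankOne
import Mathlib.LinearAlgebra.Matrix.SpecialLinearGroup

/-! The unitriangular subgroups of `SL₂(k)` form a special rank one pair. -/

set_option autoImplicit false
open Cfsg

namespace Cfsg.Agent.Fischer

variable {k : Type*} [Field k]

/-- upper unitriangular element -/
def slU (s : k) : Matrix.SpecialLinearGroup (Fin 2) k := ⟨!![1, s; 0, 1], by simp⟩

/-- lower unitriangular element -/
def slL (t : k) : Matrix.SpecialLinearGroup (Fin 2) k := ⟨!![1, 0; t, 1], by simp⟩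

theorem slU_coe (s : k) : ((slU s : Matrix.SpecialLinearGroup (Fin 2) k) : Matrix (Fin 2) (Fin 2) k) = !![1, s; 0, 1] := rfl

theorem slL_coe (t : k) : ((slL t : Matrix.SpecialLinearGroup (Fin 2) k) : Matrix (Fin 2) (Fin 2) k) = !![1, 0; t, 1] := rfl

theorem slU_add (x y : k) : slU x * slU y = slU (x + y) := by
  ext i j
  fin_cases i <;> fin_cases j <;> simp [slU_coe, Matrix.mul_apply, Fin.sum_univ_two, add_comm]

theorem slL_add (x y : k) : slL x * slL y = slL (x + y) := by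
  ext i j
  fin_cases i <;> fin_cases j <;> simp [slL_coe, Matrix.mul_apply, Fin.sum_univ_two, add_comm]

theorem slU_zero : slU (0 : k) = 1 := by
  ext i j
  fin_cases i <;> fin_cases j <;> simp [slU]

theorem slL_zero : slL (0 : k) = 1 := by
  ext i j
  fin_cases i <;> fin_cases j <;> simp [slL]

theorem slU_inv (x : k) : (slU x)⁻¹ = slU (-x) :=
  inv_eq_of_mul_eq_one_right (by rw [slU_add, add_neg_cancel, slU_zero])

theorem slL_inv (x : k) : (slL x)⁻¹ = slL (-x) :=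
  inv_eq_of_mul_eq_one_right (by rw [slL_add, add_neg_cancel, slL_zero])

theorem mem_upper {g : Matrix.SpecialLinearGroup (Fin 2) k} :
    g ∈ upperUnipotentSL2 k ↔ ∃ s, g = slU s := by
  constructor
  · intro h
    refine Subgroup.closure_induction (p := fun g _ => ∃ s, g = slU s) ?_ ?_ ?_ ?_ h
    · rintro g ⟨h10, h00, h11⟩
      refine ⟨(g : Matrix (Fin 2) (Fin 2) k) 0 1, ?_⟩
      ext i j
      fin_cases i <;> fin_cases j <;> simp [slU, h10, h00, h11]
    · exact ⟨0, slU_zero.symm⟩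
    · rintro _ _ _ _ ⟨x, rfl⟩ ⟨y, rfl⟩; exact ⟨_, slU_add x y⟩
    · rintro _ _ ⟨x, rfl⟩; exact ⟨_, slU_inv x⟩
  · rintro ⟨s, rfl⟩
    exact Subgroup.subset_closure ⟨by simp [slU], by simp [slU], by simp [slU]⟩

theorem mem_lower {g : Matrix.SpecialLinearGroup (Fin 2) k} :
    g ∈ lowerUnipotentSL2 k ↔ ∃ t, g = slL t := by
  constructor
  · intro h
    refine Subgroup.closure_induction (p := fun g _ => ∃ t, g = slL t) ?_ ?_ ?_ ?_ h
    · rintro g ⟨h01, h00, h11⟩
      refine ⟨(g : Matrix (Fin 2) (Fin 2) k) 1 0, ?_⟩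
      ext i j
      fin_cases i <;> fin_cases j <;> simp [slL, h01, h00, h11]
    · exact ⟨0, slL_zero.symm⟩
    · rintro _ _ _ _ ⟨x, rfl⟩ ⟨y, rfl⟩; exact ⟨_, slL_add x y⟩
    · rintro _ _ ⟨x, rfl⟩; exact ⟨_, slL_inv x⟩
  · rintro ⟨t, rfl⟩
    exact Subgroup.subset_closure ⟨by simp [slL], by simp [slL], by simp [slL]⟩

theorem lower_comm : IsMulCommutative (lowerUnipotentSL2 k) := by
  refine ⟨⟨?_⟩⟩
  rintro ⟨a, ha⟩ ⟨b, hb⟩
  obtain ⟨x, rfl⟩ := mem_lower.1 ha
  obtain ⟨y, rfl⟩ := mem_lower.1 hb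
  exact Subtype.ext (by simp [slL_add, add_comm])

theorem upper_comm : IsMulCommutative (upperUnipotentSL2 k) := by
  refine ⟨⟨?_⟩⟩
  rintro ⟨a, ha⟩ ⟨b, hb⟩
  obtain ⟨x, rfl⟩ := mem_upper.1 ha
  obtain ⟨y, rfl⟩ := mem_upper.1 hb
  exact Subtype.ext (by simp [slU_add, add_comm])

theorem slUL_conj (s x : k) (hs : s ≠ 0) :
    slU (-s) * slL x * slU s = slL (-s⁻¹) * slU (-(s * s * x)) * slL s⁻¹ := by
  ext i j
  fin_cases i <;> fin_cases j <;>
    simp [slU_coe, slL_coe, Matrix.mul_apply, Fin.sum_univ_two] <;> field_simp <;> ring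

theorem conj_pair (s : k) (hs : s ≠ 0) :
    conjBy (lowerUnipotentSL2 k) (slU s)⁻¹ = conjBy (upperUnipotentSL2 k) (slL s⁻¹)⁻¹ := by
  ext g
  rw [mem_cb, mem_cb, mem_lower, mem_upper, inv_inv, inv_inv, slU_inv, slL_inv]
  constructor
  · rintro ⟨x, e⟩
    refine ⟨-(s * s * x), ?_⟩
    have hg : g = slU (-s) * slL x * slU s := by
      rw [← e, ← slU_inv]; group
    rw [hg, slUL_conj s x hs, ← slL_inv]
    group
  · rintro ⟨y, e⟩
    refine ⟨-(y / (s * s)), ?_⟩
    have hg : g = slL (-s⁻¹) * slU y * slL s⁻¹ := by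
      rw [← e, ← slL_inv]; group
    have e' := slUL_conj s (-(y / (s * s))) hs
    rw [show -(s * s * -(y / (s * s))) = y by field_simp] at e'
    rw [hg, ← e', ← slU_inv]
    group

theorem slL_ne_one {t : k} (ht : slL t ≠ 1) : t ≠ 0 := fun h => ht (h ▸ slL_zero)

theorem slU_ne_one {t : k} (ht : slU t ≠ 1) : t ≠ 0 := fun h => ht (h ▸ slU_zero)

theorem nilpotent_of_comm {G : Type*} [Group G] (H : Subgroup G) [IsMulCommutative H] :
    Group.IsNilpotent H :=
  @CommGroup.isNilpotent H { (inferInstance : Group H) with mul_comm := mul_comm' }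

theorem sl2_pair : IsRankOnePair (lowerUnipotentSL2 k) (upperUnipotentSL2 k) := by
  haveI := lower_comm (k := k)
  haveI := upper_comm (k := k)
  refine ⟨?_, nilpotent_of_comm _, nilpotent_of_comm _, ?_, ?_⟩
  · intro e
    obtain ⟨s, hs⟩ := mem_upper.1 (e ▸ mem_lower.2 ⟨1, rfl⟩ : slL (1 : k) ∈ upperUnipotentSL2 k)
    have := congrArg (fun g : Matrix.SpecialLinearGroup (Fin 2) k => (g : Matrix (Fin 2) (Fin 2) k) 1 0) hs
    simp [slL, slU] at this
  · intro a ha ha1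
    obtain ⟨t, rfl⟩ := mem_lower.1 ha
    have ht := slL_ne_one ha1
    refine ⟨slU t⁻¹, mem_upper.2 ⟨_, rfl⟩, ?_, ?_⟩
    · intro e
      have := congrArg (fun g : Matrix.SpecialLinearGroup (Fin 2) k => (g : Matrix (Fin 2) (Fin 2) k) 0 1) e
      simp [slU, ht] at this
    · have := conj_pair t⁻¹ (inv_ne_zero ht)
      rwa [inv_inv] at this
  · intro b hb hb1
    obtain ⟨s, rfl⟩ := mem_upper.1 hb
    have hs := slU_ne_one hb1
    refine ⟨slL s⁻¹, mem_lower.2 ⟨_, rfl⟩, ?_, (conj_pair s hs).symm⟩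
    intro e
    have := congrArg (fun g : Matrix.SpecialLinearGroup (Fin 2) k => (g : Matrix (Fin 2) (Fin 2) k) 1 0) e
    simp [slL, hs] at this

theorem sl2_special : IsSpecialRankOnePair (lowerUnipotentSL2 k) (upperUnipotentSL2 k) := by
  refine ⟨sl2_pair, fun a ha ha1 b hb _ e => ?_⟩
  obtain ⟨t, rfl⟩ := mem_lower.1 ha
  have ht := slL_ne_one ha1
  have e' := conj_pair t⁻¹ (inv_ne_zero ht)
  rw [inv_inv] at e'
  have hb' : b = slU t⁻¹ := inv_injective
    (regular (RankOnePair_symm sl2_pair) (inv_mem hb) (inv_mem (mem_upper.2 ⟨_, rfl⟩)) (e.trans e'.symm))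
  subst hb'
  have := slUL_conj t⁻¹ t (inv_ne_zero ht)
  rw [inv_inv, show t⁻¹ * t⁻¹ * t = t⁻¹ by field_simp] at this
  rw [slU_inv, slL_inv]
  exact this

theorem sl2_sup : lowerUnipotentSL2 k ⊔ upperUnipotentSL2 k = ⊤ := by
  rw [eq_top_iff]
  set H := lowerUnipotentSL2 k ⊔ upperUnipotentSL2 k
  have hU : ∀ x : k, slU x ∈ H := fun x =>
    le_sup_right (α := Subgroup (Matrix.SpecialLinearGroup (Fin 2) k)) (mem_upper.2 ⟨x, rfl⟩)
  have hL : ∀ x : k, slL x ∈ H := fun x =>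
    le_sup_left (α := Subgroup (Matrix.SpecialLinearGroup (Fin 2) k)) (mem_lower.2 ⟨x, rfl⟩)
  have key : ∀ g : Matrix.SpecialLinearGroup (Fin 2) k, (g : Matrix (Fin 2) (Fin 2) k) 1 0 ≠ 0 → g ∈ H := by
    intro g hc
    have hdet : (g : Matrix (Fin 2) (Fin 2) k) 0 0 * (g : Matrix (Fin 2) (Fin 2) k) 1 1 -
        (g : Matrix (Fin 2) (Fin 2) k) 0 1 * (g : Matrix (Fin 2) (Fin 2) k) 1 0 = 1 := by
      rw [← Matrix.det_fin_two]; exact g.2
    have e : g = slU (((g : Matrix (Fin 2) (Fin 2) k) 0 0 - 1) / (g : Matrix (Fin 2) (Fin 2) k) 1 0) *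
        slL ((g : Matrix (Fin 2) (Fin 2) k) 1 0) *
        slU (((g : Matrix (Fin 2) (Fin 2) k) 1 1 - 1) / (g : Matrix (Fin 2) (Fin 2) k) 1 0) := by
      ext i j
      fin_cases i <;> fin_cases j <;> simp [slU_coe, slL_coe, Matrix.mul_apply, Fin.sum_univ_two] <;>
        field_simp <;> first | linear_combination -hdet | linear_combination hdet | ring
    rw [e]
    exact mul_mem (mul_mem (hU _) (hL _)) (hU _)
  intro g _
  by_cases hc : (g : Matrix (Fin 2) (Fin 2) k) 1 0 = 0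
  · have hd : (g : Matrix (Fin 2) (Fin 2) k) 1 1 ≠ 0 := by
      intro hd
      have h := g.2
      rw [Matrix.det_fin_two, hc, hd] at h
      simp at h
    have h1 : g * slL 1 ∈ H := key _ (by simp [slL_coe, Matrix.mul_apply, Fin.sum_univ_two, hc, hd])
    have := mul_mem h1 (inv_mem (hL 1))
    simpa using this
  · exact key g hc

end Cfsg.Agent.Fischer
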