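import Cfsg.Agent.Fischer.TwoCoresCent
import Cfsg.Agent.FGS3.FrattiniAction

/-! Simplicity criteria for groups with a large extraspecial subgroup. -/

set_option autoImplicit false
open Cfsg
open scoped commutatorElement

namespace Cfsg.Agent.Fischer

theorem extraspecial_congr {X Y : Type*} [Group X] [Group Y] {p : ℕ} (e : X ≃* Y)
    (h : Cfsg.IsExtraspecial p X) : Cfsg.IsExtraspecial p Y := by
  obtain ⟨⟨hp, hf, hc⟩, hz⟩ := h
  have hfm : (frattini X).map e.toMonoidHom = frattini Y := by
    refine le_antisymm (FGS3.map_frattini_le_of_surjective (f := e.toMonoidHom) e.surjective) fun y hy => ?_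
    exact ⟨e.symm y, FGS3.map_frattini_le_of_surjective (f := e.symm.toMonoidHom) e.symm.surjective ⟨y, hy, rfl⟩,
      e.apply_symm_apply y⟩
  have hzm : (Subgroup.center X).map e.toMonoidHom = Subgroup.center Y := by
    ext y
    constructor
    · rintro ⟨x, hx, rfl⟩
      refine Subgroup.mem_center_iff.mpr fun w => ?_
      obtain ⟨v, rfl⟩ := e.surjective w
      show e v * e x = e x * e v
      rw [← map_mul, ← map_mul, Subgroup.mem_center_iff.mp hx v]
    · intro hy
      refine ⟨e.symm y, Subgroup.mem_center_iff.mpr fun v => e.injective ?_, e.apply_symm_apply y⟩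
      rw [map_mul, map_mul, e.apply_symm_apply, Subgroup.mem_center_iff.mp hy (e v)]
  have hcm : (commutator X).map e.toMonoidHom = commutator Y := by
    rw [commutator_def, commutator_def, Subgroup.map_commutator, Subgroup.map_top_of_surjective _ e.surjective]
  refine ⟨⟨hp.of_equiv e, ?_, ?_⟩, ?_⟩
  · rw [← hfm, ← hzm, hf]
  · rw [← hcm, ← hzm, hc]
  · rw [← hzm, ← Nat.card_congr ((Subgroup.center X).equivMapOfInjective e.toMonoidHom e.injective).toEquiv, hz]

variable {G : Type*} [Group G] [Finite G]

theorem core_center_eq {z : G} {Q : Subgroup G} (h : CoreLike z Q) :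
    (Subgroup.center ↥Q).map Q.subtype = Subgroup.zpowers z := by
  refine le_antisymm ?_ (Subgroup.zpowers_le.2 ⟨⟨z, h.mem⟩,
    Subgroup.mem_center_iff.2 fun a => Subtype.ext (h.comm a a.2), rfl⟩)
  rintro _ ⟨c, hc, rfl⟩
  rcases h.center c c.2 (fun a ha => congrArg Subtype.val (Subgroup.mem_center_iff.1 hc ⟨a, ha⟩)) with e | e
  · show (c : G) ∈ _; rw [e]; exact one_mem _
  · show (c : G) ∈ _; rw [e]; exact Subgroup.mem_zpowers z

theorem core_centralizer_eq {z : G} {Q : Subgroup G} (h : CoreLike z Q) :
    Subgroup.centralizer (Q : Set G) = (Subgroup.center ↥Q).map Q.subtype := by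
  refine le_antisymm (fun c hc => ?_) ?_
  · have hall : ∀ q ∈ Q, q * c = c * q := fun q hq => Subgroup.mem_centralizer_iff.1 hc q hq
    exact ⟨⟨c, h.small c hall⟩, Subgroup.mem_center_iff.2 fun a => Subtype.ext (hall a a.2), rfl⟩
  · rintro _ ⟨c, hc, rfl⟩
    exact Subgroup.mem_centralizer_iff.2 fun q hq => congrArg Subtype.val (Subgroup.mem_center_iff.1 hc ⟨q, hq⟩)

theorem core_normal {z : G} {Q : Subgroup G} (h : CoreLike z Q) :
    Subgroup.centralizer (((Subgroup.center ↥Q).map Q.subtype : Subgroup G) : Set G) ≤ Subgroup.normalizer (Q : Set G) := by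
  intro c hc
  refine relIndex_six.mem_normalizer_of_map_le fun q hq => ?_
  refine h.norm c ?_ q hq
  exact (Subgroup.mem_centralizer_iff.1 hc z (by rw [core_center_eq h]; exact Subgroup.mem_zpowers z)).symm

/-- If every normal subgroup containing the involution contains its centralizer, the group is simple. -/
theorem simple_of_large {z : G} {Q : Subgroup G} (h : CoreLike z Q) (hQ : IsLargeExtraspecial Q)
    (hgen : ∀ N : Subgroup G, N.Normal → z ∈ N → Subgroup.centralizer ({z} : Set G) ≤ N) :
    IsSimpleGroup G := by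
  haveI : Nontrivial G := nontrivial_of_ne z 1 h.ne
  refine ⟨fun N hN => ?_⟩
  haveI := hN
  by_cases hNQ : ∀ q ∈ Q, q ∈ N → q = 1
  · left
    have hfix : ∀ n ∈ N, n * z = z * n → n = 1 := by
      intro n hn hnz
      have hc : ∀ q ∈ Q, q * n = n * q := by
        intro q hq
        rw [← commutatorElement_eq_one_iff_mul_comm]
        refine hNQ _ ?_ ?_
        · rw [commutatorElement_def, mul_assoc, mul_assoc]
          exact mul_mem hq (by rw [← mul_assoc]; exact h.norm n hnz _ (inv_mem hq))
        · rw [commutatorElement_def]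
          exact mul_mem (hN.conj_mem n hn q) (inv_mem hn)
      exact hNQ n (h.small n hc) hn
    have hinv := fixedPointFree_inverts h.sq (fun k hk => by
      have := hN.conj_mem k hk z
      rwa [inv_eq_of_mul_eq_one_right h.sq] at this) hfix
    refine hQ.2.2.2 N ?_ (fun q _ => Subgroup.normalizer_eq_top (H := N) ▸ Subgroup.mem_top q)
    by_contra hodd
    haveI := Fact.mk Nat.prime_two
    obtain ⟨n, hn⟩ := exists_prime_orderOf_dvd_card' 2
      (Nat.even_iff.1 (Nat.not_odd_iff_even.1 hodd) |> Nat.dvd_of_mod_eq_zero)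
    have hn2 : (n : G) * n = 1 := by
      have := pow_orderOf_eq_one n
      rw [hn, pow_two] at this
      exact congrArg Subtype.val this
    have h1 : (n : G) * z = z * n := by
      have e := hinv n n.2
      rw [inv_eq_of_mul_eq_one_right hn2] at e
      calc (n : G) * z = z * n * z * z := by rw [e]
        _ = z * n := by rw [mul_assoc, h.sq, mul_one]
    have h2 : n = 1 := Subtype.ext (hfix n n.2 h1)
    rw [h2, orderOf_one] at hn
    omega
  · right
    push_neg at hNQ
    obtain ⟨q, hq, hqN, hq1⟩ := hNQ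
    have hzN : z ∈ N := by
      by_cases hc : ∀ a ∈ Q, a * q = q * a
      · rcases h.center q hq hc with e | e
        · exact absurd e hq1
        · rwa [← e]
      · push_neg at hc
        obtain ⟨a, ha, hne⟩ := hc
        rcases h.brack a ha q hq with e | e
        · exact absurd (commutatorElement_eq_one_iff_mul_comm.1 e) hne
        · rw [← e, commutatorElement_def]
          exact mul_mem (hN.conj_mem q hqN a) (inv_mem hqN)
    have hCN := hgen N hN hzN
    have hQN : Q ≤ N := fun a ha => hCN (mem_cent_singleton.2 (h.comm a ha))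
    have htop := large_frattini hQ hQN
    rw [eq_top_iff, ← htop]
    refine sup_le le_rfl (fun c hc => hCN (mem_cent_singleton.2 (mul_inv_eq_iff_eq_mul.1 ?_)))
    rcases h.center (c * z * c⁻¹) ((Subgroup.mem_normalizer_iff.1 hc z).1 h.mem) (fun a ha => by
      have ha' : c⁻¹ * a * c ∈ Q := by
        have := (Subgroup.mem_normalizer_iff.1 (inv_mem hc) a).1 ha
        rwa [inv_inv] at this
      calc a * (c * z * c⁻¹) = c * (c⁻¹ * a * c * z) * c⁻¹ := by group
        _ = c * (z * (c⁻¹ * a * c)) * c⁻¹ := by rw [h.comm _ ha']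
        _ = _ := by group) with e | e
    · exact absurd (conj_eq_one_iff.1 e) h.ne
    · exact e

theorem large_of_conj {z : G} {Q : Subgroup G} (h : CoreLike z Q) (hE : IsExtraspecial 2 ↥Q) {w : ℕ} (hw : 2 ≤ w)
    (hcard : Nat.card ↥Q = 2 ^ (2 * w + 1)) {g : G} (hg : g * z * g⁻¹ ∈ Q) (hne : g * z * g⁻¹ ≠ z) :
    IsLargeExtraspecial Q := by
  refine (width_two_conjugate hE (core_centralizer_eq h) (core_normal h) hw hcard (g := g) (fun hn => hne ?_) ?_).2.2
  · have h1 := (Subgroup.mem_normalizer_iff.1 hn z).1 (by rw [core_center_eq h]; exact Subgroup.mem_zpowers z)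
    obtain ⟨c, hc, e⟩ := h1
    rcases h.center c c.2 (fun a ha => congrArg Subtype.val (Subgroup.mem_center_iff.1 hc ⟨a, ha⟩)) with r | r
    · exact absurd (conj_eq_one_iff.1 (e.symm.trans r)) h.ne
    · exact e.symm.trans r
  · rw [core_center_eq h, MonoidHom.map_zpowers, Subgroup.zpowers_le]
    exact hg

end Cfsg.Agent.Fischer
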