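import Cfsg.Agent.Fischer.RankOne
import Cfsg.Agent.FGS3.Extraspecial
import Cfsg.Agent.Core.Cores
import Cfsg.Prelude.Def_MonsterType

/-! Large extraspecial 2-subgroups: odd order subgroups normalized by `Q`. -/

set_option autoImplicit false
open Cfsg
open scoped commutatorElement

namespace Cfsg.Agent.Fischer

variable {G : Type*} [Group G] [Finite G] {Q : Subgroup G}

omit [Finite G] in
theorem eq_of_center_two (hE : IsExtraspecial 2 Q) (u v : Subgroup.center Q) (hu : u ≠ 1)
    (hv : v ≠ 1) : u = v := by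
  obtain ⟨x, y, hxy, huniv⟩ := Nat.card_eq_two_iff.1 hE.2
  have key : ∀ w : Subgroup.center Q, w = x ∨ w = y := fun w => by
    have : w ∈ ({x, y} : Set (Subgroup.center Q)) := huniv ▸ Set.mem_univ w
    simpa using this
  rcases key u with e | e <;> rcases key v with e' | e' <;> rcases key 1 with e1 | e1
  all_goals
    first
      | exact e.trans e'.symm
      | exact absurd (e.trans e1.symm) hu
      | exact absurd (e'.trans e1.symm) hv

theorem inf_bot_of_odd_two {K P : Subgroup G} (hK : Odd (Nat.card K)) (hP : IsPGroup 2 P) :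
    K ⊓ P = ⊥ := by
  haveI := Fact.mk Nat.prime_two
  refine (Subgroup.eq_bot_iff_forall _).2 fun x hx => ?_
  obtain ⟨n, hn⟩ := IsPGroup.iff_orderOf.1 hP (⟨x, hx.2⟩ : P)
  rw [Subgroup.orderOf_mk] at hn
  have hd : orderOf x ∣ Nat.card K := Subgroup.orderOf_dvd_natCard K hx.1
  rcases Nat.eq_zero_or_pos n with rfl | h
  · rwa [pow_zero, orderOf_eq_one_iff] at hn
  · exact absurd (((dvd_pow_self 2 h.ne').trans hn.symm.dvd).trans hd) (fun h2 => by
      have := Nat.two_dvd_ne_zero.2 (Nat.odd_iff.1 hK); exact this h2)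

theorem normalized_centralizes_core {K Z : Subgroup G} (hK : Odd (Nat.card K))
    (hZ : Z ≤ pCore 2 G) (hn : Z ≤ Subgroup.normalizer (K : Set G)) :
    ∀ k ∈ K, ∀ z ∈ Z, k * z = z * k := by
  intro k hk z hz
  have hP : IsPGroup 2 (pCore 2 G) := Cfsg.Agent.Core.isPGroup_pCore 2 G
  have hN : (pCore 2 G).Normal := inferInstance
  have h1 : ⁅k, z⁆ ∈ K := by
    have := mul_mem hk ((Subgroup.mem_normalizer_iff.1 (hn hz) k⁻¹).1 (inv_mem hk))
    simpa [commutatorElement_def, mul_assoc] using this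
  have h2 : ⁅k, z⁆ ∈ pCore 2 G := by
    have := mul_mem (hN.conj_mem z (hZ hz) k) (inv_mem (hZ hz))
    simpa [commutatorElement_def, mul_assoc] using this
  exact commutatorElement_eq_one_iff_mul_comm.1
    ((Subgroup.eq_bot_iff_forall _).1 (inf_bot_of_odd_two hK hP) _ ⟨h1, h2⟩)

theorem odd_normalized_eq_bot (hE : IsExtraspecial 2 Q)
    (hC : Subgroup.centralizer (Q : Set G) = (Subgroup.center Q).map Q.subtype)
    (hN : Subgroup.centralizer (((Subgroup.center Q).map Q.subtype : Subgroup G) : Set G) ≤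
      Subgroup.normalizer (Q : Set G))
    {K : Subgroup G} (hK : Odd (Nat.card K)) (hQK : Q ≤ Subgroup.normalizer (K : Set G))
    (hc : ∀ k ∈ K, ∀ z ∈ (Subgroup.center Q).map Q.subtype, k * z = z * k) : K = ⊥ := by
  have hKQ : K ⊓ Q = ⊥ := inf_bot_of_odd_two hK hE.1.1
  refine (Subgroup.eq_bot_iff_forall _).2 fun k hk => ?_
  have hkC : k ∈ Subgroup.centralizer (Q : Set G) := by
    refine Subgroup.mem_centralizer_iff.2 fun q hq => ?_
    have hkn : k ∈ Subgroup.normalizer (Q : Set G) :=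
      hN (Subgroup.mem_centralizer_iff.2 fun z hz => (hc k hk z hz).symm)
    have h1 : ⁅q, k⁆ ∈ K := by
      have := mul_mem ((Subgroup.mem_normalizer_iff.1 (hQK hq) k).1 hk) (inv_mem hk)
      simpa [commutatorElement_def, mul_assoc] using this
    have h2 : ⁅q, k⁆ ∈ Q := by
      have := mul_mem hq ((Subgroup.mem_normalizer_iff.1 hkn q⁻¹).1 (inv_mem hq))
      simpa [commutatorElement_def, mul_assoc] using this
    exact commutatorElement_eq_one_iff_mul_comm.1
      ((Subgroup.eq_bot_iff_forall _).1 hKQ _ ⟨h1, h2⟩)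
  rw [hC] at hkC
  exact (Subgroup.eq_bot_iff_forall _).1 hKQ _ ⟨hk, Subgroup.map_subtype_le _ hkC⟩

omit [Finite G] in
theorem exists_noncommuting {b : G} (hbQ : b ∈ Q)
    (hbZ : b ∉ (Subgroup.center Q).map Q.subtype) : ∃ q ∈ Q, q * b ≠ b * q := by
  by_contra h
  push_neg at h
  exact hbZ ⟨⟨b, hbQ⟩, Subgroup.mem_center_iff.2 fun g => Subtype.ext (h g g.2), rfl⟩

theorem fixedPointFree_inverts {K : Subgroup G} {z : G} (hzz : z * z = 1)
    (hzK : ∀ k ∈ K, z * k * z ∈ K) (hfix : ∀ k ∈ K, k * z = z * k → k = 1) :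
    ∀ k ∈ K, z * k * z = k⁻¹ := by
  have hzi : z⁻¹ = z := inv_eq_of_mul_eq_one_right hzz
  let f : K → K := fun k => ⟨(k : G)⁻¹ * (z * k * z), mul_mem (inv_mem k.2) (hzK k k.2)⟩
  have hf : Function.Injective f := by
    intro a b h
    have h' : (a : G)⁻¹ * (z * a * z) = (b : G)⁻¹ * (z * b * z) := congrArg Subtype.val h
    have h1 : (b : G) * (a : G)⁻¹ * z = z * ((b : G) * (a : G)⁻¹) := by
      calc (b : G) * (a : G)⁻¹ * z
          = (b : G) * ((a : G)⁻¹ * (z * a * z)) * z⁻¹ * (a : G)⁻¹ * (z⁻¹ * z) := by group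
        _ = (b : G) * ((b : G)⁻¹ * (z * b * z)) * z⁻¹ * (a : G)⁻¹ * (z⁻¹ * z) := by rw [h']
        _ = _ := by group
    exact Subtype.ext (mul_inv_eq_one.1 (hfix _ (mul_mem b.2 (inv_mem a.2)) h1)).symm
  intro k hk
  obtain ⟨⟨m, hm⟩, e⟩ := Finite.injective_iff_surjective.1 hf ⟨k, hk⟩
  have e' : m⁻¹ * (z * m * z) = k := congrArg Subtype.val e
  rw [← e']
  calc z * (m⁻¹ * (z * m * z)) * z = z * m⁻¹ * z * m * (z * z) := by group
    _ = z⁻¹ * m⁻¹ * z⁻¹ * m := by rw [hzz, hzi, mul_one]
    _ = _ := by group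

theorem large_of_involution (hE : IsExtraspecial 2 Q)
    (hC : Subgroup.centralizer (Q : Set G) = (Subgroup.center Q).map Q.subtype)
    (hN : Subgroup.centralizer (((Subgroup.center Q).map Q.subtype : Subgroup G) : Set G) ≤
      Subgroup.normalizer (Q : Set G))
    {b : G} (hbQ : b ∈ Q) (hbZ : b ∉ (Subgroup.center Q).map Q.subtype) (hb : orderOf b = 2)
    (hZ : (Subgroup.center Q).map Q.subtype ≤
      (pCore 2 ↥(Subgroup.centralizer ({b} : Set G))).map (Subgroup.centralizer ({b} : Set G)).subtype)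
    {K : Subgroup G} (hK : Odd (Nat.card K)) (hQK : Q ≤ Subgroup.normalizer (K : Set G)) :
    K = ⊥ := by
  haveI := Fact.mk Nat.prime_two
  set Z := (Subgroup.center Q).map Q.subtype
  by_contra hK1
  obtain ⟨q, hq, hqb⟩ := exists_noncommuting hbQ hbZ
  have hz'Z : (⟨⁅(⟨q, hq⟩ : Q), ⟨b, hbQ⟩⁆, hE.1.2.2 ▸ Subgroup.commutator_mem_commutator
      (Subgroup.mem_top _) (Subgroup.mem_top _)⟩ : Subgroup.center Q) ≠ 1 := by
    intro e
    exact hqb (congrArg Subtype.val (commutatorElement_eq_one_iff_mul_comm.1 (congrArg Subtype.val e)))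
  have hzpow : ∀ w : Subgroup.center Q, w ^ 2 = 1 := by
    intro w
    conv_lhs => arg 2; rw [← hE.2]
    exact pow_card_eq_one'
  set z : G := ⁅q, b⁆ with hz
  have hzmem : z ∈ Z := ⟨⁅(⟨q, hq⟩ : Q), ⟨b, hbQ⟩⁆, hE.1.2.2 ▸ Subgroup.commutator_mem_commutator
      (Subgroup.mem_top _) (Subgroup.mem_top _), rfl⟩
  have hz2 : z * z = 1 := by
    have := congrArg (fun w : Subgroup.center Q => ((w : Q) : G)) (hzpow ⟨⁅(⟨q, hq⟩ : Q), ⟨b, hbQ⟩⁆,
      hE.1.2.2 ▸ Subgroup.commutator_mem_commutator (Subgroup.mem_top _) (Subgroup.mem_top _)⟩)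
    simp only [Subgroup.coe_pow, sq, Subgroup.coe_one, Subgroup.coe_mul, commutatorElement_def, Subgroup.coe_inv] at this
    rw [hz, commutatorElement_def]; exact this
  have hzi : z⁻¹ = z := inv_eq_of_mul_eq_one_right hz2
  have hZeq : ∀ w ∈ Z, w = 1 ∨ w = z := by
    intro w hw
    obtain ⟨w, hwc, rfl⟩ := hw
    by_cases hw1 : (⟨w, hwc⟩ : Subgroup.center Q) = 1
    · exact Or.inl (by have := congrArg (fun u : Subgroup.center Q => ((u : Q) : G)) hw1; simpa using this)
    · right
      exact congrArg (fun u : Subgroup.center Q => ((u : Q) : G)) (eq_of_center_two hE _ _ hw1 hz'Z)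
  have hbb : b * b = 1 := by rw [← sq, ← hb]; exact pow_orderOf_eq_one b
  have hbz : b * z = z * b := by
    obtain ⟨w, hw, e⟩ := hzmem
    rw [← e]
    exact congrArg Subtype.val (Subgroup.mem_center_iff.1 hw (⟨b, hbQ⟩ : Q))
  have hzQ : z ∈ Q := Subgroup.map_subtype_le _ hzmem
  have hconjK : ∀ {u : G}, u ∈ Q → u * u = 1 → ∀ k ∈ K, u * k * u ∈ K := by
    intro u hu huu k hk
    have := (Subgroup.mem_normalizer_iff.1 (hQK hu) k).1 hk
    rwa [inv_eq_of_mul_eq_one_right huu] at this
  -- `z` is fixed-point-free on `K`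
  have hfz : ∀ k ∈ K, k * z = z * k → k = 1 := by
    intro k hk hkz
    have hle : K ⊓ Subgroup.centralizer ({z} : Set G) = ⊥ := by
      refine odd_normalized_eq_bot hE hC hN (Odd.of_dvd_nat hK (Subgroup.card_dvd_of_le inf_le_left)) ?_ ?_
      · intro u hu
        have huC : u ∈ Subgroup.centralizer ({z} : Set G) := by
          rw [Subgroup.mem_centralizer_singleton_iff]
          obtain ⟨w, hw, e⟩ := hzmem
          rw [← e]
          exact congrArg Subtype.val (Subgroup.mem_center_iff.1 hw (⟨u, hu⟩ : Q))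
        rw [Subgroup.mem_normalizer_iff]
        intro m
        have h1 := Subgroup.mem_normalizer_iff.1 (hQK hu) m
        have h2 := Subgroup.mem_normalizer_iff.1 (Subgroup.le_normalizer huC) m
        simp only [Subgroup.mem_inf, SetLike.mem_coe] at *
        rw [h1, h2]
      · intro m hm w hw
        rcases hZeq w hw with rfl | rfl
        · simp
        · exact Subgroup.mem_centralizer_singleton_iff.1 hm.2
    exact (Subgroup.eq_bot_iff_forall _).1 hle k ⟨hk, Subgroup.mem_centralizer_singleton_iff.2 hkz⟩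
  have hinvz := fixedPointFree_inverts hz2 (hconjK hzQ hz2) hfz
  -- `b` is fixed-point-free on `K`
  have hfb : ∀ k ∈ K, k * b = b * k → k = 1 := by
    intro k hk hkb
    set C := Subgroup.centralizer ({b} : Set G)
    have hKC : Odd (Nat.card (K.subgroupOf C)) := by
      refine Odd.of_dvd_nat hK ?_
      have h := Nat.card_congr ((K.subgroupOf C).equivMapOfInjective C.subtype C.subtype_injective).toEquiv
      rw [Subgroup.subgroupOf_map_subtype] at h
      exact (dvd_of_eq h).trans (Subgroup.card_dvd_of_le inf_le_left)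
    obtain ⟨z', hz'c, hz'e⟩ := hZ hzmem
    have hn : Subgroup.zpowers z' ≤ Subgroup.normalizer ((K.subgroupOf C : Subgroup C) : Set C) := by
      rw [Subgroup.zpowers_le, Subgroup.mem_normalizer_iff]
      intro m
      rw [Subgroup.mem_subgroupOf, Subgroup.mem_subgroupOf]
      have := Subgroup.mem_normalizer_iff.1 (hQK hzQ) (m : G)
      rwa [← hz'e] at this
    have h := normalized_centralizes_core hKC (Subgroup.zpowers_le.2 hz'c) hn
      ⟨k, Subgroup.mem_centralizer_singleton_iff.2 hkb⟩ hk z' (Subgroup.mem_zpowers _)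
    have h' : k * z = z * k := by rw [← hz'e]; exact congrArg Subtype.val h
    exact hfz k hk h'
  have hinvb := fixedPointFree_inverts hbb (hconjK hbQ hbb) hfb
  -- hence `bz`, a conjugate of `b`, centralizes `K`
  obtain ⟨k, hk, hk1⟩ := (Subgroup.bot_or_exists_ne_one K).resolve_left hK1
  apply hk1
  have hk' : q⁻¹ * k * q ∈ K := by
    have := (Subgroup.mem_normalizer_iff.1 (hQK (inv_mem hq)) k).1 hk
    simpa using this
  have h1 : (z * b) * k * (z * b)⁻¹ = k := by
    have hinv' : (z * b)⁻¹ = b * z := by rw [mul_inv_rev, hzi, inv_eq_of_mul_eq_one_right hbb]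
    rw [hinv', show z * b * k * (b * z) = z * (b * k * b) * z by group, hinvb k hk,
      hinvz _ (inv_mem hk), inv_inv]
  have h2 : q * b * q⁻¹ = z * b := by rw [hz, commutatorElement_def]; group
  have h3 : b * (q⁻¹ * k * q) * b = q⁻¹ * k * q := by
    have hbi : b⁻¹ = b := inv_eq_of_mul_eq_one_right hbb
    calc b * (q⁻¹ * k * q) * b = q⁻¹ * ((q * b * q⁻¹) * k * (q * b⁻¹ * q⁻¹)) * q := by rw [hbi]; group
      _ = q⁻¹ * ((z * b) * k * (z * b)⁻¹) * q := by rw [← h2]; group
      _ = _ := by rw [h1]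
  rw [hinvb _ hk'] at h3
  have h4 : (q⁻¹ * k * q) ^ 2 = 1 := by rw [sq]; nth_rewrite 1 [← h3]; group
  have h5 : orderOf (q⁻¹ * k * q) ∣ 2 := orderOf_dvd_of_pow_eq_one h4
  have h6 : orderOf (q⁻¹ * k * q) ∣ Nat.card K := Subgroup.orderOf_dvd_natCard K hk'
  rcases (Nat.dvd_prime Nat.prime_two).1 h5 with e | e
  · rw [orderOf_eq_one_iff] at e
    have := congrArg (fun t => q * t * q⁻¹) e
    simpa [mul_assoc] using this
  · exact absurd (e ▸ h6) (fun h2 => (Nat.two_dvd_ne_zero.2 (Nat.odd_iff.1 hK)) h2)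

theorem large_frattini (hQ : IsLargeExtraspecial Q) {L : Subgroup G} [L.Normal] (hQL : Q ≤ L) :
    L ⊔ Subgroup.normalizer (Q : Set G) = ⊤ := by
  haveI := Fact.mk Nat.prime_two
  obtain ⟨hE, hC, hN, -⟩ := hQ
  obtain ⟨T, hT⟩ := (hE.1.1.comap_subtype (K := L)).exists_le_sylow
  have hQT : Q ≤ (T : Subgroup L).map L.subtype := fun x hx =>
    ⟨⟨x, hQL hx⟩, hT (show (⟨x, hQL hx⟩ : L) ∈ Q.comap L.subtype from hx), rfl⟩
  set S := (T : Subgroup L).map L.subtype
  have hZT : ∀ n ∈ Subgroup.normalizer (S : Set G), n ∈ Subgroup.normalizer (Q : Set G) := by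
    intro n hn
    apply hN
    -- the centre of `S` is nontrivial and lies in the centre of `Q`
    have hSp : IsPGroup 2 S := T.2.map L.subtype
    have hne : Nontrivial S := by
      haveI : Nontrivial Q := by
        by_contra h
        rw [not_nontrivial_iff_subsingleton] at h
        exact Cfsg.Agent.FGS3.IsExtraspecial_not_comm hE ⟨⟨fun a b => Subsingleton.elim _ _⟩⟩
      exact (Subgroup.inclusion_injective hQT).nontrivial
    haveI := hne
    have hnt : Nontrivial (Subgroup.center S) := hSp.center_nontrivial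
    obtain ⟨⟨c, hc⟩, hc1⟩ := exists_ne (1 : Subgroup.center S)
    have hcQ : (c : G) ∈ (Subgroup.center Q).map Q.subtype := by
      rw [← hC, Subgroup.mem_centralizer_iff]
      intro q hq
      exact congrArg Subtype.val (Subgroup.mem_center_iff.1 hc ⟨q, hQT hq⟩)
    obtain ⟨w, hw, hwc⟩ := hcQ
    have hnc : n * (c : G) * n⁻¹ = c := by
      have hm : n * (c : G) * n⁻¹ ∈ S := (Subgroup.mem_normalizer_iff.1 hn _).1 c.2
      have hcm : n * (c : G) * n⁻¹ ∈ Subgroup.centralizer (Q : Set G) := by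
        rw [Subgroup.mem_centralizer_iff]
        intro q hq
        have hm' : n⁻¹ * q * n ∈ S := by
          have := (Subgroup.mem_normalizer_iff.1 (inv_mem hn) q).1 (hQT hq)
          simpa using this
        have e : (n⁻¹ * q * n) * c = c * (n⁻¹ * q * n) :=
          congrArg Subtype.val (Subgroup.mem_center_iff.1 hc ⟨_, hm'⟩)
        calc q * (n * (c : G) * n⁻¹) = n * ((n⁻¹ * q * n) * c) * n⁻¹ := by group
          _ = n * (c * (n⁻¹ * q * n)) * n⁻¹ := by rw [e]
          _ = _ := by group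
      rw [hC] at hcm
      obtain ⟨w', hw', hwc'⟩ := hcm
      have h1 : (⟨w, hw⟩ : Subgroup.center Q) ≠ 1 := by
        intro e
        apply hc1
        apply Subtype.ext; apply Subtype.ext
        have := congrArg (fun u : Subgroup.center Q => ((u : Q) : G)) e
        simpa using hwc.symm.trans this
      have h2 : (⟨w', hw'⟩ : Subgroup.center Q) ≠ 1 := by
        intro e
        apply h1
        have e2 : n * (c : G) * n⁻¹ = 1 := by
          have := congrArg (fun u : Subgroup.center Q => ((u : Q) : G)) e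
          simpa using hwc'.symm.trans this
        rw [mul_inv_eq_one, mul_eq_left] at e2
        apply Subtype.ext; apply Subtype.ext
        exact hwc.trans e2
      have : (⟨w', hw'⟩ : Subgroup.center Q) = ⟨w, hw⟩ := eq_of_center_two hE _ _ h2 h1
      rw [← hwc', ← hwc]
      exact congrArg (fun u : Subgroup.center Q => ((u : Q) : G)) this
    rw [Subgroup.mem_centralizer_iff]
    rintro _ ⟨v, hv, rfl⟩
    have hwne : (⟨w, hw⟩ : Subgroup.center Q) ≠ 1 := by
      intro e
      apply hc1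
      apply Subtype.ext; apply Subtype.ext
      have := congrArg (fun u : Subgroup.center Q => ((u : Q) : G)) e
      simpa using hwc.symm.trans this
    by_cases hv1 : (⟨v, hv⟩ : Subgroup.center Q) = 1
    · have : (v : G) = 1 := congrArg (fun u : Subgroup.center Q => ((u : Q) : G)) hv1
      show (v : G) * n = n * (v : G)
      rw [this]; simp
    · have hvw : (⟨v, hv⟩ : Subgroup.center Q) = ⟨w, hw⟩ := eq_of_center_two hE _ _ hv1 hwne
      have : (v : G) = c := (congrArg (fun u : Subgroup.center Q => ((u : Q) : G)) hvw).trans hwc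
      show (v : G) * n = n * (v : G)
      rw [this]
      exact (mul_inv_eq_iff_eq_mul.1 hnc).symm
  have := Sylow.normalizer_sup_eq_top T
  rw [eq_top_iff, ← this]
  exact sup_le (fun n hn => le_sup_right (α := Subgroup G) (hZT n hn)) le_sup_left

end Cfsg.Agent.Fischer
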