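import Cfsg.Agent.Fischer.ExtraCent
import Cfsg.Agent.Fischer.Large

/-! A conjugate of the centre inside a large width extraspecial subgroup. -/

set_option autoImplicit false
open Cfsg
open scoped commutatorElement

namespace Cfsg.Agent.Fischer

variable {G : Type*} [Group G] [Finite G]

namespace CoreLike

variable {z x : G} {E : Subgroup G}

/-- If `C_E(x)` is abelian then `|E| ≤ 8`. -/
theorem card_le_eight (h : CoreLike z E) (hx : x ∈ E) (hxx : x * x = 1) (hx1 : x ≠ 1) (hxz : x ≠ z)
    (hab : ∀ a ∈ E, ∀ b ∈ E, a * x = x * a → b * x = x * b → a * b = b * a) :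
    Nat.card E ≤ 8 := by
  obtain ⟨q0, hq0, hq0x⟩ : ∃ q ∈ E, q * x ≠ x * q := by
    by_contra hn
    push_neg at hn
    rcases h.center x hx hn with e | e
    · exact hx1 e
    · exact hxz e
  have hqx : ⁅q0, x⁆ = z := (h.brack q0 hq0 x hx).resolve_left
    fun e => hq0x (commutatorElement_eq_one_iff_mul_comm.1 e)
  have hqx' : q0 * x = z * (x * q0) := by rw [← hqx, commutatorElement_def]; group
  have hP : ∀ a ∈ E, a * x = x * a → a = 1 ∨ a = z ∨ a = x ∨ a = x * z := fun a ha hax =>
    h.cent_cases hx hxx hx1 hxz ha fun b hb hbx => hab b hb a ha hbx hax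
  let f : Bool × Bool × Bool → E := fun t =>
    ⟨(if t.1 then q0 else 1) * ((if t.2.1 then x else 1) * (if t.2.2 then z else 1)),
      mul_mem (by split_ifs <;> simp [hq0, one_mem])
        (mul_mem (by split_ifs <;> simp [hx, one_mem]) (by split_ifs <;> simp [h.mem, one_mem]))⟩
  have hcases : ∀ a ∈ E, a * x = x * a → ∃ i j : Bool,
      a = (if i then x else 1) * (if j then z else 1) := by
    intro a ha hax
    rcases hP a ha hax with e | e | e | e
    · exact ⟨false, false, by simp [e]⟩
    · exact ⟨false, true, by simp [e]⟩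
    · exact ⟨true, false, by simp [e]⟩
    · exact ⟨true, true, by simp [e]⟩
  have hf : Function.Surjective f := by
    rintro ⟨v, hv⟩
    rcases h.brack v hv x hx with e | e
    · obtain ⟨i, j, e'⟩ := hcases v hv (commutatorElement_eq_one_iff_mul_comm.1 e)
      exact ⟨(false, i, j), Subtype.ext (by simp [f, e'])⟩
    · have hvx : v * x = z * (x * v) := by rw [← e, commutatorElement_def]; group
      obtain ⟨i, j, e'⟩ := hcases (q0⁻¹ * v) (mul_mem (inv_mem hq0) hv) (by
        calc q0⁻¹ * v * x = q0⁻¹ * (z * (x * v)) := by rw [mul_assoc, hvx]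
          _ = q0⁻¹ * (z * (x * q0)) * (q0⁻¹ * v) := by group
          _ = q0⁻¹ * (q0 * x) * (q0⁻¹ * v) := by rw [hqx']
          _ = _ := by group)
      exact ⟨(true, i, j), Subtype.ext (by simp [f, ← e'])⟩
  simpa [Nat.card_eq_fintype_card] using Nat.card_le_card_of_surjective f hf

end CoreLike

/-- The group induced on a four-group `{1, z, x, x z}` by its normalizer, when it contains two
transpositions. -/
theorem relIndex_six {z x q₀ q₁ : G} {U : Subgroup G} (hz1 : z ≠ 1) (hx1 : x ≠ 1) (hxz : x ≠ z)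
    (hzz : z * z = 1) (hxx : x * x = 1) (hzU : z ∈ U) (hxU : x ∈ U)
    (hU : ∀ u ∈ U, u = 1 ∨ u = z ∨ u = x ∨ u = x * z)
    (h0 : q₀ * z * q₀⁻¹ = z) (h0' : q₀ * x * q₀⁻¹ = x * z)
    (h1 : q₁ * x * q₁⁻¹ = x) (h1' : q₁ * z * q₁⁻¹ = x * z) :
    (Subgroup.centralizer (U : Set G)).relIndex (Subgroup.normalizer (U : Set G)) = 6 := by
  classical
  set α := {v : G // v = z ∨ v = x ∨ v = x * z}
  have hxz1 : x * z ≠ 1 := fun e => hxz (by
    calc x = x * z * z := by rw [mul_assoc, hzz, mul_one]
      _ = z := by rw [e, one_mul])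
  have hxzx : x * z ≠ x := fun e => hz1 (mul_eq_left.1 e)
  have hxzz : x * z ≠ z := fun e => hx1 (mul_eq_right.1 e)
  have hα1 : ∀ v : α, (v : G) ≠ 1 ∧ (v : G) ∈ U := by
    rintro ⟨v, rfl | rfl | rfl⟩
    exacts [⟨hz1, hzU⟩, ⟨hx1, hxU⟩, ⟨hxz1, mul_mem hxU hzU⟩]
  set N := Subgroup.normalizer (U : Set G)
  have hmove : ∀ (f : N) (v : α), (f : G) * v * (f : G)⁻¹ = z ∨ (f : G) * v * (f : G)⁻¹ = x ∨
      (f : G) * v * (f : G)⁻¹ = x * z := by
    intro f v
    rcases hU _ ((Subgroup.mem_normalizer_iff.1 f.2 v).1 (hα1 v).2) with e | e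
    · exact absurd (conj_eq_one_iff.1 e) (hα1 v).1
    · exact e
  let act : MulAction N α :=
    { smul := fun f v => ⟨(f : G) * v * (f : G)⁻¹, hmove f v⟩
      one_smul := fun v => Subtype.ext (by show ((1 : N) : G) * (v : G) * ((1 : N) : G)⁻¹ = v; simp)
      mul_smul := fun f g v => Subtype.ext (by
        show ((f * g : N) : G) * (v : G) * ((f * g : N) : G)⁻¹ =
          (f : G) * ((g : G) * (v : G) * (g : G)⁻¹) * (f : G)⁻¹
        push_cast; group) }
  let θ : N →* Equiv.Perm α := @MulAction.toPermHom N α _ act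
  have hθ : ∀ (f : N) (v : α), ((θ f v : α) : G) = (f : G) * v * (f : G)⁻¹ := fun _ _ => rfl
  have hker : θ.ker = (Subgroup.centralizer (U : Set G)).subgroupOf N := by
    ext f
    rw [MonoidHom.mem_ker, Subgroup.mem_subgroupOf, Subgroup.mem_centralizer_iff]
    constructor
    · intro e u hu
      have hfix : ∀ v : α, (v : G) * f = f * v := fun v => by
        have := hθ f v
        rw [e] at this
        have e' : (v : G) = f * v * (f : G)⁻¹ := this
        conv_lhs => rw [e']
        group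
      have hz' : z * f = f * z := hfix ⟨z, Or.inl rfl⟩
      have hx' : x * f = f * x := hfix ⟨x, Or.inr (Or.inl rfl)⟩
      rcases hU u hu with e | e | e | e <;> rw [e]
      · simp
      · exact hz'
      · exact hx'
      · exact hfix ⟨x * z, Or.inr (Or.inr rfl)⟩
    · intro e
      ext v
      rw [hθ, ← e v (hα1 v).2]
      show (v : G) * f * (f : G)⁻¹ = v
      group
  have hnorm : ∀ q : G, (q * z * q⁻¹ ∈ U) → (q * x * q⁻¹ ∈ U) →
      q ∈ Subgroup.normalizer (U : Set G) := by
    intro q hz' hx'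
    have hmem : ∀ u ∈ U, q * u * q⁻¹ ∈ U := by
      intro u hu
      rcases hU u hu with e | e | e | e <;> rw [e]
      · simp
      · exact hz'
      · exact hx'
      · rw [show q * (x * z) * q⁻¹ = (q * x * q⁻¹) * (q * z * q⁻¹) by group]
        exact mul_mem hx' hz'
    exact (mem_normalizer_of_map_le (U := U) hmem)
  let a : N := ⟨q₀, hnorm q₀ (h0.symm ▸ hzU) (h0'.symm ▸ mul_mem hxU hzU)⟩
  let b : N := ⟨q₁, hnorm q₁ (h1'.symm ▸ mul_mem hxU hzU) (h1.symm ▸ hxU)⟩
  let vz : α := ⟨z, Or.inl rfl⟩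
  let vx : α := ⟨x, Or.inr (Or.inl rfl)⟩
  let vy : α := ⟨x * z, Or.inr (Or.inr rfl)⟩
  have ha : θ a = Equiv.swap vx vy := by
    ext v
    rw [hθ]
    rcases v with ⟨v, hv | hv | hv⟩ <;> subst v
    · rw [Equiv.swap_apply_of_ne_of_ne]
      · exact h0
      · exact fun e => hxz (congrArg Subtype.val e).symm
      · exact fun e => hxzz (congrArg Subtype.val e).symm
    · rw [show (⟨x, _⟩ : α) = vx from rfl, Equiv.swap_apply_left]
      exact h0'
    · rw [show (⟨x * z, _⟩ : α) = vy from rfl, Equiv.swap_apply_right]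
      show q₀ * (x * z) * q₀⁻¹ = x
      rw [show q₀ * (x * z) * q₀⁻¹ = (q₀ * x * q₀⁻¹) * (q₀ * z * q₀⁻¹) by group, h0, h0',
        mul_assoc, hzz, mul_one]
  have hb : θ b = Equiv.swap vz vy := by
    ext v
    rw [hθ]
    rcases v with ⟨v, hv | hv | hv⟩ <;> subst v
    · rw [show (⟨z, _⟩ : α) = vz from rfl, Equiv.swap_apply_left]
      exact h1'
    · rw [Equiv.swap_apply_of_ne_of_ne]
      · exact h1
      · exact fun e => hxz (congrArg Subtype.val e)
      · exact fun e => hxzx (congrArg Subtype.val e).symm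
    · rw [show (⟨x * z, _⟩ : α) = vy from rfl, Equiv.swap_apply_right]
      show q₁ * (x * z) * q₁⁻¹ = z
      rw [show q₁ * (x * z) * q₁⁻¹ = (q₁ * x * q₁⁻¹) * (q₁ * z * q₁⁻¹) by group, h1, h1',
        ← mul_assoc, hxx, one_mul]
  have hxy : vx ≠ vy := fun e => hxzx (congrArg Subtype.val e).symm
  have hzy : vz ≠ vy := fun e => hxzz (congrArg Subtype.val e).symm
  haveI : Finite α := Subtype.finite
  letI : Fintype α := Fintype.ofFinite α
  have hcard : Nat.card α ≤ 3 := by
    let f : Fin 3 → α := ![vz, vx, vy]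
    have hf : Function.Surjective f := by
      rintro ⟨v, rfl | rfl | rfl⟩
      exacts [⟨0, rfl⟩, ⟨1, rfl⟩, ⟨2, rfl⟩]
    simpa using Nat.card_le_card_of_surjective f hf
  have hperm : Nat.card (Equiv.Perm α) ≤ 6 := by
    rw [Nat.card_perm]
    exact le_trans (Nat.factorial_le hcard) (by decide)
  have hR : Nat.card θ.range = 6 := by
    have hle : Nat.card θ.range ≤ 6 :=
      le_trans (Subgroup.card_le_card_group _) hperm
    have hdvd : orderOf (θ a) ∣ Nat.card θ.range :=
      Subgroup.orderOf_dvd_natCard _ ⟨a, rfl⟩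
    have hab : orderOf (θ a * θ b) ∣ Nat.card θ.range :=
      Subgroup.orderOf_dvd_natCard _ ⟨a * b, map_mul θ a b⟩
    have h2 : orderOf (θ a) = 2 := by
      rw [ha]
      exact orderOf_eq_prime (by rw [pow_two, Equiv.swap_mul_self]) fun e => hxy (by
        have := congrArg (fun p : Equiv.Perm α => p vx) e
        simpa using this.symm)
    have h3 : orderOf (θ a * θ b) = 3 := by
      haveI := Fact.mk Nat.prime_three
      have hzx' : vz ≠ vx := fun e => hxz (congrArg Subtype.val e).symm
      refine orderOf_eq_prime ?_ ?_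
      · rw [ha, hb]
        ext v
        rcases v with ⟨v, rfl | rfl | rfl⟩
        · show (((Equiv.swap vx vy * Equiv.swap vz vy) ^ 3) vz : α).1 = _
          simp [pow_succ, Equiv.swap_apply_def, hxy, hzy, hzx', hxy.symm, hzy.symm, hzx'.symm]; rfl
        · show (((Equiv.swap vx vy * Equiv.swap vz vy) ^ 3) vx : α).1 = _
          simp [pow_succ, Equiv.swap_apply_def, hxy, hzy, hzx', hxy.symm, hzy.symm, hzx'.symm]; rfl
        · show (((Equiv.swap vx vy * Equiv.swap vz vy) ^ 3) vy : α).1 = _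
          simp [pow_succ, Equiv.swap_apply_def, hxy, hzy, hzx', hxy.symm, hzy.symm, hzx'.symm]; rfl
      · rw [ha, hb]
        intro e
        have := congrArg (fun p : Equiv.Perm α => p vz) e
        simp [Equiv.swap_apply_def, hxy, hzy, hzx', hxy.symm, hzy.symm, hzx'.symm] at this
    rw [h2] at hdvd
    rw [h3] at hab
    have : 6 ∣ Nat.card θ.range := Nat.Coprime.mul_dvd_of_dvd_of_dvd (by norm_num) hdvd hab
    exact le_antisymm hle (Nat.le_of_dvd Nat.card_pos this)
  rw [← hR, Subgroup.relIndex, ← hker, Subgroup.index_ker]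
where
  mem_normalizer_of_map_le {U : Subgroup G} {q : G} (hmem : ∀ u ∈ U, q * u * q⁻¹ ∈ U) :
      q ∈ Subgroup.normalizer (U : Set G) := by
    refine Subgroup.mem_normalizer_iff.2 fun u => ⟨hmem u, fun hu => ?_⟩
    let f : U → U := fun v => ⟨q * v * q⁻¹, hmem v v.2⟩
    have hf : Function.Injective f := fun v w e => Subtype.ext
      (mul_left_cancel (mul_right_cancel (congrArg Subtype.val e)))
    obtain ⟨w, hw⟩ := Finite.injective_iff_surjective.1 hf ⟨_, hu⟩
    have : (w : G) = u := mul_left_cancel (mul_right_cancel (congrArg Subtype.val hw))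
    exact this ▸ w.2

theorem width_two_conjugate {Q : Subgroup G} (hE : IsExtraspecial 2 Q)
    (hC : Subgroup.centralizer (Q : Set G) = (Subgroup.center Q).map Q.subtype)
    (hN : Subgroup.centralizer (((Subgroup.center Q).map Q.subtype : Subgroup G) : Set G) ≤
      Subgroup.normalizer (Q : Set G))
    {w : ℕ} (hw : 2 ≤ w) (hcard : Nat.card Q = 2 ^ (2 * w + 1)) {g : G}
    (hg : g ∉ Subgroup.normalizer (((Subgroup.center Q).map Q.subtype : Subgroup G) : Set G))
    (hZg : ((Subgroup.center Q).map Q.subtype).map (MulAut.conj g).toMonoidHom ≤ Q) :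
    (Subgroup.center Q).map Q.subtype ≤ Q.map (MulAut.conj g).toMonoidHom ∧
      (Subgroup.centralizer ((((Subgroup.center Q).map Q.subtype) ⊔
        ((Subgroup.center Q).map Q.subtype).map (MulAut.conj g).toMonoidHom : Subgroup G) :
          Set G)).relIndex (Subgroup.normalizer ((((Subgroup.center Q).map Q.subtype) ⊔
        ((Subgroup.center Q).map Q.subtype).map (MulAut.conj g).toMonoidHom : Subgroup G) :
          Set G)) = 6 ∧ IsLargeExtraspecial Q := by
  classical
  haveI := Fact.mk Nat.prime_two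
  set Z := (Subgroup.center Q).map Q.subtype with hZdef
  have hZQ : Z ≤ Q := Subgroup.map_subtype_le _
  have hZcard : Nat.card Z = 2 := by
    rw [hZdef, Subgroup.card_map_of_injective Q.subtype_injective]; exact hE.2
  haveI : Fact (Nat.Prime 2) := ⟨Nat.prime_two⟩
  obtain ⟨⟨z, hzZ⟩, hz⟩ := exists_prime_orderOf_dvd_card' 2 (dvd_of_eq hZcard.symm)
  rw [Subgroup.orderOf_mk] at hz
  have hzz : z * z = 1 := by
    have := pow_orderOf_eq_one z
    rwa [hz, pow_two] at this
  have hz1 : z ≠ 1 := fun e => by simp [e] at hz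
  have hZmem : ∀ u : G, u ∈ Z ↔ u = 1 ∨ u = z := by
    intro u
    constructor
    · intro hu
      have hZ : Subgroup.zpowers z = Z :=
        Subgroup.eq_of_le_of_card_ge (Subgroup.zpowers_le.2 hzZ)
          (by rw [hZcard, Nat.card_zpowers, hz])
      rw [← hZ, mem_zpowers_iff_mem_range_orderOf, hz] at hu
      obtain ⟨i, hi, rfl⟩ := Finset.mem_image.1 hu
      have := Finset.mem_range.1 hi
      interval_cases i <;> simp
    · rintro (rfl | rfl)
      exacts [one_mem _, hzZ]
  have hcomm : ∀ q ∈ Q, q * z = z * q := fun q hq => by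
    obtain ⟨c, hc, rfl⟩ := hzZ
    exact congrArg Subtype.val (Subgroup.mem_center_iff.1 hc ⟨q, hq⟩)
  have hnorm : ∀ c : G, c * z = z * c → ∀ q ∈ Q, c * q * c⁻¹ ∈ Q := fun c hc q hq =>
    (Subgroup.mem_normalizer_iff.1 (hN (Subgroup.mem_centralizer_iff.2 fun u hu => by
      rcases (hZmem u).1 hu with e | e <;> rw [e]
      · simp
      · exact hc.symm)) q).1 hq
  have hC' : Subgroup.centralizer (Q : Set G) ≤ Q := hC.le.trans hZQ
  have h : CoreLike z Q := coreLike hz hcomm hnorm hE hC'
  set x := g * z * g⁻¹ with hxdef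
  have hxQ : x ∈ Q := hZg ⟨z, hzZ, rfl⟩
  have hX : CoreLike x (LocalEven.cj g Q) := h.conj g
  have hxz : x ≠ z := fun e => hg (by
    refine relIndex_six.mem_normalizer_of_map_le (U := Z) fun u hu => ?_
    rcases (hZmem u).1 hu with rfl | rfl
    · simp
    · rw [← hxdef, e]; exact hzZ)
  obtain ⟨a, ha, b, hb, hax, hbx, hne⟩ : ∃ a ∈ Q, ∃ b ∈ Q, a * x = x * a ∧ b * x = x * b ∧
      a * b ≠ b * a := by
    by_contra hn
    push_neg at hn
    have h8 := h.card_le_eight hxQ hX.sq hX.ne hxz hn
    rw [hcard] at h8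
    have h32 : 2 ^ 5 ≤ 2 ^ (2 * w + 1) := Nat.pow_le_pow_right (by norm_num) (by omega)
    omega
  have hzF : z ∈ LocalEven.cj g Q := h.symm_mem' rfl hxQ hxz ha hb hax hbx hne
  refine ⟨fun u hu => ?_, ?_, ⟨hE, hC, hN, ?_⟩⟩
  · show u ∈ LocalEven.cj g Q
    rcases (hZmem u).1 hu with e | e <;> rw [e]
    exacts [one_mem _, hzF]
  · set U := Z ⊔ Z.map (MulAut.conj g).toMonoidHom with hUdef
    have hxZ' : x ∈ Z.map (MulAut.conj g).toMonoidHom := ⟨z, hzZ, rfl⟩
    have hzx : z * x = x * z := (hcomm x hxQ).symm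
    obtain ⟨q₀, hq₀, hq₀x⟩ : ∃ q ∈ Q, q * x ≠ x * q := by
      by_contra hn
      push_neg at hn
      rcases h.center x hxQ hn with e | e
      · exact hX.ne e
      · exact hxz e
    obtain ⟨q₁, hq₁, hq₁z⟩ : ∃ q ∈ LocalEven.cj g Q, q * z ≠ z * q := by
      by_contra hn
      push_neg at hn
      rcases hX.center z hzF hn with e | e
      · exact hz1 e
      · exact hxz e.symm
    refine relIndex_six hz1 hX.ne hxz hzz hX.sq (Subgroup.mem_sup_left hzZ)
      (Subgroup.mem_sup_right hxZ') ?_ (q₀ := q₀) (q₁ := q₁) ?_ ?_ ?_ ?_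
    · intro u hu
      rw [hUdef, Subgroup.sup_eq_closure] at hu
      refine (Subgroup.closure_induction
        (p := fun u _ => u = 1 ∨ u = z ∨ u = x ∨ u = x * z) ?_ ?_ ?_ ?_ hu)
      · rintro u (hu | ⟨v, hv, rfl⟩)
        · rcases (hZmem u).1 hu with e | e
          · exact Or.inl e
          · exact Or.inr (Or.inl e)
        · rcases (hZmem v).1 hv with e | e
          · left; simp [e]
          · exact Or.inr (Or.inr (Or.inl (by rw [e]; rfl)))
      · exact Or.inl rfl
      · have hxx := hX.sq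
        have e1 : z * (x * z) = x := by rw [← mul_assoc, hzx, mul_assoc, hzz, mul_one]
        have e2 : x * (x * z) = z := by rw [← mul_assoc, hxx, one_mul]
        have e3 : x * z * x = z := by rw [mul_assoc, hzx, ← mul_assoc, hxx, one_mul]
        have e4 : x * z * z = x := by rw [mul_assoc, hzz, mul_one]
        have e5 : x * z * (x * z) = 1 := by rw [mul_assoc, e1, hxx]
        intro u v _ _ hu hv
        rcases hu with e | e | e | e <;> rcases hv with e' | e' | e' | e' <;> rw [e, e'] <;>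
          simp [hzz, hxx, hzx, e1, e2, e3, e4, e5]
      · have hzi : z⁻¹ = z := inv_eq_of_mul_eq_one_right hzz
        have hxi : x⁻¹ = x := inv_eq_of_mul_eq_one_right hX.sq
        rintro u - (rfl | rfl | rfl | rfl) <;> simp [hzi, hxi, hzx]
    · rw [hcomm q₀ hq₀]; group
    · rcases h.brack q₀ hq₀ x hxQ with e | e
      · exact absurd (commutatorElement_eq_one_iff_mul_comm.1 e) hq₀x
      · rw [← hzx, ← e, commutatorElement_def]; group
    · rw [hX.comm q₁ hq₁]; group
    · rcases hX.brack q₁ hq₁ z hzF with e | e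
      · exact absurd (commutatorElement_eq_one_iff_mul_comm.1 e) hq₁z
      · rw [← e, commutatorElement_def]; group
  · intro K hK hQK
    refine large_of_involution hE hC hN hxQ (fun e => ?_) (orderOf_eq_prime (by rw [pow_two]; exact hX.sq) hX.ne) ?_ hK hQK
    · rcases (hZmem x).1 e with e | e
      · exact hX.ne e
      · exact hxz e
    · intro u hu
      have huF : u ∈ LocalEven.cj g Q := by
        rcases (hZmem u).1 hu with e | e <;> rw [e]
        exacts [one_mem _, hzF]
      set C := Subgroup.centralizer ({x} : Set G)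
      have hFC : LocalEven.cj g Q ≤ C := fun q hq => mem_cent_singleton.2 (hX.comm q hq)
      haveI : ((LocalEven.cj g Q).subgroupOf C).Normal :=
        (Subgroup.normal_subgroupOf_iff hFC).2 fun a c ha hc => hX.norm c (mem_cent_singleton.1 hc) a ha
      have hp : IsPGroup 2 ((LocalEven.cj g Q).subgroupOf C) :=
        (LocalEven.isPGroup_cj hE.1.1).of_equiv (Subgroup.subgroupOfEquivOfLe hFC).symm
      exact ⟨⟨u, hFC huF⟩, Core.le_pCore inferInstance hp (show (⟨u, hFC huF⟩ : C) ∈ _ from huF), rfl⟩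

end Cfsg.Agent.Fischer
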