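import Cfsg.Agent.Fischer.RankOne

/-! Elementary theory of sets of abstract root subgroups. -/

set_option autoImplicit false
open Cfsg
open scoped commutatorElement

namespace Cfsg.Agent.Fischer

variable {G : Type*} [Group G] {S : Set (Subgroup G)}

theorem cb_bot {A B : Subgroup G} {g : G} (h : ⁅A, B⁆ = ⊥) : ⁅conjBy A g, conjBy B g⁆ = ⊥ := by
  show ⁅A.map _, B.map _⁆ = ⊥
  rw [← Subgroup.map_commutator, h, Subgroup.map_bot]

theorem bot_symm {A B : Subgroup G} (h : ⁅A, B⁆ = ⊥) : ⁅B, A⁆ = ⊥ := by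
  rw [Subgroup.commutator_comm]; exact h

theorem rankOne_cb {A B : Subgroup G} (h : IsRankOnePair A B) (g : G) :
    IsRankOnePair (conjBy A g) (conjBy B g) := by
  have key : ∀ {A B : Subgroup G}, RankOneCondition A B → RankOneCondition (conjBy A g) (conjBy B g) := by
    intro A B hc a ha ha1
    rw [mem_cb] at ha
    obtain ⟨b, hb, hb1, e⟩ := hc _ ha (by
      intro e; apply ha1
      have := congrArg (fun t => g * t * g⁻¹) e
      simpa [mul_assoc] using this)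
    refine ⟨g * b * g⁻¹, cb_mem g hb, by simp [mul_inv_eq_one, hb1], ?_⟩
    have := congrArg (fun C => conjBy C g) e
    simpa [cb_cb, mul_assoc] using this
  refine ⟨fun e => h.ne (cb_inj.1 e), ?_, ?_, key h.cond_left, key h.cond_right⟩
  · haveI := h.nilpotent_left
    exact Group.nilpotent_of_mulEquiv (Subgroup.equivMapOfInjective A _ (MulAut.conj g).injective)
  · haveI := h.nilpotent_right
    exact Group.nilpotent_of_mulEquiv (Subgroup.equivMapOfInjective B _ (MulAut.conj g).injective)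

section Case

variable {A B : Subgroup G} (h : RootCommutatorCase S A B)
include h

theorem case_symm : RootCommutatorCase S B A := by
  have key : ∀ (T : Set G) (x : G),
      Subgroup.closure ((fun b : G => b * x * b⁻¹ * x⁻¹) '' T) =
        Subgroup.closure ((fun b : G => x * b * x⁻¹ * b⁻¹) '' T) := by
    intro T x
    apply le_antisymm <;> rw [Subgroup.closure_le] <;> rintro _ ⟨b, hb, rfl⟩
    · have := inv_mem ((Subgroup.subset_closure ⟨b, hb, rfl⟩ : x * b * x⁻¹ * b⁻¹ ∈ Subgroup.closure ((fun b : G => x * b * x⁻¹ * b⁻¹) '' T)))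
      simpa [mul_assoc] using this
    · have := inv_mem ((Subgroup.subset_closure ⟨b, hb, rfl⟩ : b * x * b⁻¹ * x⁻¹ ∈ Subgroup.closure ((fun b : G => b * x * b⁻¹ * x⁻¹) '' T)))
      simpa [mul_assoc] using this
  obtain ⟨h1, h2, h3, h4⟩ := h
  refine ⟨?_, ?_, ?_, ?_⟩
  · rwa [Subgroup.commutator_comm]
  · rwa [Subgroup.commutator_comm, sup_comm]
  · intro b hb hb1; rw [← key, Subgroup.commutator_comm]; exact h4 b hb hb1
  · intro a ha ha1; rw [key, Subgroup.commutator_comm]; exact h3 a ha ha1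

theorem case_comm {c x : G} (hc : c ∈ ⁅A, B⁆) (hx : x ∈ A ⊔ B) : c * x = x * c := h.2.1 c hc x hx

theorem case_comm_left : ⁅⁅A, B⁆, A⁆ = ⊥ :=
  bot_of_commute fun _ hc _ hx => case_comm h hc (le_sup_left (α := Subgroup G) hx)

theorem case_comm_right : ⁅⁅A, B⁆, B⁆ = ⊥ :=
  bot_of_commute fun _ hc _ hx => case_comm h hc (le_sup_right (α := Subgroup G) hx)

theorem case_mul_right {a b b' : G} (ha : a ∈ A) (hb : b ∈ B) (hb' : b' ∈ B) :
    ⁅a, b * b'⁆ = ⁅a, b⁆ * ⁅a, b'⁆ := by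
  have e : ⁅a, b'⁆ * b⁻¹ = b⁻¹ * ⁅a, b'⁆ :=
    case_comm h (Subgroup.commutator_mem_commutator ha hb') (le_sup_right (α := Subgroup G) (inv_mem hb))
  calc ⁅a, b * b'⁆ = ⁅a, b⁆ * b * (⁅a, b'⁆ * b⁻¹) := by simp [commutatorElement_def, mul_assoc]
    _ = ⁅a, b⁆ * b * (b⁻¹ * ⁅a, b'⁆) := by rw [e]
    _ = ⁅a, b⁆ * ⁅a, b'⁆ := by simp [mul_assoc]

theorem case_inv_right {a b : G} (ha : a ∈ A) (hb : b ∈ B) : ⁅a, b⁻¹⁆ = ⁅a, b⁆⁻¹ := by
  apply eq_inv_of_mul_eq_one_right
  rw [← case_mul_right h ha hb (inv_mem hb)]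
  simp [commutatorElement_def]

/-- For `a ∈ A#`, the map `b ↦ ⁅a, b⁆` is onto `⁅A, B⁆`. -/
theorem case_surj {a : G} (ha : a ∈ A) (ha1 : a ≠ 1) {c : G} (hc : c ∈ ⁅A, B⁆) :
    ∃ b ∈ B, ⁅a, b⁆ = c := by
  rw [← h.2.2.1 a ha ha1] at hc
  refine Subgroup.closure_induction (p := fun c _ => ∃ b ∈ B, ⁅a, b⁆ = c) ?_ ?_ ?_ ?_ hc
  · rintro _ ⟨b, hb, rfl⟩; exact ⟨b, hb, commutatorElement_def a b⟩
  · exact ⟨1, one_mem _, by simp [commutatorElement_def]⟩
  · rintro _ _ _ _ ⟨b, hb, rfl⟩ ⟨b', hb', rfl⟩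
    exact ⟨b * b', mul_mem hb hb', case_mul_right h ha hb hb'⟩
  · rintro _ _ ⟨b, hb, rfl⟩
    exact ⟨b⁻¹, inv_mem hb, case_inv_right h ha hb⟩

theorem case_cb_le {a : G} (ha : a ∈ A) : conjBy B a ≤ B ⊔ ⁅A, B⁆ := by
  intro x hx
  rw [mem_cb] at hx
  have e : x = ⁅a, a⁻¹ * x * a⁆ * (a⁻¹ * x * a) := by simp [commutatorElement_def, mul_assoc]
  rw [e]
  exact mul_mem (le_sup_right (α := Subgroup G) (Subgroup.commutator_mem_commutator ha hx))
    (le_sup_left (α := Subgroup G) hx)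

end Case

variable (hS : IsRootSubgroupSet S)
include hS

theorem member_comm {A : Subgroup G} (hA : A ∈ S) {x y : G} (hx : x ∈ A) (hy : y ∈ A) :
    x * y = y * x := by
  haveI := hS.commutative A hA
  exact congrArg Subtype.val (mul_comm' (⟨x, hx⟩ : A) ⟨y, hy⟩)

theorem exists_mem_ne_one {A : Subgroup G} (hA : A ∈ S) : ∃ a ∈ A, a ≠ 1 :=
  (Subgroup.bot_or_exists_ne_one A).resolve_left (hS.ne_bot A hA)

theorem case_not_bot {A B : Subgroup G} (h : RootCommutatorCase S A B) : ⁅A, B⁆ ≠ ⊥ :=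
  hS.ne_bot _ h.1

theorem pair_case {A B : Subgroup G} (hA : A ∈ S) (hB : B ∈ S) (hn : ¬ IsRankOnePair A B)
    (hc : ⁅A, B⁆ ≠ ⊥) : RootCommutatorCase S A B :=
  ((hS.pair A hA B hB).resolve_left hc).resolve_left hn

theorem exists_partner {A : Subgroup G} (hA : A ∈ S) (h : ¬ IsIsolatedIn (FAdj S) S A) :
    ∃ F ∈ S, IsRankOnePair A F := by
  by_contra hne
  push_neg at hne
  exact h ⟨hA, fun B => ⟨fun e => hne B e.2.1 e.2.2, fun e => hne B e.1 (symm e.2.2)⟩⟩

/-- If `(E, F)` is not a rank one pair, then conjugates of `F` under `E` commute with `F`. -/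
theorem cb_commute {E F : Subgroup G} (hE : E ∈ S) (hF : F ∈ S) (hn : ¬ IsRankOnePair E F)
    {e : G} (he : e ∈ E) : ⁅conjBy F e, F⁆ = ⊥ := by
  by_cases hc : ⁅E, F⁆ = ⊥
  · rw [cb_of_commute fun f hf => commute_cb_right hc he hf]
    exact bot_of_commute fun x hx y hy => member_comm hS hF hx hy
  · have h := pair_case hS hE hF hn hc
    rw [Subgroup.commutator_eq_bot_iff_le_centralizer]
    refine (case_cb_le h he).trans (sup_le ?_ ?_)
    · rw [← Subgroup.commutator_eq_bot_iff_le_centralizer]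
      exact bot_of_commute fun x hx y hy => member_comm hS hF hx hy
    · rw [← Subgroup.commutator_eq_bot_iff_le_centralizer]
      exact case_comm_right h

/-- Two elements of different members acting in the same way on a partner. -/
theorem same_action {A E F : Subgroup G} (hE : E ∈ S) (hF : F ∈ S) (hAF : IsRankOnePair A F)
    {a e : G} (ha : a ∈ A) (ha1 : a ≠ 1) (he : e ∈ E) (hact : conjBy F e = conjBy F a) :
    IsRankOnePair E F ∧ E ∈ unipotentSubgroups A F := by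
  have hne : conjBy F a ≠ F := fun e => ha1 (eq_one_of_normalize hAF ha (cb_eq_self.1 e))
  have hEF : IsRankOnePair E F := by
    by_contra hn
    have := cb_commute hS hE hF hn he
    rw [hact] at this
    exact hne (eq_of_commute hAF (unipotent_conj (right_mem hAF)
      (le_sup_left (α := Subgroup G) ha)) (right_mem hAF) this)
  refine ⟨hEF, ?_⟩
  have he1 : e ≠ 1 := by
    rintro rfl
    rw [cb_one] at hact
    exact hne hact.symm
  obtain ⟨f, hf, _, hc⟩ := hEF.cond_left e⁻¹ (inv_mem he) (by simpa using he1)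
  rw [inv_inv, hact, cb_eq_iff] at hc
  rw [hc]
  exact unipotent_conj (unipotent_conj (right_mem hAF) (le_sup_left (α := Subgroup G) ha))
    (by simpa using (le_sup_right (α := Subgroup G) hf : f ∈ A ⊔ F))

theorem eq_of_inter {A B : Subgroup G} (hA : A ∈ S) (hni : ¬ IsIsolatedIn (FAdj S) S A)
    (hB : B ∈ S) {x : G} (hxA : x ∈ A) (hxB : x ∈ B) (hx1 : x ≠ 1) : A = B := by
  obtain ⟨F, hF, hAF⟩ := exists_partner hS hA hni
  obtain ⟨-, hu⟩ := same_action hS hB hF hAF hxA hx1 hxB rfl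
  by_contra hne
  exact hx1 (eq_one_of_normalize' hAF self_mem hu hne hxA (Subgroup.le_normalizer hxB))

theorem not_isolated_of_pair {A F : Subgroup G} (hA : A ∈ S) (hF : F ∈ S) (h : IsRankOnePair A F) :
    ¬ IsIsolatedIn (FAdj S) S A := fun hi => (hi.2 F).1 ⟨hA, hF, h⟩

theorem eq_of_le {A B : Subgroup G} (hA : A ∈ S) (hni : ¬ IsIsolatedIn (FAdj S) S A)
    (hB : B ∈ S) (hle : B ≤ A) : A = B := by
  obtain ⟨x, hx, hx1⟩ := exists_mem_ne_one hS hB
  exact eq_of_inter hS hA hni hB (hle hx) hx hx1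

theorem not_isolated_cb {A : Subgroup G} (hA : A ∈ S) (hni : ¬ IsIsolatedIn (FAdj S) S A) (g : G) :
    ¬ IsIsolatedIn (FAdj S) S (conjBy A g) := by
  obtain ⟨F, hF, h⟩ := exists_partner hS hA hni
  exact not_isolated_of_pair hS (hS.conj_mem A hA g) (hS.conj_mem F hF g) (rankOne_cb h g)

/-- In the commutator case `⁅a, b⁆ = 1` forces `a = 1` or `b = 1`, if `A` is not isolated. -/
theorem case_injective {A B : Subgroup G} (hA : A ∈ S) (hni : ¬ IsIsolatedIn (FAdj S) S A)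
    (h : RootCommutatorCase S A B) {a b : G} (ha : a ∈ A) (ha1 : a ≠ 1) (hb : b ∈ B)
    (e : ⁅a, b⁆ = 1) : b = 1 := by
  by_contra hb1
  rw [commutatorElement_eq_one_iff_mul_comm] at e
  have hfix : conjBy A b = A := by
    refine (eq_of_inter hS hA hni (hS.conj_mem A hA b) ha ?_ ha1).symm
    rw [mem_cb, mul_assoc, e]; simpa using ha
  have hle : ⁅A, B⁆ ≤ A := by
    rw [← h.2.2.2 b hb hb1, Subgroup.closure_le]
    rintro _ ⟨x, hx, rfl⟩
    have hm := cb_mem b (inv_mem hx)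
    rw [hfix] at hm
    simpa [mul_assoc] using mul_mem hx hm
  have hAC := eq_of_le hS hA hni h.1 hle
  have hb' : ⁅A, B⁆ = ⊥ := bot_of_commute fun x hx y hy =>
    case_comm h (hAC ▸ hx) (le_sup_right (α := Subgroup G) hy)
  exact case_not_bot hS h hb'

/-- A member through `a * c` commuting with `A`, where `C` centralizes the partner, equals `A`. -/
theorem not_both {A C E F : Subgroup G} (hE : E ∈ S) (hF : F ∈ S)
    (hAF : IsRankOnePair A F) (hCF : ⁅C, F⁆ = ⊥) (hAE : ⁅A, E⁆ = ⊥)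
    {a c : G} (ha : a ∈ A) (ha1 : a ≠ 1) (hc : c ∈ C) (hac : a * c ∈ E) : E = A := by
  obtain ⟨-, hu⟩ := same_action hS hE hF hAF ha ha1 hac (by
    rw [← cb_cb, cb_of_commute (g := c) fun f hf => commute_cb_right hCF hc hf])
  exact eq_of_commute hAF hu self_mem (bot_symm hAE)

theorem mixed_partner {A C E F : Subgroup G} (hC : C ∈ S) (hE : E ∈ S) (hF : F ∈ S)
    (hAF : IsRankOnePair A F) (hCF : ¬ IsRankOnePair C F) (hAC : ⁅A, C⁆ = ⊥)
    {a c : G} (ha : a ∈ A) (ha1 : a ≠ 1) (hc : c ∈ C) (hac : a * c ∈ E) : IsRankOnePair E F := by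
  by_contra hn
  have h1 : ⁅conjBy F c, F⁆ = ⊥ := cb_commute hS hC hF hCF hc
  have h2 : ⁅conjBy F c, conjBy F a⁻¹⁆ = ⊥ := by
    have := cb_bot (g := a⁻¹) (cb_commute hS hE hF hn hac)
    simpa [cb_cb] using this
  have hne : conjBy F a⁻¹ ≠ F := fun e =>
    ha1 (by simpa using eq_one_of_normalize hAF (inv_mem ha) (cb_eq_self.1 e))
  have hsup := sup_eq_of_unipotent hAF (unipotent_conj (right_mem hAF)
    (le_sup_left (α := Subgroup G) (inv_mem ha))) (right_mem hAF) hne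
  have hA : ⁅A, conjBy F c⁆ = ⊥ := by
    rw [Subgroup.commutator_eq_bot_iff_le_centralizer]
    refine (le_sup_left.trans hsup.ge).trans ?_
    refine sup_le ?_ ?_ <;> rw [← Subgroup.commutator_eq_bot_iff_le_centralizer]
    · exact bot_symm h2
    · exact bot_symm h1
  have := cb_bot (g := c⁻¹) hA
  rw [cb_cb, inv_mul_cancel, cb_one,
    cb_of_commute fun x hx => (commute_cb_right hAC hx (inv_mem hc)).symm] at this
  exact not_commute hAF this

/-- The main computation: a member `E` through `a * c` is a conjugate of `A` under `⁅C, F⁆`,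
and `c` is the commutator of that element with `a`. -/
theorem shift {A C E F : Subgroup G} (hA : A ∈ S) (hC : C ∈ S) (hE : E ∈ S) (hF : F ∈ S)
    (hAF : IsRankOnePair A F) (hCF : ¬ IsRankOnePair C F) (hAC : ⁅A, C⁆ = ⊥) (hAE : ⁅A, E⁆ = ⊥)
    {a c f : G} (ha : a ∈ A) (ha1 : a ≠ 1) (hc : c ∈ C) (hc1 : c ≠ 1) (hac : a * c ∈ E)
    (hf : f ∈ F) (haf : conjBy A f⁻¹ = conjBy F a⁻¹) :
    RootCommutatorCase S C F ∧ RootCommutatorCase S A ⁅C, F⁆ ∧ E = conjBy A ⁅f, c⁻¹⁆ ∧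
      c = ⁅⁅f, c⁻¹⁆, a⁆ := by
  have hni := not_isolated_of_pair hS hA hF hAF
  have hEA : E ≠ A := by
    intro e
    rw [e] at hac
    have hcA : c ∈ A := by simpa using mul_mem (inv_mem ha) hac
    have := eq_of_inter hS hA hni hC hcA hc hc1
    exact hCF (this ▸ hAF)
  have hcase : RootCommutatorCase S C F := pair_case hS hC hF hCF fun hb =>
    hEA (not_both hS hE hF hAF hb hAE ha ha1 hc hac)
  have hEF := mixed_partner hS hC hE hF hAF hCF hAC ha ha1 hc hac
  set g := ⁅f, c⁻¹⁆ with hgdef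
  have hg : g ∈ ⁅C, F⁆ := by
    rw [Subgroup.commutator_comm]
    exact Subgroup.commutator_mem_commutator hf (inv_mem hc)
  have hgF : ∀ x ∈ F, g * x = x * g := fun x hx =>
    case_comm hcase hg (le_sup_right (α := Subgroup G) hx)
  have hnAG : ¬ IsRankOnePair A ⁅C, F⁆ := fun hr =>
    hEA (not_both hS hE hcase.1 hr (bot_symm (case_comm_left hcase)) hAE ha ha1 hc hac)
  have hcA : conjBy A c = A :=
    cb_of_commute fun x hx => (commute_cb_right hAC hx hc).symm
  obtain ⟨f', hf', _, hef⟩ := hEF.cond_left _ hac (by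
    intro e
    have hcA : c ∈ A := by
      have : c = a⁻¹ := eq_inv_of_mul_eq_one_right e
      exact this ▸ inv_mem ha
    exact hCF ((eq_of_inter hS hA hni hC hcA hc hc1) ▸ hAF))
  have hE1 : E = conjBy A (g * (f' * f⁻¹)) := by
    rw [show (a * c)⁻¹ = c⁻¹ * a⁻¹ from mul_inv_rev a c, ← cb_cb F, ← haf, cb_cb, cb_eq_iff, inv_inv, cb_cb] at hef
    rw [hef]
    have e1 : g * (f' * f⁻¹) * c⁻¹ = f' * (c⁻¹ * f⁻¹) := by
      calc g * (f' * f⁻¹) * c⁻¹ = (g * f') * f⁻¹ * c⁻¹ := by group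
        _ = f' * (g * f⁻¹) * c⁻¹ := by rw [hgF f' hf']; group
        _ = f' * (f⁻¹ * g) * c⁻¹ := by rw [hgF _ (inv_mem hf)]
        _ = f' * (c⁻¹ * f⁻¹) := by rw [hgdef, commutatorElement_def]; group
    rw [← e1, ← cb_cb]
    rw [show conjBy A c⁻¹ = A from by rw [cb_eq_iff, inv_inv, hcA]]
  have hAg : ⁅conjBy A g⁻¹, A⁆ = ⊥ :=
    cb_commute hS hcase.1 hA (fun hr => hnAG (symm hr)) (inv_mem hg)
  have hf2 : f' * f⁻¹ = 1 := by
    by_contra hne
    have hff : f' * f⁻¹ ∈ F := mul_mem hf' (inv_mem hf)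
    have h1 : conjBy A (f' * f⁻¹) ≠ A := fun e =>
      hne (eq_one_of_normalize (symm hAF) hff (cb_eq_self.1 e))
    have h2 : ⁅conjBy A g⁻¹, conjBy A (f' * f⁻¹)⁆ = ⊥ := by
      have := cb_bot (g := g⁻¹) hAE
      rwa [hE1, cb_cb, ← mul_assoc, inv_mul_cancel, one_mul] at this
    have hsup := sup_eq_of_unipotent hAF (unipotent_conj self_mem
      (le_sup_right (α := Subgroup G) hff)) self_mem h1
    have h3 : conjBy A g⁻¹ ≤ Subgroup.centralizer (F : Set G) := by
      rw [← Subgroup.commutator_eq_bot_iff_le_centralizer]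
      apply bot_symm
      rw [Subgroup.commutator_eq_bot_iff_le_centralizer]
      refine (le_sup_right.trans hsup.ge).trans (sup_le ?_ ?_) <;>
        rw [← Subgroup.commutator_eq_bot_iff_le_centralizer]
      · exact bot_symm h2
      · exact bot_symm hAg
    have h4 := cb_bot (g := g) ((Subgroup.commutator_eq_bot_iff_le_centralizer).2 h3)
    rw [cb_cb, mul_inv_cancel, cb_one, cb_of_commute hgF] at h4
    exact not_commute hAF h4
  rw [hf2, mul_one] at hE1
  have hH : ⁅A, ⁅C, F⁆⁆ ≠ ⊥ := fun hb =>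
    hEA (hE1.trans (cb_of_commute fun x hx => (commute_cb_right hb hx hg).symm))
  have hcase2 := pair_case hS hA hcase.1 hnAG hH
  refine ⟨hcase, hcase2, hE1, ?_⟩
  set a₁ := g⁻¹ * (a * c) * g with ha₁def
  have ha₁ : a₁ ∈ A := by rw [hE1, mem_cb] at hac; exact hac
  have e1 : a * c = ⁅g, a₁⁆ * a₁ := by rw [ha₁def, commutatorElement_def]; group
  have hk : ⁅g, a₁⁆ ∈ ⁅A, ⁅C, F⁆⁆ := by
    rw [Subgroup.commutator_comm]; exact Subgroup.commutator_mem_commutator hg ha₁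
  have hka : ⁅g, a₁⁆ * a₁ = a₁ * ⁅g, a₁⁆ :=
    case_comm hcase2 hk (le_sup_left (α := Subgroup G) ha₁)
  have e2 : c = a⁻¹ * a₁ * ⁅g, a₁⁆ := by rw [mul_assoc, ← hka, ← e1]; simp
  have hg1 : g ≠ 1 := fun e => hEA (by rw [hE1, e, cb_one])
  have e3 : a⁻¹ * a₁ = 1 := by
    by_contra hne
    refine hg1 (case_injective hS hA hni hcase2 (mul_mem (inv_mem ha) ha₁) hne hg ?_)
    rw [commutatorElement_eq_one_iff_mul_comm]
    have c1 : c * g = g * c :=
      (case_comm hcase hg (le_sup_left (α := Subgroup G) hc)).symm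
    have c2 : ⁅g, a₁⁆ * g = g * ⁅g, a₁⁆ := case_comm hcase2 hk (le_sup_right (α := Subgroup G) hg)
    have : a⁻¹ * a₁ = c * ⁅g, a₁⁆⁻¹ := by rw [e2]; group
    rw [this]
    exact ((show Commute c g from c1).mul_left (show Commute ⁅g, a₁⁆ g from c2).inv_left).eq
  rw [e3, one_mul] at e2
  rw [inv_mul_eq_one] at e3
  rw [e2, ← e3]

theorem isolated_or_eq {A B : Subgroup G} (hA : ¬ IsIsolatedIn (FAdj S) S A) (hAS : A ∈ S)
    (hB : B ∈ S) : A ⊓ B = ⊥ ∨ A = B := by
  by_cases h : A ⊓ B = ⊥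
  · exact Or.inl h
  · obtain ⟨x, hx, hx1⟩ := (Subgroup.bot_or_exists_ne_one _).resolve_left h
    exact Or.inr (eq_of_inter hS hAS hA hB hx.1 hx.2 hx1)

end Cfsg.Agent.Fischer
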