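import Cfsg.Agent.Fischer.ExtraCent

/-! Singular subgroups: `U` elementary abelian, all of whose involutions are conjugates of `z`
lying pairwise in each other's cores. -/

set_option autoImplicit false
open Cfsg
open scoped commutatorElement

namespace Cfsg.Agent.Fischer

variable {G : Type*} [Group G] [Finite G]

/-- the hypotheses on a singular subgroup -/
structure Singular (Q : G → Subgroup G) (U : Subgroup G) : Prop where
  cent : ∀ x : G, Q x = (pCore 2 ↥(Subgroup.centralizer ({x} : Set G))).map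
    (Subgroup.centralizer ({x} : Set G)).subtype
  core : ∀ u ∈ U, u ≠ 1 → CoreAt u (Q u)
  two : ∀ u ∈ U, u * u = 1
  mem : ∀ u ∈ U, ∀ v ∈ U, u ≠ 1 → v ≠ 1 → v ∈ Q u

theorem singular_mk {Q : G → Subgroup G}
    (hQ : ∀ x : G, Q x = (pCore 2 ↥(Subgroup.centralizer ({x} : Set G))).map
      (Subgroup.centralizer ({x} : Set G)).subtype)
    {z : G} (hz : orderOf z = 2) (hE : IsExtraspecial 2 ↥(Q z))
    (hC : Subgroup.centralizer ((Q z : Subgroup G) : Set G) ≤ Q z)
    {U : Subgroup G} (hU2 : ∀ u ∈ U, u * u = 1)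
    (hS : ∀ u ∈ U, u ≠ 1 → ∃ g : G, g * z * g⁻¹ = u)
    (hO : ∀ u ∈ U, ∀ v ∈ U, u ≠ 1 → v ≠ 1 → v ∈ Q u) : Singular Q U := by
  refine ⟨hQ, fun u hu hu1 => ?_, hU2, hO⟩
  obtain ⟨g, hg⟩ := hS u hu hu1
  have := (coreAt hz (hQ z) hE hC).conj g
  rw [hg] at this
  rw [hQ]; exact this

namespace Singular

variable {Q : G → Subgroup G} {U : Subgroup G} (hS : Singular Q U)
include hS

theorem inv_eq {u : G} (hu : u ∈ U) : u⁻¹ = u := inv_eq_of_mul_eq_one_right (hS.two u hu)

theorem comm {u v : G} (hu : u ∈ U) (hv : v ∈ U) : u * v = v * u := by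
  have h := hS.inv_eq (mul_mem hu hv)
  rwa [mul_inv_rev, hS.inv_eq hu, hS.inv_eq hv, eq_comm] at h

theorem conj_cases {u v f : G} (hu : u ∈ U) (hu1 : u ≠ 1) (hv : v ∈ U) (hf : f ∈ Q u) :
    f * v * f⁻¹ = v ∨ f * v * f⁻¹ = u * v := by
  by_cases hv1 : v = 1
  · simp [hv1]
  rcases (hS.core u hu hu1).brack f hf v (hS.mem u hu v hv hu1 hv1) with e | e <;>
    rw [commutatorElement_def] at e
  · exact Or.inl (mul_inv_eq_one.1 e)
  · exact Or.inr (mul_inv_eq_iff_eq_mul.1 e)

theorem conj_cases' {u v f : G} (hu : u ∈ U) (hu1 : u ≠ 1) (hv : v ∈ Q u) (hf : f ∈ Q u) :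
    f * v * f⁻¹ = v ∨ f * v * f⁻¹ = u * v := by
  rcases (hS.core u hu hu1).brack f hf v hv with e | e <;>
    rw [commutatorElement_def] at e
  · exact Or.inl (mul_inv_eq_one.1 e)
  · exact Or.inr (mul_inv_eq_iff_eq_mul.1 e)

theorem exists_moving {u : G} (hu : u ∈ U) (hu1 : u ≠ 1) (S : Finset G) (hSU : ∀ s ∈ S, s ∈ U)
    {v : G} (hv : v ∈ Q u) (hvS : v ∉ Subgroup.closure (insert u (S : Set G))) :
    ∃ f ∈ Q u, (∀ s ∈ Subgroup.closure (insert u (S : Set G)), f * s * f⁻¹ = s) ∧
      f * v * f⁻¹ = u * v := by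
  classical
  induction S using Finset.induction_on generalizing v with
  | empty =>
    have hc := hS.core u hu hu1
    have hu' : ∀ s ∈ Subgroup.closure (insert u ((∅ : Finset G) : Set G)), ∀ f ∈ Q u,
        f * s * f⁻¹ = s := by
      intro s hs f hf
      refine Subgroup.closure_induction (p := fun s _ => f * s * f⁻¹ = s) ?_ ?_ ?_ ?_ hs
      · intro s hs
        obtain rfl : s = u := by simpa using hs
        rw [hc.comm f hf]; group
      · simp
      · intro a b _ _ ea eb
        calc f * (a * b) * f⁻¹ = (f * a * f⁻¹) * (f * b * f⁻¹) := by group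
          _ = a * b := by rw [ea, eb]
      · intro a _ ea
        calc f * a⁻¹ * f⁻¹ = (f * a * f⁻¹)⁻¹ := by group
          _ = a⁻¹ := by rw [ea]
    have hv1 : v ≠ 1 := fun e => hvS (e ▸ one_mem _)
    by_contra hno
    push_neg at hno
    have hall : ∀ f ∈ Q u, f * v = v * f := fun f hf =>
      mul_inv_eq_iff_eq_mul.1 ((hS.conj_cases' hu hu1 hv hf).resolve_right
        (hno f hf (fun s hs => hu' s hs f hf)))
    rcases hc.center v hv hall with e | e
    · exact hv1 e
    · exact hvS (e ▸ Subgroup.subset_closure (Set.mem_insert _ _))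
  | insert w S hw ih =>
    have hSU' : ∀ s ∈ S, s ∈ U := fun s hs => hSU s (Finset.mem_insert_of_mem hs)
    have hwU : w ∈ U := hSU w (Finset.mem_insert_self _ _)
    set W := Subgroup.closure (insert u (S : Set G)) with hW
    have hW' : Subgroup.closure (insert u ((insert w S : Finset G) : Set G)) =
        W ⊔ Subgroup.closure {w} := by
      rw [hW, ← Subgroup.closure_union, Finset.coe_insert]
      congr 1
      ext; simp; tauto
    have hle : W ≤ Subgroup.closure (insert u ((insert w S : Finset G) : Set G)) :=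
      hW'.symm ▸ le_sup_left
    have hext : ∀ f, (∀ s ∈ W, f * s * f⁻¹ = s) → f * w * f⁻¹ = w →
        ∀ s ∈ Subgroup.closure (insert u ((insert w S : Finset G) : Set G)), f * s * f⁻¹ = s := by
      intro f h1 h2 s hs
      refine Subgroup.closure_induction (p := fun s _ => f * s * f⁻¹ = s) ?_ ?_ ?_ ?_ hs
      · intro s hs
        rcases hs with rfl | hs
        · exact h1 _ (Subgroup.subset_closure (Set.mem_insert _ _))
        rcases Finset.mem_insert.1 hs with rfl | hs
        · exact h2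
        · exact h1 _ (Subgroup.subset_closure (Set.mem_insert_of_mem _ hs))
      · simp
      · intro a b _ _ ea eb
        calc f * (a * b) * f⁻¹ = (f * a * f⁻¹) * (f * b * f⁻¹) := by group
          _ = a * b := by rw [ea, eb]
      · intro a _ ea
        calc f * a⁻¹ * f⁻¹ = (f * a * f⁻¹)⁻¹ := by group
          _ = a⁻¹ := by rw [ea]
    by_cases hwW : w ∈ W
    · obtain ⟨f, hf, h1, h2⟩ := ih hSU' hv (fun e => hvS (hle e))
      exact ⟨f, hf, hext f h1 (h1 w hwW), h2⟩
    obtain ⟨f, hf, h1, h2⟩ := ih hSU' hv (fun e => hvS (hle e))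
    rcases hS.conj_cases hu hu1 hwU hf with e | e
    · exact ⟨f, hf, hext f h1 e, h2⟩
    have hvw : v * w ∉ W := fun e' => hvS (by
      have hw' : w ∈ Subgroup.closure (insert u ((insert w S : Finset G) : Set G)) :=
        Subgroup.subset_closure (Set.mem_insert_of_mem _ (Finset.mem_insert_self _ _))
      have := mul_mem (hle e') (inv_mem hw')
      simpa using this)
    have hwQ : w ∈ Q u := by
      by_cases hw1 : w = 1
      · exact hw1 ▸ one_mem _
      · exact hS.mem u hu w hwU hu1 hw1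
    obtain ⟨f', hf', h1', h2'⟩ := ih hSU' (mul_mem hv hwQ) hvw
    rcases hS.conj_cases hu hu1 hwU hf' with e' | e'
    · refine ⟨f', hf', hext f' h1' e', ?_⟩
      have : f' * v * f'⁻¹ * (f' * w * f'⁻¹) = u * v * w := by
        rw [mul_assoc u v w, ← h2']; group
      rw [e'] at this
      exact mul_right_cancel this
    · have hfv : f' * v * f'⁻¹ = v := by
        have : f' * v * f'⁻¹ * (f' * w * f'⁻¹) = v * (u * w) := by
          rw [← mul_assoc v u, (hS.core u hu hu1).comm v hv, mul_assoc u v, ← h2']; group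
        rw [e'] at this
        exact mul_right_cancel this
      have hfu : ∀ {g}, g ∈ Q u → g * u * g⁻¹ = u := fun hg => by
        rw [(hS.core u hu hu1).comm _ hg]; group
      refine ⟨f * f', mul_mem hf hf', hext _ (fun s hs => ?_) ?_, ?_⟩
      · calc f * f' * s * (f * f')⁻¹ = f * (f' * s * f'⁻¹) * f⁻¹ := by group
          _ = s := by rw [h1' s hs, h1 s hs]
      · calc f * f' * w * (f * f')⁻¹ = f * (f' * w * f'⁻¹) * f⁻¹ := by group
          _ = (f * u * f⁻¹) * (f * w * f⁻¹) := by rw [e']; group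
          _ = u * (u * w) := by rw [hfu hf, e]
          _ = w := by rw [← mul_assoc, hS.two u hu, one_mul]
      · calc f * f' * v * (f * f')⁻¹ = f * (f' * v * f'⁻¹) * f⁻¹ := by group
          _ = u * v := by rw [hfv, h2]

theorem inf_le {u v : G} (hu : u ∈ U) (hv : v ∈ U) (hu1 : u ≠ 1) (hv1 : v ≠ 1) (huv : u ≠ v) :
    Q u ⊓ Q v ≤ Q (u * v) := by
  intro q hq
  obtain ⟨f, hf, -, hfv⟩ := hS.exists_moving hu hu1 (∅ : Finset G) (by simp) (hS.mem u hu v hv hu1 hv1) (by
    simp only [Finset.coe_empty, insert_empty_eq, Subgroup.mem_closure_singleton]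
    rintro ⟨n, hn⟩
    rcases Int.even_or_odd' n with ⟨k, rfl | rfl⟩
    · rw [zpow_mul] at hn
      simp [pow_two, hS.two u hu, zpow_two] at hn
      exact hv1 hn.symm
    · rw [zpow_add, zpow_mul] at hn
      simp [pow_two, hS.two u hu, zpow_two] at hn
      exact huv hn)
  have h1 : f⁻¹ * q * f ∈ Q v := by
    rcases (hS.core u hu hu1).brack f⁻¹ (inv_mem hf) q hq.1 with e | e <;>
      rw [commutatorElement_def, inv_inv] at e
    · rw [mul_inv_eq_one.1 e]; exact hq.2
    · rw [mul_inv_eq_iff_eq_mul.1 e]; exact mul_mem (hS.mem v hv u hu hv1 hu1) hq.2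
  rw [← hfv, hS.cent, core_conj, ← hS.cent]
  exact LocalEven.mem_cj.2 h1

theorem iInf_eq_of_generates {T : Set G} (hT : Subgroup.closure T = U) (hT1 : (1 : G) ∉ T) :
    (⨅ u ∈ ((U : Set G) \ {1}), Q u) = ⨅ t ∈ T, Q t := by
  have hTU : T ⊆ U := hT ▸ Subgroup.subset_closure
  refine le_antisymm (le_iInf₂ fun t ht => iInf₂_le t
    ⟨hTU ht, fun e => hT1 ((show t = 1 from e) ▸ ht)⟩) ?_
  intro q hq
  simp only [Subgroup.mem_iInf] at hq ⊢
  rintro u ⟨hu, hu1⟩
  have key : u ∈ U ∧ (u = 1 ∨ q ∈ Q u) := by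
    have hu' : u ∈ Subgroup.closure T := by rw [hT]; exact hu
    refine Subgroup.closure_induction (p := fun u _ => u ∈ U ∧ (u = 1 ∨ q ∈ Q u)) ?_ ?_ ?_ ?_ hu'
    · exact fun t ht => ⟨hTU ht, Or.inr (hq t ht)⟩
    · exact ⟨one_mem _, Or.inl rfl⟩
    · rintro a b - - ⟨ha, ea⟩ ⟨hb, eb⟩
      refine ⟨mul_mem ha hb, ?_⟩
      by_cases ha1 : a = 1
      · simpa [ha1] using eb
      by_cases hb1 : b = 1
      · simpa [hb1] using ea
      by_cases hab : a = b
      · exact Or.inl (by rw [hab, hS.two b hb])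
      exact Or.inr (hS.inf_le ha hb ha1 hb1 hab ⟨ea.resolve_left ha1, eb.resolve_left hb1⟩)
    · rintro a - ⟨ha, ea⟩
      rw [hS.inv_eq ha]
      exact ⟨ha, ea⟩
  exact key.2.resolve_left hu1

theorem le_iInf_self : U ≤ ⨅ u ∈ ((U : Set G) \ {1}), Q u := by
  intro v hv
  simp only [Subgroup.mem_iInf]
  rintro u ⟨hu, hu1⟩
  by_cases hv1 : v = 1
  · exact hv1 ▸ one_mem _
  · exact hS.mem u hu v hv hu1 hv1

theorem normalizes {u f : G} (hu : u ∈ U) (hu1 : u ≠ 1) (hf : f ∈ Q u) :
    f ∈ Subgroup.normalizer (U : Set G) := by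
  have key : ∀ g ∈ Q u, ∀ v ∈ U, g * v * g⁻¹ ∈ U := fun g hg v hv => by
    rcases hS.conj_cases hu hu1 hv hg with e | e <;> rw [e]
    exacts [hv, mul_mem hu hv]
  refine Subgroup.mem_normalizer_iff.2 fun v => ⟨key f hf v, fun h => ?_⟩
  have := key f⁻¹ (inv_mem hf) _ h
  simpa [mul_assoc] using this

theorem sup_le_normalizer :
    (⨆ u ∈ ((U : Set G) \ {1}), Q u) ≤ Subgroup.normalizer (U : Set G) :=
  iSup₂_le fun _ hu _ hf => hS.normalizes hu.1 hu.2 hf

theorem realize (φ : ↥U ≃* ↥U) :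
    ∃ g ∈ (⨆ u ∈ ((U : Set G) \ {1}), Q u : Subgroup G),
      ∀ u : ↥U, g * (u : G) * g⁻¹ = ((φ u : ↥U) : G) := by
  classical
  haveI := Fintype.ofFinite U
  set L : Subgroup G := ⨆ u ∈ ((U : Set G) \ {1}), Q u
  suffices H : ∀ S : Finset U, ∃ g ∈ L, ∀ s ∈ S, g * (s : G) * g⁻¹ = ((φ s : ↥U) : G) by
    obtain ⟨g, hg, h⟩ := H Finset.univ
    exact ⟨g, hg, fun u => h u (Finset.mem_univ u)⟩
  intro S
  induction S using Finset.induction_on with
  | empty => exact ⟨1, one_mem _, by simp⟩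
  | insert w S hwS ih =>
    obtain ⟨g, hg, hgS⟩ := ih
    by_cases hw : g * (w : G) * g⁻¹ = ((φ w : ↥U) : G)
    · refine ⟨g, hg, fun s hs => ?_⟩
      rcases Finset.mem_insert.1 hs with rfl | hs
      exacts [hw, hgS s hs]
    have hgU : ∀ x ∈ U, g * x * g⁻¹ ∈ U := fun x hx =>
      (Subgroup.mem_normalizer_iff.1 (hS.sup_le_normalizer hg) x).1 hx
    set v := g * (w : G) * g⁻¹ with hv
    set v' := ((φ w : ↥U) : G) with hv'
    have hvU : v ∈ U := hgU _ w.2
    have hv'U : v' ∈ U := (φ w).2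
    set u := v' * v with hu
    have huU : u ∈ U := mul_mem hv'U hvU
    have hu1 : u ≠ 1 := fun e => hw (by
      rw [mul_eq_one_iff_eq_inv, hS.inv_eq hvU] at e
      exact e.symm)
    set T : Finset G := S.image fun s => ((φ s : ↥U) : G)
    have hTU : ∀ t ∈ T, t ∈ U := by
      intro t ht
      obtain ⟨s, -, rfl⟩ := Finset.mem_image.1 ht
      exact (φ s).2
    -- the agreement subgroup
    let A : Subgroup U :=
      MonoidHom.eqLocus ((MulAut.conj g).toMonoidHom.comp U.subtype) (U.subtype.comp φ.toMonoidHom)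
    have hA : ∀ x : U, x ∈ A ↔ g * (x : G) * g⁻¹ = ((φ x : ↥U) : G) := fun x => Iff.rfl
    let W : Subgroup G := A.map (U.subtype.comp φ.toMonoidHom)
    have hTW : ∀ t ∈ T, t ∈ W := by
      intro t ht
      obtain ⟨s, hs, rfl⟩ := Finset.mem_image.1 ht
      exact ⟨s, (hA s).2 (hgS s hs), rfl⟩
    have hv'W : v' ∉ W := by
      rintro ⟨x, hx, e⟩
      have : x = w := φ.injective (Subtype.ext e)
      exact hw ((hA w).1 (this ▸ hx))
    have hvW : v ∉ W := by
      rintro ⟨x, hx, e⟩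
      have e' : ((φ x : ↥U) : G) = v := e
      rw [← (hA x).1 hx] at e'
      have : x = w := Subtype.ext (mul_left_cancel (mul_right_cancel e'))
      exact hw ((hA w).1 (this ▸ hx))
    have hvT : v ∉ Subgroup.closure (insert u (T : Set G)) := by
      intro e
      have hle : Subgroup.closure (insert u (T : Set G)) ≤ Subgroup.closure ({u} : Set G) ⊔ W := by
        rw [Subgroup.closure_le]
        rintro t (rfl | ht)
        · exact (le_sup_left : _ ≤ Subgroup.closure ({u} : Set G) ⊔ W) (Subgroup.subset_closure rfl)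
        · exact (le_sup_right : _ ≤ Subgroup.closure ({u} : Set G) ⊔ W) (hTW t ht)
      have hWU : W ≤ U := by
        rintro _ ⟨x, -, rfl⟩
        exact (φ x).2
      have hmem : ∀ y ∈ Subgroup.closure ({u} : Set G) ⊔ W, y ∈ W ∨ u * y ∈ W := by
        intro y hy
        refine Subgroup.closure_induction (p := fun y _ => y ∈ U ∧ (y ∈ W ∨ u * y ∈ W)) ?_ ?_ ?_ ?_
          (show y ∈ Subgroup.closure ((W : Set G) ∪ {u}) by
            rwa [Subgroup.closure_union, Subgroup.closure_eq, sup_comm]) |>.2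
        · rintro t (ht | rfl)
          · exact ⟨hWU ht, Or.inl ht⟩
          · exact ⟨huU, Or.inr (by rw [hS.two _ huU]; exact one_mem _)⟩
        · exact ⟨one_mem _, Or.inl (one_mem _)⟩
        · rintro a b - - ⟨ha, ea⟩ ⟨hb, eb⟩
          refine ⟨mul_mem ha hb, ?_⟩
          rcases ea with ea | ea <;> rcases eb with eb | eb
          · exact Or.inl (mul_mem ea eb)
          · refine Or.inr ?_
            rw [← mul_assoc, hS.comm huU ha, mul_assoc]
            exact mul_mem ea eb
          · refine Or.inr ?_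
            rw [← mul_assoc]
            exact mul_mem ea eb
          · refine Or.inl ?_
            have := mul_mem ea eb
            rw [hS.comm huU ha, mul_assoc, ← mul_assoc u u, hS.two u huU, one_mul] at this
            exact this
        · rintro a - ⟨ha, ea⟩
          rw [hS.inv_eq ha]
          exact ⟨ha, ea⟩
      rcases hmem v (hle e) with h | h
      · exact hvW h
      · refine hv'W ?_
        rwa [hu, mul_assoc, hS.two v hvU, mul_one] at h
    obtain ⟨f, hf, hf1, hf2⟩ := hS.exists_moving huU hu1 T hTU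
      (hS.mem u huU v hvU hu1 (fun e => hvW (e ▸ one_mem W))) hvT
    have hfL : f ∈ L :=
      (le_iSup₂ (f := fun u (_ : u ∈ ((U : Set G) \ {1})) => Q u) u ⟨huU, hu1⟩) hf
    refine ⟨f * g, mul_mem hfL hg, fun s hs => ?_⟩
    rcases Finset.mem_insert.1 hs with rfl | hs
    · calc f * g * (s : G) * (f * g)⁻¹ = f * v * f⁻¹ := by rw [hv]; group
        _ = v' := by rw [hf2, hu, mul_assoc, hS.two v hvU, mul_one]
    · calc f * g * (s : G) * (f * g)⁻¹ = f * (g * (s : G) * g⁻¹) * f⁻¹ := by group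
        _ = _ := by
          rw [hgS s hs]
          exact hf1 _ (Subgroup.subset_closure (Set.mem_insert_of_mem _
            (Finset.mem_image_of_mem _ hs)))

theorem commutator_mem {g x : G} (hg : g ∈ (⨆ u ∈ ((U : Set G) \ {1}), Q u : Subgroup G))
    (hx : x ∈ (⨅ u ∈ ((U : Set G) \ {1}), Q u : Subgroup G)) : g * x * g⁻¹ * x⁻¹ ∈ U := by
  let A : Subgroup G :=
    { carrier := {g | g ∈ Subgroup.normalizer (U : Set G) ∧ g * x * g⁻¹ * x⁻¹ ∈ U}
      one_mem' := ⟨one_mem _, by simp⟩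
      mul_mem' := by
        rintro a b ⟨ha, ea⟩ ⟨hb, eb⟩
        refine ⟨mul_mem ha hb, ?_⟩
        have := mul_mem ((Subgroup.mem_normalizer_iff.1 ha _).1 eb) ea
        simpa [mul_assoc] using this
      inv_mem' := by
        rintro a ⟨ha, ea⟩
        refine ⟨inv_mem ha, ?_⟩
        have := (Subgroup.mem_normalizer_iff.1 (inv_mem ha) _).1 (inv_mem ea)
        simpa [mul_assoc] using this }
  have hle : (⨆ u ∈ ((U : Set G) \ {1}), Q u) ≤ A := by
    refine iSup₂_le fun u hu f hf => ⟨hS.normalizes hu.1 hu.2 hf, ?_⟩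
    simp only [Subgroup.mem_iInf] at hx
    rcases hS.conj_cases' hu.1 hu.2 (hx u hu) hf with e | e <;> rw [e]
    · simp
    · simpa using hu.1
  exact (hle hg).2

theorem exists_shift {x u : G} (hx : x ∈ (⨅ u ∈ ((U : Set G) \ {1}), Q u : Subgroup G))
    (hxU : x ∉ U) (hu : u ∈ U) :
    ∃ g ∈ (⨆ u ∈ ((U : Set G) \ {1}), Q u) ⊓ Subgroup.centralizer (U : Set G),
      g * x * g⁻¹ = x * u := by
  classical
  by_cases hu1 : u = 1
  · exact ⟨1, one_mem _, by simp [hu1]⟩
  haveI := Fintype.ofFinite G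
  set S : Finset G := Finset.univ.filter (· ∈ U)
  have hSU : ∀ s ∈ S, s ∈ U := fun s hs => (Finset.mem_filter.1 hs).2
  simp only [Subgroup.mem_iInf] at hx
  have hxu := hx u ⟨hu, hu1⟩
  have hle : Subgroup.closure (insert u (S : Set G)) ≤ U := by
    rw [Subgroup.closure_le]
    rintro s (rfl | hs)
    exacts [hu, hSU s hs]
  obtain ⟨f, hf, h1, h2⟩ := hS.exists_moving hu hu1 S hSU hxu fun e => hxU (hle e)
  refine ⟨f, ⟨(le_iSup₂ (f := fun u (_ : u ∈ ((U : Set G) \ {1})) => Q u) u ⟨hu, hu1⟩) hf,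
    Subgroup.mem_centralizer_iff.2 fun v hv => ?_⟩, h2.trans ((hS.core u hu hu1).comm x hxu).symm⟩
  have := h1 v (Subgroup.subset_closure (Set.mem_insert_of_mem _
    (Finset.mem_filter.2 ⟨Finset.mem_univ v, hv⟩)))
  conv_lhs => rw [← this]
  group

end Singular

end Cfsg.Agent.Fischer
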