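import Cfsg.Agent.Fischer.LargeWidth
import Cfsg.Prelude.Def_MonsterType

/-! Two extraspecial cores whose central involutions lie in one another. -/

set_option autoImplicit false
open Cfsg
open scoped commutatorElement

namespace Cfsg.Agent.Fischer

variable {G : Type*} [Group G] [Finite G]

/-- Cores `Q` at `z` and `F = g Q g⁻¹` at `x = g z g⁻¹`, each containing the other involution. -/
structure TwoCores (z x g : G) (Q F : Subgroup G) : Prop where
  core : CoreLike z Q
  conjz : g * z * g⁻¹ = x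
  conjQ : F = LocalEven.cj g Q
  memx : x ∈ Q
  memz : z ∈ F
  ne : x ≠ z

namespace TwoCores

variable {z x g : G} {Q F : Subgroup G}

theorem other (h : TwoCores z x g Q F) : CoreLike x F := by
  have := h.core.conj g
  rwa [h.conjz, ← h.conjQ] at this

theorem symm (h : TwoCores z x g Q F) : TwoCores x z g⁻¹ F Q := by
  refine ⟨h.other, by rw [← h.conjz]; group, ?_, h.memz, h.memx, h.ne.symm⟩
  ext y
  rw [LocalEven.mem_cj, h.conjQ, LocalEven.mem_cj]
  rw [show g⁻¹ * (g⁻¹⁻¹ * y * g⁻¹) * g = y by group]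

theorem zx (h : TwoCores z x g Q F) : z * x = x * z := (h.core.comm x h.memx).symm

theorem conj_x (h : TwoCores z x g Q F) {q : G} (hq : q ∈ Q) :
    q * x = x * q ∨ q * x * q⁻¹ = z * x := by
  rcases h.core.brack q hq x h.memx with e | e
  · exact Or.inl (commutatorElement_eq_one_iff_mul_comm.1 e)
  · exact Or.inr (by rw [← e, commutatorElement_def]; group)

theorem conj_mem (h : TwoCores z x g Q F) {q p : G} (hq : q ∈ Q) (hp : p ∈ Q ⊓ Subgroup.centralizer ({x} : Set G)) :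
    q * p * q⁻¹ ∈ Q ⊓ Subgroup.centralizer ({x} : Set G) := by
  refine Subgroup.mem_inf.2 ⟨mul_mem (mul_mem hq hp.1) (inv_mem hq), ?_⟩
  rcases h.core.brack q hq p hp.1 with e | e <;> rw [commutatorElement_def, mul_inv_eq_iff_eq_mul] at e <;> rw [e]
  · rw [one_mul]; exact hp.2
  · exact mul_mem (mem_cent_singleton.2 h.zx) hp.2

theorem exists_move (h : TwoCores z x g Q F) : ∃ q ∈ Q, q * x * q⁻¹ = z * x := by
  by_contra hn
  push_neg at hn
  rcases h.core.center x h.memx fun q hq => (h.conj_x hq).resolve_right (hn q hq) with e | e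
  exacts [h.other.ne e, h.ne e]

theorem split (h : TwoCores z x g Q F) {q₀ q : G} (hq₀ : q₀ ∈ Q) (e₀ : q₀ * x * q₀⁻¹ = z * x) (hq : q ∈ Q) :
    q ∈ Q ⊓ Subgroup.centralizer ({x} : Set G) ∨ q₀⁻¹ * q ∈ Q ⊓ Subgroup.centralizer ({x} : Set G) := by
  rcases h.conj_x hq with e | e
  · exact Or.inl ⟨hq, mem_cent_singleton.2 e⟩
  · refine Or.inr (Subgroup.mem_inf.2 ⟨mul_mem (inv_mem hq₀) hq, mem_cent_singleton.2 ?_⟩)
    calc q₀⁻¹ * q * x = q₀⁻¹ * (q * x * q⁻¹) * q := by group
      _ = q₀⁻¹ * (q₀ * x * q₀⁻¹) * q := by rw [e, e₀]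
      _ = x * (q₀⁻¹ * q) := by group

/-- The middle group. -/
def mid (z x : G) (Q F : Subgroup G) : Subgroup G :=
  (F ⊓ Subgroup.centralizer ({z} : Set G)) ⊔ (Q ⊓ Subgroup.centralizer ({x} : Set G))

theorem mid_comm (z x : G) (Q F : Subgroup G) : mid z x Q F = mid x z F Q := sup_comm _ _

theorem left_normalizes (h : TwoCores z x g Q F) {s p : G} (hs : s ∈ F ⊓ Subgroup.centralizer ({z} : Set G))
    (hp : p ∈ Q ⊓ Subgroup.centralizer ({x} : Set G)) : s * p * s⁻¹ * p⁻¹ ∈ Q ⊓ F := by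
  refine Subgroup.mem_inf.2 ⟨mul_mem (h.core.norm s (mem_cent_singleton.1 hs.2) p hp.1) (inv_mem hp.1), ?_⟩
  rw [mul_assoc, mul_assoc]
  refine mul_mem hs.1 ?_
  rw [← mul_assoc]
  exact h.other.norm p (mem_cent_singleton.1 hp.2) _ (inv_mem hs.1)

theorem inter_le (h : TwoCores z x g Q F) : Q ⊓ F ≤ Q ⊓ Subgroup.centralizer ({x} : Set G) :=
  le_inf inf_le_left fun e he => mem_cent_singleton.2 (h.other.comm e he.2)

theorem norm_le (h : TwoCores z x g Q F) : F ⊓ Subgroup.centralizer ({z} : Set G) ≤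
    Subgroup.normalizer ((Q ⊓ Subgroup.centralizer ({x} : Set G) : Subgroup G) : Set G) := by
  intro s hs
  refine Subgroup.mem_normalizer_iff.2 fun p => ⟨fun hp => ?_, fun hp => ?_⟩
  · have := mul_mem (h.inter_le (h.left_normalizes hs hp)) hp
    simpa using this
  · have h1 := mul_mem (h.inter_le (h.left_normalizes (inv_mem hs) hp)) hp
    simpa [mul_assoc] using h1

theorem mem_mid (h : TwoCores z x g Q F) {r : G} : r ∈ mid z x Q F ↔
    ∃ p ∈ Q ⊓ Subgroup.centralizer ({x} : Set G), ∃ s ∈ F ⊓ Subgroup.centralizer ({z} : Set G), p * s = r := by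
  rw [mid, sup_comm, ← SetLike.mem_coe, Subgroup.coe_mul_of_right_le_normalizer_left _ _ h.norm_le, Set.mem_mul]
  rfl

theorem mid_le_cent (h : TwoCores z x g Q F) {r : G} (hr : r ∈ mid z x Q F) : r * z = z * r ∧ r * x = x * r := by
  obtain ⟨p, hp, s, hs, rfl⟩ := h.mem_mid.1 hr
  have h1 : Commute (p * s) z := Commute.mul_left (h.core.comm p hp.1) (mem_cent_singleton.1 hs.2)
  have h2 : Commute (p * s) x := Commute.mul_left (mem_cent_singleton.1 hp.2) (h.other.comm s hs.1)
  exact ⟨h1, h2⟩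

theorem Q_normalizes (h : TwoCores z x g Q F) {q r : G} (hq : q ∈ Q) (hr : r ∈ mid z x Q F) :
    q * r * q⁻¹ ∈ mid z x Q F := by
  obtain ⟨p, hp, s, hs, rfl⟩ := h.mem_mid.1 hr
  rw [show q * (p * s) * q⁻¹ = (q * p * q⁻¹) * ((q * s * q⁻¹ * s⁻¹) * s) by group]
  have hsz := mem_cent_singleton.1 hs.2
  have hc : q * s * q⁻¹ * s⁻¹ ∈ Q ⊓ Subgroup.centralizer ({x} : Set G) := by
    refine Subgroup.mem_inf.2 ⟨?_, mul_mem (mem_cent_singleton.2 ?_) (inv_mem (mem_cent_singleton.2 (h.other.comm s hs.1)))⟩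
    · rw [mul_assoc, mul_assoc]
      exact mul_mem hq (by rw [← mul_assoc]; exact h.core.norm s hsz _ (inv_mem hq))
    · have hsx : Commute s x := h.other.comm s hs.1
      have key : Commute s (q⁻¹ * x * q) := by
        rcases h.conj_x (inv_mem hq) with e | e
        · rwa [e, mul_assoc, inv_mul_cancel, mul_one]
        · rw [inv_inv] at e
          rw [e]
          exact Commute.mul_right hsz hsx
      calc q * s * q⁻¹ * x = q * (s * (q⁻¹ * x * q)) * q⁻¹ := by group
        _ = q * (q⁻¹ * x * q * s) * q⁻¹ := by rw [key.eq]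
        _ = x * (q * s * q⁻¹) := by group
  exact mul_mem (Subgroup.mem_sup_right (h.conj_mem hq hp))
    (mul_mem (Subgroup.mem_sup_right hc) (Subgroup.mem_sup_left hs))

theorem braid (h : TwoCores z x g Q F) {q f : G} (hq : q ∈ Q) (eq : q * x * q⁻¹ = z * x) (hf : f ∈ F)
    (ef : f * z * f⁻¹ = x * z) : (f * q * f)⁻¹ * (q * f * q) ∈ mid z x Q F := by
  have hm : q * f * q⁻¹ ∈ LocalEven.cj (q * g) Q := by
    rw [LocalEven.mem_cj]
    rw [show (q * g)⁻¹ * (q * f * q⁻¹) * (q * g) = g⁻¹ * f * g by group]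
    exact LocalEven.mem_cj.1 (h.conjQ ▸ hf)
  have hq' : f⁻¹ * (q * f * q⁻¹) * f ∈ Q := by
    have h1 := LocalEven.mem_cj.1 hm
    have hc : f⁻¹ * (q * g) * z = z * (f⁻¹ * (q * g)) := by
      calc f⁻¹ * (q * g) * z = f⁻¹ * (q * (g * z * g⁻¹) * q⁻¹) * (q * g) := by group
        _ = f⁻¹ * (x * z) * (q * g) := by rw [h.conjz, eq, h.zx]
        _ = f⁻¹ * (f * z * f⁻¹) * (q * g) := by rw [ef]
        _ = _ := by group
    have := h.core.norm _ hc _ h1
    rwa [show f⁻¹ * (q * g) * ((q * g)⁻¹ * (q * f * q⁻¹) * (q * g)) * (f⁻¹ * (q * g))⁻¹ =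
      f⁻¹ * (q * f * q⁻¹) * f by group] at this
  set q' := f⁻¹ * (q * f * q⁻¹) * f with hq'd
  have hne : q' * x ≠ x * q' := by
    intro hc
    have hc2 : Commute (q * f * q⁻¹) (f * x * f⁻¹) := by
      show _ = _
      calc q * f * q⁻¹ * (f * x * f⁻¹) = f * (q' * x) * f⁻¹ := by rw [hq'd]; group
        _ = f * (x * q') * f⁻¹ := by rw [hc]
        _ = _ := by rw [hq'd]; group
    rw [show f * x * f⁻¹ = x by rw [h.other.comm f hf, mul_inv_cancel_right]] at hc2
    have hqx : q⁻¹ * x * q = z * x := by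
      have hqz : q⁻¹ * z * q = z := by rw [mul_assoc, ← h.core.comm q hq, inv_mul_cancel_left]
      calc q⁻¹ * x * q = q⁻¹ * z * q * (q⁻¹ * (z * x) * q) := by
            rw [show q⁻¹ * z * q * (q⁻¹ * (z * x) * q) = q⁻¹ * (z * z) * x * q by group, h.core.sq, mul_one]
        _ = z * (q⁻¹ * (q * x * q⁻¹) * q) := by rw [hqz, eq]
        _ = z * x := by group
    have h2 : f * (z * x) = z * x * f := by
      rw [← hqx]
      calc f * (q⁻¹ * x * q) = q⁻¹ * (q * f * q⁻¹ * x) * q := by group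
        _ = q⁻¹ * (x * (q * f * q⁻¹)) * q := by rw [hc2.eq]
        _ = _ := by group
    have h3 : f * z * f⁻¹ = z := by
      refine mul_right_cancel (b := x) ?_
      calc f * z * f⁻¹ * x = f * (z * x) * f⁻¹ * (f * (x⁻¹ * (f⁻¹ * x * f)) * f⁻¹) := by group
        _ = z * x := by
          rw [show f⁻¹ * x * f = x by rw [mul_assoc, ← h.other.comm f hf, inv_mul_cancel_left], h2]; group
    exact h.other.ne (mul_right_cancel (a := x) (b := z) (c := 1) (by rw [one_mul, ← ef, h3]))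
  have hp : q⁻¹ * q' ∈ Q ⊓ Subgroup.centralizer ({x} : Set G) :=
    (h.split hq eq hq').resolve_left fun hm' => hne (mem_cent_singleton.1 hm'.2)
  obtain ⟨f', hf', ef'⟩ : ∃ f' ∈ F, f' * z * f'⁻¹ = x * z := ⟨f, hf, ef⟩
  -- squares lie in the middle group
  have hff : f * f ∈ mid z x Q F := Subgroup.mem_sup_left ⟨mul_mem hf hf, by
    rcases h.other.square f hf with e | e <;> rw [e]
    exacts [one_mem _, mem_cent_singleton.2 h.zx.symm]⟩
  have hqq : q * q ∈ mid z x Q F := Subgroup.mem_sup_right ⟨mul_mem hq hq, by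
    rcases h.core.square q hq with e | e <;> rw [e]
    exacts [one_mem _, mem_cent_singleton.2 h.zx]⟩
  have h1 : f⁻¹ * (q⁻¹ * q') * f ∈ mid z x Q F := by
    have := h.symm.Q_normalizes (inv_mem hf) (r := q⁻¹ * q') (mid_comm z x Q F ▸ Subgroup.mem_sup_right hp)
    rw [inv_inv, ← mid_comm] at this
    exact this
  have h2 : f⁻¹ * (q⁻¹ * q') * f * ((f * f)⁻¹ * (q * q)) ∈ mid z x Q F :=
    mul_mem h1 (mul_mem (inv_mem hff) hqq)
  convert h2 using 1
  rw [hq'd]
  group

/-- The three involutions. -/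
def pts (z x : G) : Fin 3 → G := ![z, x, z * x]

theorem pts_injective (h : TwoCores z x g Q F) : Function.Injective (pts z x) := by
  intro i j e
  have h1 := h.ne
  have h2 : z * x ≠ z := fun e => h.other.ne (by simpa using e)
  have h3 : z * x ≠ x := fun e => h.core.ne (by simpa using e)
  fin_cases i <;> fin_cases j <;> first | rfl | (exfalso; simp [pts] at e; first
    | exact h1 e | exact h1 e.symm | exact h2 e | exact h2 e.symm | exact h3 e | exact h3 e.symm
    | exact h.other.ne e | exact h.core.ne e)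

theorem perm_unique (h : TwoCores z x g Q F) {y : G} {σ τ : Equiv.Perm (Fin 3)}
    (hσ : ∀ i, y * pts z x i * y⁻¹ = pts z x (σ i)) (hτ : ∀ i, y * pts z x i * y⁻¹ = pts z x (τ i)) : σ = τ :=
  Equiv.ext fun i => h.pts_injective ((hσ i).symm.trans (hτ i))

theorem q_perm (h : TwoCores z x g Q F) {q : G} (hq : q ∈ Q) (eq : q * x * q⁻¹ = z * x) :
    ∀ i, q * pts z x i * q⁻¹ = pts z x (Equiv.swap 1 2 i) := by
  have hz : q * z * q⁻¹ = z := by rw [h.core.comm q hq, mul_inv_cancel_right]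
  intro i; fin_cases i
  · simpa [pts, Equiv.swap_apply_def] using hz
  · simpa [pts, Equiv.swap_apply_def] using eq
  · show q * (z * x) * q⁻¹ = x
    rw [show q * (z * x) * q⁻¹ = (q * z * q⁻¹) * (q * x * q⁻¹) by group, hz, eq, ← mul_assoc, h.core.sq, one_mul]

theorem f_perm (h : TwoCores z x g Q F) {f : G} (hf : f ∈ F) (ef : f * z * f⁻¹ = x * z) :
    ∀ i, f * pts z x i * f⁻¹ = pts z x (Equiv.swap 0 2 i) := by
  have hx : f * x * f⁻¹ = x := by rw [h.other.comm f hf, mul_inv_cancel_right]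
  intro i; fin_cases i
  · show f * z * f⁻¹ = z * x
    rw [ef, h.zx]
  · simpa [pts, Equiv.swap_apply_def] using hx
  · show f * (z * x) * f⁻¹ = z
    rw [show f * (z * x) * f⁻¹ = (f * z * f⁻¹) * (f * x * f⁻¹) by group, ef, hx, h.zx.symm, mul_assoc,
      h.other.sq, mul_one]

theorem mem_normal_form (h : TwoCores z x g Q F) {q f : G} (hq : q ∈ Q) (eq : q * x * q⁻¹ = z * x)
    (hf : f ∈ F) (ef : f * z * f⁻¹ = x * z) {y : G} (hy : y ∈ Q ⊔ F) :
    ∃ t ∈ [1, q, f, q * f, f * q, f * q * f], t⁻¹ * y ∈ mid z x Q F := by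
  have hR := h.braid hq eq hf ef
  have hqq : q * q ∈ mid z x Q F := Subgroup.mem_sup_right ⟨mul_mem hq hq, by
    rcases h.core.square q hq with e | e <;> rw [e]
    exacts [one_mem _, mem_cent_singleton.2 h.zx]⟩
  have hff : f * f ∈ mid z x Q F := Subgroup.mem_sup_left ⟨mul_mem hf hf, by
    rcases h.other.square f hf with e | e <;> rw [e]
    exacts [one_mem _, mem_cent_singleton.2 h.zx.symm]⟩
  have cQ : ∀ {a r : G}, a ∈ Q → r ∈ mid z x Q F → a * r * a⁻¹ ∈ mid z x Q F := fun ha hr => h.Q_normalizes ha hr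
  have cF : ∀ {a r : G}, a ∈ F → r ∈ mid z x Q F → a * r * a⁻¹ ∈ mid z x Q F := fun ha hr => by
    rw [mid_comm] at hr ⊢; exact h.symm.Q_normalizes ha hr
  have cq : ∀ {r : G}, r ∈ mid z x Q F → q⁻¹ * r * q ∈ mid z x Q F := fun hr => by
    simpa using cQ (inv_mem hq) hr
  have cf : ∀ {r : G}, r ∈ mid z x Q F → f⁻¹ * r * f ∈ mid z x Q F := fun hr => by
    simpa using cF (inv_mem hf) hr
  have stepq : ∀ t ∈ [1, q, f, q * f, f * q, f * q * f],
      ∃ t' ∈ [1, q, f, q * f, f * q, f * q * f], t'⁻¹ * (q * t) ∈ mid z x Q F := by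
    intro t ht
    simp only [List.mem_cons, List.not_mem_nil, or_false] at ht
    rcases ht with rfl | rfl | rfl | rfl | rfl | rfl
    · exact ⟨q, by simp, by simp⟩
    · exact ⟨1, by simp, by simpa using hqq⟩
    · exact ⟨q * t, by simp, by simp⟩
    · refine ⟨f, by simp, ?_⟩
      rw [show f⁻¹ * (q * (q * f)) = f⁻¹ * (q * q) * f by group]
      exact cf hqq
    · exact ⟨f * q * f, by simp, by rw [show q * (f * q) = q * f * q by group]; exact hR⟩
    · refine ⟨f * q, by simp, ?_⟩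
      rw [show (f * q)⁻¹ * (q * (f * q * f)) = f * ((f * q * f)⁻¹ * (q * f * q)) * f⁻¹ * (f * f) by group]
      exact mul_mem (cF hf hR) hff
  have stepf : ∀ t ∈ [1, q, f, q * f, f * q, f * q * f],
      ∃ t' ∈ [1, q, f, q * f, f * q, f * q * f], t'⁻¹ * (f * t) ∈ mid z x Q F := by
    intro t ht
    simp only [List.mem_cons, List.not_mem_nil, or_false] at ht
    rcases ht with rfl | rfl | rfl | rfl | rfl | rfl
    · exact ⟨f, by simp, by simp⟩
    · exact ⟨f * t, by simp, by simp⟩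
    · exact ⟨1, by simp, by simpa using hff⟩
    · exact ⟨f * q * f, by simp, by simp [mul_assoc]⟩
    · refine ⟨q, by simp, ?_⟩
      rw [show q⁻¹ * (f * (f * q)) = q⁻¹ * (f * f) * q by group]
      exact cq hff
    · refine ⟨q * f, by simp, ?_⟩
      rw [show (q * f)⁻¹ * (f * (f * q * f)) = f⁻¹ * (q⁻¹ * (f * f) * q) * f by group]
      exact cf (cq hff)
  have stepR : ∀ r ∈ mid z x Q F, ∀ t ∈ [1, q, f, q * f, f * q, f * q * f], t⁻¹ * r * t ∈ mid z x Q F := by
    intro r hr t ht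
    simp only [List.mem_cons, List.not_mem_nil, or_false] at ht
    rcases ht with rfl | rfl | rfl | rfl | rfl | rfl
    · simpa using hr
    · exact cq hr
    · exact cf hr
    · simpa [mul_assoc] using cf (cq hr)
    · simpa [mul_assoc] using cq (cf hr)
    · simpa [mul_assoc] using cf (cq (cf hr))
  let T : Set G := {y | ∃ t ∈ [1, q, f, q * f, f * q, f * q * f], t⁻¹ * y ∈ mid z x Q F}
  have mulR : ∀ r ∈ mid z x Q F, ∀ y ∈ T, r * y ∈ T := by
    rintro r hr y ⟨t, ht, hty⟩
    exact ⟨t, ht, by rw [show t⁻¹ * (r * y) = t⁻¹ * r * t * (t⁻¹ * y) by group]; exact mul_mem (stepR r hr t ht) hty⟩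
  have mulq : ∀ y ∈ T, q * y ∈ T := by
    rintro y ⟨t, ht, hty⟩
    obtain ⟨t', ht', h'⟩ := stepq t ht
    exact ⟨t', ht', by rw [show t'⁻¹ * (q * y) = t'⁻¹ * (q * t) * (t⁻¹ * y) by group]; exact mul_mem h' hty⟩
  have mulf : ∀ y ∈ T, f * y ∈ T := by
    rintro y ⟨t, ht, hty⟩
    obtain ⟨t', ht', h'⟩ := stepf t ht
    exact ⟨t', ht', by rw [show t'⁻¹ * (f * y) = t'⁻¹ * (f * t) * (t⁻¹ * y) by group]; exact mul_mem h' hty⟩
  have gen : ∀ a, (a ∈ Q ∨ a ∈ F) → ∀ y ∈ T, a * y ∈ T := by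
    rintro a (ha | ha) y hy
    · rcases h.split hq eq ha with hp | hp
      · exact mulR a (Subgroup.mem_sup_right hp) y hy
      · have := mulq _ (mulR _ (Subgroup.mem_sup_right hp) y hy)
        simpa [mul_assoc] using this
    · rcases h.symm.split hf ef ha with hp | hp
      · exact mulR a (Subgroup.mem_sup_left hp) y hy
      · have := mulf _ (mulR _ (Subgroup.mem_sup_left hp) y hy)
        simpa [mul_assoc] using this
  rw [Subgroup.sup_eq_closure] at hy
  exact Subgroup.closure_induction_left (p := fun y _ => y ∈ T) ⟨1, by simp, by simp⟩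
    (fun a ha b _ hb => gen a ha b hb)
    (fun a ha b _ hb => gen a⁻¹ (ha.imp inv_mem inv_mem) b hb) hy

theorem mid_le (Q F : Subgroup G) : mid z x Q F ≤ Q ⊔ F :=
  sup_le (inf_le_left.trans le_sup_right) (inf_le_left.trans le_sup_left)

theorem cent_eq (h : TwoCores z x g Q F) :
    mid z x Q F = (Q ⊔ F) ⊓ Subgroup.centralizer ({z, x} : Set G) := by
  obtain ⟨q, hq, eq⟩ := h.exists_move
  obtain ⟨f, hf, ef⟩ := h.symm.exists_move
  refine le_antisymm (fun r hr => Subgroup.mem_inf.2 ⟨mid_le Q F hr, Subgroup.mem_centralizer_iff.2 ?_⟩) fun y hy => ?_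
  · rintro a (rfl | rfl)
    exacts [(h.mid_le_cent hr).1.symm, (h.mid_le_cent hr).2.symm]
  obtain ⟨t, ht, hty⟩ := h.mem_normal_form hq eq hf ef hy.1
  have hyz : y * z = z * y := (Subgroup.mem_centralizer_iff.1 hy.2 z (Or.inl rfl)).symm
  have hyx : y * x = x * y := (Subgroup.mem_centralizer_iff.1 hy.2 x (Or.inr rfl)).symm
  obtain ⟨hrz, hrx⟩ := h.mid_le_cent hty
  have htz : Commute t z := by
    have := (Commute.mul_left (show Commute y z from hyz) (Commute.inv_left (show Commute (t⁻¹ * y) z from hrz)))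
    simpa using this
  have htx : Commute t x := by
    have := (Commute.mul_left (show Commute y x from hyx) (Commute.inv_left (show Commute (t⁻¹ * y) x from hrx)))
    simpa using this
  have ht1 : ∀ i, t * pts z x i * t⁻¹ = pts z x ((1 : Equiv.Perm (Fin 3)) i) := by
    intro i; fin_cases i
    · show t * z * t⁻¹ = z; rw [htz.eq, mul_inv_cancel_right]
    · show t * x * t⁻¹ = x; rw [htx.eq, mul_inv_cancel_right]
    · show t * (z * x) * t⁻¹ = z * x; rw [(htz.mul_right htx).eq, mul_inv_cancel_right]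
  have hq' := h.q_perm hq eq
  have hf' := h.f_perm hf ef
  have comp : ∀ {a b : G} {σ τ : Equiv.Perm (Fin 3)}, (∀ i, a * pts z x i * a⁻¹ = pts z x (σ i)) →
      (∀ i, b * pts z x i * b⁻¹ = pts z x (τ i)) → ∀ i, a * b * pts z x i * (a * b)⁻¹ = pts z x ((σ * τ) i) := by
    intro a b σ τ ha hb i
    rw [show a * b * pts z x i * (a * b)⁻¹ = a * (b * pts z x i * b⁻¹) * a⁻¹ by group, hb, ha]; rfl
  simp only [List.mem_cons, List.not_mem_nil, or_false] at ht
  rcases ht with rfl | rfl | rfl | rfl | rfl | rfl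
  · simpa using hty
  · exact absurd (h.perm_unique ht1 hq') (by decide)
  · exact absurd (h.perm_unique ht1 hf') (by decide)
  · exact absurd (h.perm_unique ht1 (comp hq' hf')) (by decide)
  · exact absurd (h.perm_unique ht1 (comp hf' hq')) (by decide)
  · exact absurd (h.perm_unique ht1 (comp (comp hf' hq') hf')) (by decide)

end TwoCores

end Cfsg.Agent.Fischer
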