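import Cfsg.Agent.Fischer.TwoCoresMain
import Cfsg.Agent.FGS3.PGroupFrattini
import Cfsg.Agent.Components.FStar

/-! The centralizer of an involution in the intersection of two cores. -/

set_option autoImplicit false
open Cfsg
open scoped commutatorElement

namespace Cfsg.Agent.Fischer

variable {G : Type*} [Group G] [Finite G]

theorem coreLike_of_fstar {z : G} (hz : orderOf z = 2) {Q : Subgroup G}
    (hQC : Q ≤ Subgroup.centralizer ({z} : Set G))
    (hF : (generalizedFittingSubgroup ↥(Subgroup.centralizer ({z} : Set G))).map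
      (Subgroup.centralizer ({z} : Set G)).subtype = Q) (hQ : IsExtraspecial 2 ↥Q) :
    CoreLike z Q ∧ Subgroup.centralizer (Q : Set G) ⊓ Subgroup.centralizer ({z} : Set G) ≤ Q := by
  set C := Subgroup.centralizer ({z} : Set G) with hC
  have hzC : z ∈ C := mem_cent_singleton.2 rfl
  have hle : Subgroup.centralizer (Q : Set G) ⊓ C ≤ Q := by
    intro a ha
    rw [← hF]
    refine ⟨⟨a, ha.2⟩, Components.centralizer_generalizedFitting_le ?_, rfl⟩
    refine Subgroup.mem_centralizer_iff.2 fun b hb => Subtype.ext ?_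
    exact Subgroup.mem_centralizer_iff.1 ha.1 b.1 (hF ▸ ⟨b, hb, rfl⟩ : (b : G) ∈ Q)
  have hcomm : ∀ q ∈ Q, q * z = z * q := fun q hq => mem_cent_singleton.1 (hQC hq)
  have hzQ : z ∈ Q := hle ⟨Subgroup.mem_centralizer_iff.2 fun q hq => hcomm q hq, hzC⟩
  refine ⟨coreLike hz hcomm (fun c hc q hq => ?_) hQ (fun a ha => hle ⟨ha, mem_cent_singleton.2
    ((Subgroup.mem_centralizer_iff.1 ha z hzQ).symm)⟩), hle⟩
  rw [← hF] at hq ⊢
  obtain ⟨u, hu, rfl⟩ := hq
  exact ⟨⟨c, mem_cent_singleton.2 hc⟩ * u * ⟨c, mem_cent_singleton.2 hc⟩⁻¹,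
    (Components.generalizedFitting_normal (G := ↥C)).conj_mem u hu _, rfl⟩

theorem twoCores_of_core {z : G} {Q : Subgroup G} (h : CoreLike z Q) {w : ℕ} (hw : 2 ≤ w)
    (hcard : Nat.card ↥Q = 2 ^ (2 * w + 1)) {g : G} (hgQ : g * z * g⁻¹ ∈ Q) (hne : g * z * g⁻¹ ≠ z) :
    TwoCores z (g * z * g⁻¹) g Q (Q.map (MulAut.conj g).toMonoidHom) := by
  have hX : CoreLike (g * z * g⁻¹) (LocalEven.cj g Q) := h.conj g
  obtain ⟨a, ha, b, hb, hax, hbx, hab⟩ : ∃ a ∈ Q, ∃ b ∈ Q, a * (g * z * g⁻¹) = g * z * g⁻¹ * a ∧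
      b * (g * z * g⁻¹) = g * z * g⁻¹ * b ∧ a * b ≠ b * a := by
    by_contra hn
    push_neg at hn
    have h8 := h.card_le_eight hgQ hX.sq hX.ne hne hn
    rw [hcard] at h8
    have : 2 ^ 5 ≤ 2 ^ (2 * w + 1) := Nat.pow_le_pow_right (by norm_num) (by omega)
    omega
  exact ⟨h, rfl, rfl, hgQ, h.symm_mem' rfl hgQ hne ha hb hax hbx hab, hne⟩

namespace TwoCores

variable {z x g t : G} {Q F : Subgroup G}

theorem t_props (h : TwoCores z x g Q F) (ht2 : t * t = 1) (ht1 : t ≠ 1) (htQ : t ∈ Q) (htz : ¬ IsConj z t) :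
    t ≠ z ∧ t ≠ x ∧ t ≠ x * z ∧ ¬ IsConj z (z * t) := by
  have hx : IsConj z x := isConj_iff.2 ⟨g, h.conjz⟩
  obtain ⟨q, hq, eq⟩ := h.exists_move
  have hxz : IsConj z (x * z) := hx.trans (isConj_iff.2 ⟨q, by rw [eq, h.zx]⟩)
  refine ⟨fun e => htz (e ▸ IsConj.refl z), fun e => htz (e ▸ hx), fun e => htz (e ▸ hxz), fun e => ?_⟩
  obtain ⟨q', hq', hne⟩ : ∃ q' ∈ Q, q' * t ≠ t * q' := by
    by_contra hn
    push_neg at hn
    rcases h.core.center t htQ hn with r | r
    exacts [ht1 r, htz (r ▸ IsConj.refl z)]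
  refine htz (e.trans (isConj_iff.2 ⟨q', ?_⟩))
  rcases h.core.brack q' hq' t htQ with r | r
  · exact absurd (commutatorElement_eq_one_iff_mul_comm.1 r) hne
  · have hqt : q' * t = z * t * q' := by
      rw [← r, commutatorElement_def]; group
    have hqz := h.core.comm q' hq'
    calc q' * (z * t) * q'⁻¹ = z * (q' * t) * q'⁻¹ := by rw [← mul_assoc, hqz]; group
      _ = z * z * t := by rw [hqt]; group
      _ = t := by rw [h.core.sq, one_mul]

theorem exists_move_fixing (h : TwoCores z x g Q F) (ht2 : t * t = 1) (ht1 : t ≠ 1) (htQ : t ∈ Q)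
    (htne : t ≠ x ∧ t ≠ x * z) (htz : t ≠ z) : ∃ q ∈ Q, q * t = t * q ∧ q * x * q⁻¹ = z * x := by
  by_contra hn
  push_neg at hn
  rcases h.core.cent_cases htQ ht2 ht1 htz h.memx (fun q hq hqt => (h.conj_x hq).resolve_right (hn q hq hqt))
    with e | e | e | e
  · exact h.other.ne e
  · exact h.ne e
  · exact htne.1 e.symm
  · refine htne.2 ?_
    rw [e, mul_assoc, h.core.sq, mul_one]

theorem conj_inside (h : TwoCores z x g Q F) (ht2 : t * t = 1) (ht1 : t ≠ 1) (htQ : t ∈ Q) (htF : t ∈ F)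
    (htz : ¬ IsConj z t) {P : Subgroup G} (hP : P = Q ⊓ Subgroup.centralizer ({t} : Set G)) :
    ∃ y ∈ P ⊔ (F ⊓ Subgroup.centralizer ({t} : Set G)), y * x * y⁻¹ = z := by
  obtain ⟨h1, h2, h3, -⟩ := h.t_props ht2 ht1 htQ htz
  obtain ⟨q, hq, hqt, eq⟩ := h.exists_move_fixing ht2 ht1 htQ ⟨h2, h3⟩ h1
  obtain ⟨f, hf, hft, ef⟩ := h.symm.exists_move_fixing ht2 ht1 htF ⟨h1, fun e => h3 (e.trans h.zx)⟩ h2
  refine ⟨f * q, mul_mem (Subgroup.mem_sup_right (Subgroup.mem_inf.2 ⟨hf, mem_cent_singleton.2 hft⟩))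
    (Subgroup.mem_sup_left (hP ▸ Subgroup.mem_inf.2 ⟨hq, mem_cent_singleton.2 hqt⟩)), ?_⟩
  calc f * q * x * (f * q)⁻¹ = f * (q * x * q⁻¹) * f⁻¹ := by group
    _ = f * z * f⁻¹ * (f * x * f⁻¹) := by rw [eq]; group
    _ = x * z * x := by rw [ef, h.other.comm f hf, mul_inv_cancel_right]
    _ = z := by rw [mul_assoc, h.zx, ← mul_assoc, h.other.sq, one_mul]

theorem large_image (h : TwoCores z x g Q F) (hQp : IsPGroup 2 ↥Q) (hbig : 8 < Nat.card ↥Q)
    (ht2 : t * t = 1) (ht1 : t ≠ 1) (htQ : t ∈ Q) (htF : t ∈ F) (htz : ¬ IsConj z t)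
    {P : Subgroup G} (hP : P = Q ⊓ Subgroup.centralizer ({t} : Set G))
    (hCP : ∀ c ∈ Subgroup.centralizer ({z} : Set G),
      (∀ a ∈ P, ∃ y ∈ Subgroup.closure ({t, z} : Set G), c * a * c⁻¹ = a * y) ↔ c ∈ Q)
    [((Subgroup.zpowers t).subgroupOf (Subgroup.centralizer ({t} : Set G))).Normal] :
    IsLargeExtraspecial ((P.subgroupOf (Subgroup.centralizer ({t} : Set G))).map
      (QuotientGroup.mk' ((Subgroup.zpowers t).subgroupOf (Subgroup.centralizer ({t} : Set G))))) := by
  classical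
  haveI := Fact.mk Nat.prime_two
  obtain ⟨htz', htx, -, hzt⟩ := h.t_props ht2 ht1 htQ htz
  set Ct := Subgroup.centralizer ({t} : Set G) with hCt
  set π := QuotientGroup.mk' ((Subgroup.zpowers t).subgroupOf Ct) with hπ
  set Pb := (P.subgroupOf Ct).map π with hPb
  have hπ1 : ∀ y : ↥Ct, π y = 1 ↔ (y : G) = 1 ∨ (y : G) = t := by
    intro y
    rw [hπ, QuotientGroup.mk'_apply, QuotientGroup.eq_one_iff, Subgroup.mem_subgroupOf, Subgroup.mem_zpowers_iff]
    constructor
    · rintro ⟨n, hn⟩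
      rw [← hn]
      rcases Int.even_or_odd n with ⟨m, rfl⟩ | ⟨m, rfl⟩
      · exact Or.inl (by rw [zpow_add, ← (Commute.refl t).mul_zpow, ht2, one_zpow])
      · exact Or.inr (by rw [zpow_add, two_mul, zpow_add, ← (Commute.refl t).mul_zpow, ht2, one_zpow, zpow_one,
          one_mul])
    · rintro (e | e)
      · exact ⟨0, by rw [e, zpow_zero]⟩
      · exact ⟨1, by rw [e, zpow_one]⟩
  have hπeq : ∀ y y' : ↥Ct, π y = π y' → (y' : G) = y ∨ (y' : G) = y * t := by
    intro y y' e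
    rcases (hπ1 (y⁻¹ * y')).1 (by rw [map_mul, map_inv, e, inv_mul_cancel]) with r | r <;>
      simp only [Subgroup.coe_mul, Subgroup.coe_inv, inv_mul_eq_iff_eq_mul] at r
    · exact Or.inl (by simpa using r)
    · exact Or.inr r
  have hPQ : ∀ {a : G}, a ∈ P → a ∈ Q ∧ a * t = t * a := fun ha => by
    rw [hP] at ha; exact ⟨ha.1, mem_cent_singleton.1 ha.2⟩
  have hmemP : ∀ {a : G}, a ∈ Q → a * t = t * a → a ∈ P := fun ha hat => by
    rw [hP]; exact ⟨ha, mem_cent_singleton.2 hat⟩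
  have hmem : ∀ b, b ∈ Pb ↔ ∃ y : ↥Ct, (y : G) ∈ P ∧ π y = b := fun b => Iff.rfl
  have hzP : z ∈ P := hmemP h.core.mem (h.core.comm t htQ).symm
  have hzC : z ∈ Ct := mem_cent_singleton.2 (h.core.comm t htQ).symm
  have hxC : x ∈ Ct := mem_cent_singleton.2 (h.other.comm t htF).symm
  set zb := π ⟨z, hzC⟩ with hzb
  have hzbP : zb ∈ Pb := ⟨⟨z, hzC⟩, hzP, rfl⟩
  have hzb1 : zb ≠ 1 := fun e => by
    rcases (hπ1 _).1 e with r | r
    exacts [h.core.ne r, htz' r.symm]
  have hPp : IsPGroup 2 ↥Pb :=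
    ((hQp.to_le (hP ▸ inf_le_left : P ≤ Q)).comap_of_injective Ct.subtype Ct.subtype_injective).map π
  -- elements commuting with zb lie in the centralizer of z
  have hcz : ∀ y : ↥Ct, π y * zb = zb * π y → (y : G) * z = z * (y : G) := by
    intro y e
    rw [hzb, ← map_mul, ← map_mul] at e
    rcases hπeq _ _ e with r | r
    · exact r.symm
    · exfalso
      simp only [Subgroup.coe_mul] at r
      refine hzt (isConj_iff.2 ⟨(y : G)⁻¹, ?_⟩)
      calc (y : G)⁻¹ * z * (y : G)⁻¹⁻¹ = (y : G)⁻¹ * (z * (y : G)) := by group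
        _ = (y : G)⁻¹ * ((y : G) * z * t) := by rw [r]
        _ = z * t := by group
  have hcenP : ∀ b ∈ Pb, (∀ a ∈ Pb, a * b = b * a) → b = 1 ∨ b = zb := by
    intro b hb hall
    obtain ⟨y, hy, rfl⟩ := (hmem b).1 hb
    have key : ∀ a ∈ Q, a * t = t * a → a * (y : G) = (y : G) * a := by
      intro a ha hat
      have e := hall (π ⟨a, mem_cent_singleton.2 hat⟩) ⟨_, hmemP ha hat, rfl⟩
      rw [← map_mul, ← map_mul] at e
      rcases hπeq _ _ e with r | r
      · exact r.symm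
      · exfalso
        simp only [Subgroup.coe_mul] at r
        have r' : ⁅(y : G), a⁆ = t := by
          rw [commutatorElement_def, r]
          rw [show a * (y : G) * t = t * (a * (y : G)) from ((Commute.mul_left (show Commute a t from hat)
            (show Commute (y : G) t from mem_cent_singleton.1 y.2)).eq)]
          group
        rcases h.core.brack _ (hPQ hy).1 a ha with c | c <;> rw [r'] at c
        exacts [ht1 c, htz' c]
    rcases h.core.cent_cases htQ ht2 ht1 htz' (hPQ hy).1 key with r | r | r | r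
    · exact Or.inl ((hπ1 y).2 (Or.inl r))
    · exact Or.inr (congrArg π (Subtype.ext r))
    · exact Or.inl ((hπ1 y).2 (Or.inr r))
    · refine Or.inr ?_
      rw [show y = ⟨t, mem_cent_singleton.2 rfl⟩ * ⟨z, hzC⟩ from Subtype.ext r, map_mul,
        (hπ1 _).2 (Or.inr rfl), one_mul]
  have hzall : ∀ a ∈ Pb, a * zb = zb * a := by
    rintro a ⟨y, hy, rfl⟩
    rw [hzb, ← map_mul, ← map_mul]
    exact congrArg π (Subtype.ext (h.core.comm _ (hPQ hy).1))
  have hcenmap : ∀ b, b ∈ (Subgroup.center ↥Pb).map Pb.subtype ↔ b = 1 ∨ b = zb := by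
    intro b
    constructor
    · rintro ⟨a, ha, rfl⟩
      exact hcenP a a.2 fun c hc => congrArg Subtype.val (Subgroup.mem_center_iff.1 ha ⟨c, hc⟩)
    · rintro (rfl | rfl)
      · exact one_mem _
      · exact ⟨⟨zb, hzbP⟩, Subgroup.mem_center_iff.2 fun c => Subtype.ext (hzall c c.2), rfl⟩
  have hcen2 : Nat.card ↥(Subgroup.center ↥Pb) = 2 := by
    rw [Nat.card_eq_two_iff]
    refine ⟨1, ⟨⟨zb, hzbP⟩, Subgroup.mem_center_iff.2 fun c => Subtype.ext (hzall c c.2)⟩, fun e => hzb1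
      (congrArg (fun w : ↥(Subgroup.center ↥Pb) => w.1.1) e).symm, Set.eq_univ_of_forall fun w => ?_⟩
    rcases (hcenmap w.1.1).1 ⟨w.1, w.2, rfl⟩ with e | e
    · exact Or.inl (Subtype.ext (Subtype.ext e))
    · exact Or.inr (Subtype.ext (Subtype.ext e))
  have hcenmem : ∀ a : ↥Pb, a.1 = 1 ∨ a.1 = zb → a ∈ Subgroup.center ↥Pb := by
    intro a ha
    obtain ⟨c, hc, e⟩ := (hcenmap a.1).2 ha
    rwa [← show c = a from Subtype.ext e]
  have hbr : ∀ a b : ↥Pb, ⁅a, b⁆ ∈ Subgroup.center ↥Pb := by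
    intro a b
    obtain ⟨y, hy, hy'⟩ := (hmem _).1 a.2
    obtain ⟨y', hy2, hy2'⟩ := (hmem _).1 b.2
    have e : (⁅a, b⁆ : ↥Pb).1 = π ⁅y, y'⁆ := by rw [map_commutatorElement, hy', hy2']; rfl
    refine hcenmem _ ?_
    rcases h.core.brack _ (hPQ hy).1 _ (hPQ hy2).1 with r | r
    · exact Or.inl (by rw [e, show ⁅y, y'⁆ = 1 from Subtype.ext r, map_one])
    · exact Or.inr (by rw [e, hzb]; exact congrArg π (Subtype.ext r))
  have hnab : Subgroup.center ↥Pb ≠ ⊤ := by
    intro htop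
    have h8 := h.core.card_le_eight htQ ht2 ht1 htz' (fun a ha b hb hat hbt => by
      have e := congrArg Subtype.val (Subgroup.mem_center_iff.1 (htop ▸ Subgroup.mem_top
        (⟨π ⟨a, mem_cent_singleton.2 hat⟩, _, hmemP ha hat, rfl⟩ : ↥Pb) :
          (⟨π ⟨a, mem_cent_singleton.2 hat⟩, _, hmemP ha hat, rfl⟩ : ↥Pb) ∈ Subgroup.center ↥Pb)
        ⟨π ⟨b, mem_cent_singleton.2 hbt⟩, _, hmemP hb hbt, rfl⟩)
      simp only [Subgroup.coe_mul, ← map_mul] at e
      rcases hπeq _ _ e with r | r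
      · exact r
      · exfalso
        simp only [Subgroup.coe_mul] at r
        have r' : ⁅a, b⁆ = t := by
          rw [commutatorElement_def, r]
          rw [show b * a * t = t * (b * a) from ((Commute.mul_left (show Commute b t from hbt)
            (show Commute a t from hat)).eq)]
          group
        rcases h.core.brack a ha b hb with c | c <;> rw [r'] at c
        exacts [ht1 c, htz' c])
    omega
  have hcomm : commutator ↥Pb = Subgroup.center ↥Pb := by
    have hle : commutator ↥Pb ≤ Subgroup.center ↥Pb := by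
      rw [commutator_def, Subgroup.commutator_le]
      exact fun a _ b _ => hbr a b
    rcases (Nat.dvd_prime Nat.prime_two).1 (hcen2 ▸ Subgroup.card_dvd_of_le hle) with e | e
    · exfalso
      rw [Subgroup.card_eq_one] at e
      refine hnab (eq_top_iff.2 fun a _ => Subgroup.mem_center_iff.2 fun b => ?_)
      have := Subgroup.commutator_mem_commutator (Subgroup.mem_top b) (Subgroup.mem_top a)
      rw [← commutator_def, e, Subgroup.mem_bot] at this
      exact commutatorElement_eq_one_iff_mul_comm.1 this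
    · exact Subgroup.eq_of_le_of_card_ge hle (by rw [hcen2, e])
  have hE : IsExtraspecial 2 ↥Pb := by
    refine ⟨⟨hPp, le_antisymm (FGS3.frattini_le_of_elementary (p := 2) hcomm.le fun a => ?_)
      (hcomm ▸ FGS3.commutator_le_frattini hPp), hcomm⟩, hcen2⟩
    obtain ⟨y, hy, hy'⟩ := (hmem _).1 a.2
    refine hcenmem _ ?_
    have e : (a ^ 2 : ↥Pb).1 = π (y * y) := by rw [map_mul, hy', pow_two]; rfl
    rcases h.core.square _ (hPQ hy).1 with r | r
    · exact Or.inl (by rw [e]; exact (hπ1 _).2 (Or.inl r))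
    · exact Or.inr (by rw [e, hzb]; exact congrArg π (Subtype.ext r))
  -- the centralizer of the image
  have hC : Subgroup.centralizer (Pb : Set _) = (Subgroup.center ↥Pb).map Pb.subtype := by
    refine le_antisymm (fun b hb => ?_) (fun b hb => Subgroup.mem_centralizer_iff.2 fun a ha => ?_)
    · obtain ⟨y, rfl⟩ := QuotientGroup.mk'_surjective _ b
      have hyz := hcz y (Subgroup.mem_centralizer_iff.1 hb zb hzbP).symm
      have hyQ : (y : G) ∈ Q := (hCP _ (mem_cent_singleton.2 hyz)).1 fun a ha => by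
        have e : π (⟨a, mem_cent_singleton.2 (hPQ ha).2⟩ * y) = π (y * ⟨a, mem_cent_singleton.2 (hPQ ha).2⟩) := by
          rw [map_mul, map_mul]; exact Subgroup.mem_centralizer_iff.1 hb _ ⟨_, ha, rfl⟩
        rcases hπeq _ _ e with r | r <;> simp only [Subgroup.coe_mul] at r
        · exact ⟨1, one_mem _, by rw [r, mul_inv_cancel_right, mul_one]⟩
        · refine ⟨t, Subgroup.subset_closure (Or.inl rfl), ?_⟩
          rw [r, mul_assoc a (y : G) t, show (y : G) * t = t * y from mem_cent_singleton.1 y.2, ← mul_assoc,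
            mul_inv_cancel_right]
      exact (hcenmap _).2 (hcenP _ ⟨y, hmemP hyQ (mem_cent_singleton.1 y.2), rfl⟩
        fun a ha => Subgroup.mem_centralizer_iff.1 hb a ha)
    · rcases (hcenmap b).1 hb with rfl | rfl
      · simp
      · exact hzall a ha
  have hNz : ∀ y : ↥Ct, π y * zb = zb * π y → π y ∈ Subgroup.normalizer (Pb : Set _) := by
    intro y e
    have hyz := hcz y e
    refine relIndex_six.mem_normalizer_of_map_le fun b hb => ?_
    obtain ⟨a, ha, rfl⟩ := (hmem b).1 hb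
    refine ⟨y * a * y⁻¹, ?_, by rw [map_mul, map_mul, map_inv]⟩
    have hyt := mem_cent_singleton.1 y.2
    refine hmemP (h.core.norm _ hyz _ (hPQ ha).1) ?_
    exact mem_cent_singleton.1 (y * a * y⁻¹).2
  refine ⟨hE, hC, fun b hb => ?_, fun K hK hn => ?_⟩
  · obtain ⟨y, rfl⟩ := QuotientGroup.mk'_surjective _ b
    exact hNz y (Subgroup.mem_centralizer_iff.1 hb zb ((hcenmap zb).2 (Or.inr rfl))).symm
  -- odd order subgroups normalized by the image
  have hKP : K ⊓ Pb = ⊥ := inf_bot_of_odd_two hK hPp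
  have hfix : ∀ k ∈ K, k * zb = zb * k → k = 1 := by
    intro k hk hkz
    obtain ⟨y, rfl⟩ := QuotientGroup.mk'_surjective _ k
    have hkn := hNz y hkz
    have hcent : π y ∈ Subgroup.centralizer (Pb : Set _) := Subgroup.mem_centralizer_iff.2 fun a ha => by
      have h1 : ⁅a, π y⁆ ∈ K := by
        have := mul_mem ((Subgroup.mem_normalizer_iff.1 (hn ha) (π y)).1 hk) (inv_mem hk)
        simp only [commutatorElement_def, mul_assoc] at this ⊢; exact this
      have h2 : ⁅a, π y⁆ ∈ Pb := by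
        have := mul_mem ha ((Subgroup.mem_normalizer_iff.1 hkn a⁻¹).1 (inv_mem ha))
        simp only [commutatorElement_def, mul_assoc] at this ⊢; exact this
      exact commutatorElement_eq_one_iff_mul_comm.1 ((Subgroup.eq_bot_iff_forall _).1 hKP _ ⟨h1, h2⟩)
    rw [hC] at hcent
    exact (Subgroup.eq_bot_iff_forall _).1 hKP _ ⟨hk, Subgroup.map_subtype_le _ hcent⟩
  have hzz : zb * zb = 1 := by rw [hzb, ← map_mul]; exact (hπ1 _).2 (Or.inl h.core.sq)
  have hzi : zb⁻¹ = zb := inv_eq_of_mul_eq_one_right hzz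
  have hinv := fixedPointFree_inverts hzz (fun k hk => by
    have := (Subgroup.mem_normalizer_iff.1 (hn hzbP) k).1 hk
    rwa [hzi] at this) hfix
  have hcx : ∀ k ∈ K, k * π ⟨x, hxC⟩ = π ⟨x, hxC⟩ * k → k = 1 := by
    intro k hk hkx
    have hzk := hinv k hk
    obtain ⟨y, rfl⟩ := QuotientGroup.mk'_surjective _ k
    set d := (y : G) * y with hd
    have hyt : Commute (y : G) t := mem_cent_singleton.1 y.2
    have hdx : d * x = x * d := by
      rw [← map_mul, ← map_mul] at hkx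
      rcases hπeq _ _ hkx with r | r <;> simp only [Subgroup.coe_mul] at r
      · rw [hd, mul_assoc, ← r, ← mul_assoc, ← r, mul_assoc]
      · have hxt : Commute x t := mem_cent_singleton.1 hxC
        have r' : (y : G) * x = x * y * t := by
          rw [r, mul_assoc ((y : G) * x), ht2, mul_one]
        calc d * x = (y : G) * ((y : G) * x) := by rw [hd]; group
          _ = (y : G) * (x * y * t) := by rw [r']
          _ = (y : G) * x * ((y : G) * t) := by group
          _ = x * y * t * ((y : G) * t) := by rw [r']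
          _ = x * y * (t * (y : G)) * t := by group
          _ = x * y * ((y : G) * t) * t := by rw [hyt.eq]
          _ = x * d * (t * t) := by rw [hd]; group
          _ = x * d := by rw [ht2, mul_one]
    have hzd : z * d * z = d⁻¹ := by
      have e : π (⟨z, hzC⟩ * y * ⟨z, hzC⟩) = π y⁻¹ := by rw [map_mul, map_mul, map_inv]; exact hzk
      have e1 : z * d * z = (z * y * z) * (z * y * z) := by
        calc z * d * z = z * y * (z * z) * y * z := by rw [h.core.sq, mul_one, hd]; group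
          _ = _ := by group
      rcases hπeq _ _ e with r | r <;> simp only [Subgroup.coe_mul, Subgroup.coe_inv] at r
      · rw [e1, ← r, hd]; group
      · have r' : z * y * z = (y : G)⁻¹ * t := by rw [r, mul_assoc (z * (y : G) * z), ht2, mul_one]
        rw [e1, r', hd]
        calc (y : G)⁻¹ * t * ((y : G)⁻¹ * t) = (y : G)⁻¹ * (t * (y : G)⁻¹) * t := by group
          _ = (y : G)⁻¹ * (y : G)⁻¹ * (t * t) := by rw [← hyt.inv_left.eq]; group
          _ = _ := by rw [ht2, mul_one]; group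
    have hdd : d⁻¹ * d⁻¹ ∈ F := by
      have h1 := h.other.norm d⁻¹ ((show Commute d x from hdx).inv_left.eq) z h.memz
      have h2 := mul_mem h1 (inv_mem h.memz)
      rw [inv_inv, inv_eq_of_mul_eq_one_right h.core.sq,
        show d⁻¹ * z * d * z = d⁻¹ * (z * d * z) by group, hzd] at h2
      exact h2
    have h4 : (d⁻¹ * d⁻¹) * (d⁻¹ * d⁻¹) * ((d⁻¹ * d⁻¹) * (d⁻¹ * d⁻¹)) = 1 := by
      rcases h.other.square _ hdd with r | r <;> rw [r]
      · exact mul_one _
      · exact h.other.sq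
    have h16 : π y ^ 16 = 1 := by
      rw [← map_pow, hπ1]
      refine Or.inl ?_
      rw [SubmonoidClass.coe_pow]
      refine inv_eq_one.1 ?_
      rw [← h4, hd]
      group
    have hord : orderOf (π y) ∣ 16 := orderOf_dvd_of_pow_eq_one h16
    obtain ⟨j, -, hj⟩ := (Nat.dvd_prime_pow Nat.prime_two).1 (show orderOf (π y) ∣ 2 ^ 4 from hord)
    rcases Nat.eq_zero_or_pos j with rfl | hj0
    · rwa [pow_zero, orderOf_eq_one_iff] at hj
    · exfalso
      have h2 : 2 ∣ Nat.card K := ((dvd_pow_self 2 hj0.ne').trans hj.symm.dvd).trans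
        (Subgroup.orderOf_dvd_natCard K hk)
      exact (Nat.two_dvd_ne_zero.2 (Nat.odd_iff.1 hK)) h2
  obtain ⟨q, hq, hqt, eq⟩ := h.exists_move_fixing ht2 ht1 htQ ⟨htx, (h.t_props ht2 ht1 htQ htz).2.2.1⟩ htz'
  set qb := π ⟨q, mem_cent_singleton.2 hqt⟩ with hqb
  have hqbP : qb ∈ Pb := ⟨_, hmemP hq hqt, rfl⟩
  set xb := π ⟨x, hxC⟩ with hxb
  have hqx : qb * xb * qb⁻¹ = zb * xb := by
    rw [hqb, hxb, hzb, ← map_inv, ← map_mul, ← map_mul, ← map_mul]
    exact congrArg π (Subtype.ext eq)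
  have hxbP : xb ∈ Pb := ⟨_, hmemP h.memx (h.other.comm t htF).symm, rfl⟩
  have hxx : xb * xb = 1 := by rw [hxb, ← map_mul]; exact (hπ1 _).2 (Or.inl h.other.sq)
  have hxi : xb⁻¹ = xb := inv_eq_of_mul_eq_one_right hxx
  have hxinv := fixedPointFree_inverts hxx (fun k hk => by
    have := (Subgroup.mem_normalizer_iff.1 (hn hxbP) k).1 hk
    rwa [hxi] at this) hcx
  refine (Subgroup.eq_bot_iff_forall _).2 fun k hk => ?_
  have hk1 : k * (zb * xb) = zb * xb * k := by
    have e1 : zb * k⁻¹ * zb = k := by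
      have := hinv k⁻¹ (inv_mem hk); rwa [inv_inv] at this
    calc k * (zb * xb) = zb * (zb * k * zb) * xb := by
          rw [show zb * (zb * k * zb) = (zb * zb) * (k * zb) by group, hzz, one_mul, mul_assoc]
      _ = zb * k⁻¹ * xb := by rw [hinv k hk]
      _ = zb * (xb * k * xb) * xb := by rw [hxinv k hk]
      _ = zb * xb * k * (xb * xb) := by group
      _ = _ := by rw [hxx, mul_one]
  have hk2 := hcx (qb⁻¹ * k * qb) (by
    have := (Subgroup.mem_normalizer_iff.1 (hn (inv_mem hqbP)) k).1 hk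
    rwa [inv_inv] at this) (by
    calc qb⁻¹ * k * qb * xb = qb⁻¹ * (k * (qb * xb * qb⁻¹)) * qb := by group
      _ = qb⁻¹ * (zb * xb * k) * qb := by rw [hqx, hk1]
      _ = qb⁻¹ * (qb * xb * qb⁻¹ * k) * qb := by rw [hqx]
      _ = _ := by group)
  calc k = qb * (qb⁻¹ * k * qb) * qb⁻¹ := by group
    _ = 1 := by rw [hk2]; group

end TwoCores

end Cfsg.Agent.Fischer
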