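import Cfsg.Agent.Fischer.TwoCores

/-! Structure of the group generated by two cores. -/

set_option autoImplicit false
open Cfsg
open scoped commutatorElement

namespace Cfsg.Agent.Fischer

variable {G : Type*} [Group G] [Finite G]

theorem twoCores_of_large {Q : Subgroup G} (hQ : IsLargeExtraspecial Q) {z : G}
    (hz : (Subgroup.center ↥Q).map Q.subtype = Subgroup.zpowers z) (hz2 : orderOf z = 2) {w : ℕ} (hw : 2 ≤ w)
    (hcard : Nat.card ↥Q = 2 ^ (2 * w + 1)) {g : G} (hgH : g ∉ Subgroup.centralizer ({z} : Set G))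
    (hgQ : g * z * g⁻¹ ∈ Q) : TwoCores z (g * z * g⁻¹) g Q (Q.map (MulAut.conj g).toMonoidHom) := by
  obtain ⟨hE, hC, hN, -⟩ := hQ
  have hzQ : z ∈ Q := (hz.symm.le.trans (Subgroup.map_subtype_le _)) (Subgroup.mem_zpowers z)
  have hcomm : ∀ q ∈ Q, q * z = z * q := fun q hq => by
    obtain ⟨c, hc, rfl⟩ : z ∈ (Subgroup.center ↥Q).map Q.subtype := hz ▸ Subgroup.mem_zpowers z
    exact congrArg Subtype.val (Subgroup.mem_center_iff.1 hc ⟨q, hq⟩)
  have hnorm : ∀ c : G, c * z = z * c → ∀ q ∈ Q, c * q * c⁻¹ ∈ Q := fun c hc q hq =>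
    (Subgroup.mem_normalizer_iff.1 (hN (Subgroup.mem_centralizer_iff.2 fun u hu => by
      rw [hz, SetLike.mem_coe, Subgroup.mem_zpowers_iff] at hu
      obtain ⟨n, rfl⟩ := hu
      exact ((show Commute c z from hc).zpow_right n).eq.symm)) q).1 hq
  have h : CoreLike z Q := coreLike hz2 hcomm hnorm hE (hC.le.trans (Subgroup.map_subtype_le _))
  have hX : CoreLike (g * z * g⁻¹) (LocalEven.cj g Q) := h.conj g
  have hne : g * z * g⁻¹ ≠ z := fun e => hgH (mem_cent_singleton.2 (mul_inv_eq_iff_eq_mul.1 e))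
  obtain ⟨a, ha, b, hb, hax, hbx, hab⟩ : ∃ a ∈ Q, ∃ b ∈ Q, a * (g * z * g⁻¹) = g * z * g⁻¹ * a ∧
      b * (g * z * g⁻¹) = g * z * g⁻¹ * b ∧ a * b ≠ b * a := by
    by_contra hn
    push_neg at hn
    have h8 := h.card_le_eight hgQ hX.sq hX.ne hne hn
    rw [hcard] at h8
    have : 2 ^ 5 ≤ 2 ^ (2 * w + 1) := Nat.pow_le_pow_right (by norm_num) (by omega)
    omega
  exact ⟨h, rfl, rfl, hgQ, h.symm_mem' rfl hgQ hne ha hb hax hbx hab, hne⟩

namespace TwoCores

variable {z x g : G} {Q F : Subgroup G}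

theorem cent_vV (h : TwoCores z x g Q F) :
    Subgroup.centralizer ((Subgroup.closure ({z, x} : Set G) : Subgroup G) : Set G) =
      Subgroup.centralizer ({z, x} : Set G) := Subgroup.centralizer_closure _

theorem vV_mem (h : TwoCores z x g Q F) {y : G} :
    y ∈ Subgroup.closure ({z, x} : Set G) ↔ y = 1 ∨ ∃ i, y = pts z x i := by
  constructor
  · intro hy
    induction hy using Subgroup.closure_induction with
    | mem a ha =>
      rcases ha with rfl | rfl
      exacts [Or.inr ⟨0, rfl⟩, Or.inr ⟨1, rfl⟩]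
    | one => exact Or.inl rfl
    | mul a b _ _ ha hb =>
      rcases ha with rfl | ⟨i, rfl⟩
      · simpa using hb
      rcases hb with rfl | ⟨j, rfl⟩
      · exact Or.inr ⟨i, mul_one _⟩
      have hz := h.core.sq
      have hx := h.other.sq
      have hc := h.zx
      fin_cases i <;> fin_cases j
      · exact Or.inl hz
      · exact Or.inr ⟨2, rfl⟩
      · exact Or.inr ⟨1, by show z * (z * x) = x; rw [← mul_assoc, hz, one_mul]⟩
      · exact Or.inr ⟨2, hc.symm⟩
      · exact Or.inl hx
      · exact Or.inr ⟨0, by show x * (z * x) = z; rw [hc, ← mul_assoc, hx, one_mul]⟩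
      · exact Or.inr ⟨1, by show z * x * z = x; rw [hc, mul_assoc, hz, mul_one]⟩
      · exact Or.inr ⟨0, by show z * x * x = z; rw [mul_assoc, hx, mul_one]⟩
      · exact Or.inl (by show z * x * (z * x) = 1; rw [← mul_assoc, mul_assoc z x z, ← hc, ← mul_assoc z z x, hz, one_mul, hx])
    | inv a _ ha =>
      rcases ha with rfl | ⟨i, rfl⟩
      · exact Or.inl inv_one
      · refine Or.inr ⟨i, inv_eq_of_mul_eq_one_right ?_⟩
        fin_cases i
        · exact h.core.sq
        · exact h.other.sq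
        · show z * x * (z * x) = 1
          rw [← mul_assoc, mul_assoc z x z, ← h.zx, ← mul_assoc z z x, h.core.sq, one_mul, h.other.sq]
  · rintro (rfl | ⟨i, rfl⟩)
    · exact one_mem _
    have hz : z ∈ Subgroup.closure ({z, x} : Set G) := Subgroup.subset_closure (Or.inl rfl)
    have hx : x ∈ Subgroup.closure ({z, x} : Set G) := Subgroup.subset_closure (Or.inr rfl)
    fin_cases i
    exacts [hz, hx, mul_mem hz hx]

theorem exists_perm (h : TwoCores z x g Q F) {y : G}
    (hy : y ∈ Subgroup.normalizer ((Subgroup.closure ({z, x} : Set G) : Subgroup G) : Set G)) (i : Fin 3) :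
    ∃ j, y * pts z x i * y⁻¹ = pts z x j := by
  have h1 := (Subgroup.mem_normalizer_iff.1 hy (pts z x i)).1 (h.vV_mem.2 (Or.inr ⟨i, rfl⟩))
  rcases h.vV_mem.1 h1 with e | e
  · exfalso
    rw [mul_inv_eq_one, mul_eq_left] at e
    fin_cases i
    · exact h.core.ne e
    · exact h.other.ne e
    · exact h.ne (by
        have e' : z * x = 1 := e
        rw [← inv_eq_of_mul_eq_one_right e']; exact inv_eq_of_mul_eq_one_right h.core.sq)
  · exact e

theorem normalizes_closure (h : TwoCores z x g Q F) {y : G}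
    (hz : y * z * y⁻¹ ∈ Subgroup.closure ({z, x} : Set G)) (hx : y * x * y⁻¹ ∈ Subgroup.closure ({z, x} : Set G)) :
    y ∈ Subgroup.normalizer ((Subgroup.closure ({z, x} : Set G) : Subgroup G) : Set G) := by
  refine relIndex_six.mem_normalizer_of_map_le fun u hu => ?_
  have : Subgroup.closure ({z, x} : Set G) ≤ (Subgroup.closure ({z, x} : Set G)).comap (MulAut.conj y).toMonoidHom :=
    (Subgroup.closure_le _).2 (by rintro a (rfl | rfl); exacts [hz, hx])
  exact this hu

theorem X_le_normalizer (h : TwoCores z x g Q F) :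
    Q ⊔ F ≤ Subgroup.normalizer ((Subgroup.closure ({z, x} : Set G) : Subgroup G) : Set G) := by
  have hz : z ∈ Subgroup.closure ({z, x} : Set G) := Subgroup.subset_closure (Or.inl rfl)
  have hx : x ∈ Subgroup.closure ({z, x} : Set G) := Subgroup.subset_closure (Or.inr rfl)
  refine sup_le (fun q hq => h.normalizes_closure ?_ ?_) fun f hf => h.normalizes_closure ?_ ?_
  · rwa [h.core.comm q hq, mul_inv_cancel_right]
  · rcases h.conj_x hq with e | e
    · rwa [e, mul_inv_cancel_right]
    · rw [e]; exact mul_mem hz hx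
  · rcases h.symm.conj_x hf with e | e
    · rwa [e, mul_inv_cancel_right]
    · rw [e]; exact mul_mem hx hz
  · rwa [h.other.comm f hf, mul_inv_cancel_right]

theorem cent_normalizes (h : TwoCores z x g Q F) {c : G} (hc : c ∈ Subgroup.centralizer ({z, x} : Set G)) :
    ∀ y ∈ Q ⊔ F, c * y * c⁻¹ ∈ Q ⊔ F := by
  have hcz : c * z = z * c := (Subgroup.mem_centralizer_iff.1 hc z (Or.inl rfl)).symm
  have hcx : c * x = x * c := (Subgroup.mem_centralizer_iff.1 hc x (Or.inr rfl)).symm
  have : Q ⊔ F ≤ (Q ⊔ F).comap (MulAut.conj c).toMonoidHom :=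
    sup_le (fun q hq => Subgroup.mem_sup_left (h.core.norm c hcz q hq))
      (fun f hf => Subgroup.mem_sup_right (h.other.norm c hcx f hf))
  exact fun y hy => this hy

theorem mid_normal (h : TwoCores z x g Q F) : ∀ y ∈ Q ⊔ F, ∀ r ∈ mid z x Q F, y * r * y⁻¹ ∈ mid z x Q F := by
  intro y hy
  rw [Subgroup.sup_eq_closure] at hy
  induction hy using Subgroup.closure_induction'' with
  | mem a ha =>
    rcases ha with ha | ha
    · exact fun r hr => h.Q_normalizes ha hr
    · intro r hr; rw [mid_comm] at hr ⊢; exact h.symm.Q_normalizes ha hr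
  | inv_mem a ha =>
    rcases ha with ha | ha
    · exact fun r hr => h.Q_normalizes (inv_mem ha) hr
    · intro r hr; rw [mid_comm] at hr ⊢; exact h.symm.Q_normalizes (inv_mem ha) hr
  | one => simp
  | mul a b _ _ ha hb =>
    intro r hr
    rw [show a * b * r * (a * b)⁻¹ = a * (b * r * b⁻¹) * a⁻¹ by group]
    exact ha _ (hb r hr)

theorem comm_mid (h : TwoCores z x g Q F) : ∀ y ∈ Q ⊔ F, ∀ c ∈ Subgroup.centralizer ({z, x} : Set G),
    y * c * y⁻¹ * c⁻¹ ∈ mid z x Q F := by
  have gen : ∀ {z x g : G} {Q F : Subgroup G}, TwoCores z x g Q F → ∀ a ∈ Q, ∀ c : G, c * z = z * c →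
      c * x = x * c → a * c * a⁻¹ * c⁻¹ ∈ mid z x Q F := by
    intro z x g Q F h a ha c hcz hcx
    refine Subgroup.mem_sup_right (Subgroup.mem_inf.2 ⟨?_, mem_cent_singleton.2 ?_⟩)
    · rw [mul_assoc, mul_assoc]
      exact mul_mem ha (by rw [← mul_assoc]; exact h.core.norm c hcz _ (inv_mem ha))
    · have key : Commute c (a⁻¹ * x * a) := by
        rcases h.conj_x (inv_mem ha) with e | e
        · rw [e, mul_assoc, inv_mul_cancel, mul_one]; exact hcx
        · rw [inv_inv] at e
          rw [e]; exact Commute.mul_right hcz hcx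
      have h2 : Commute (a * c * a⁻¹) x := by
        show _ = _
        calc a * c * a⁻¹ * x = a * (c * (a⁻¹ * x * a)) * a⁻¹ := by group
          _ = a * (a⁻¹ * x * a * c) * a⁻¹ := by rw [key.eq]
          _ = _ := by group
      exact (h2.mul_left (Commute.inv_left hcx)).eq
  intro y hy
  rw [Subgroup.sup_eq_closure] at hy
  induction hy using Subgroup.closure_induction'' with
  | mem a ha =>
    intro c hc
    have hcz : c * z = z * c := (Subgroup.mem_centralizer_iff.1 hc z (Or.inl rfl)).symm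
    have hcx : c * x = x * c := (Subgroup.mem_centralizer_iff.1 hc x (Or.inr rfl)).symm
    rcases ha with ha | ha
    · exact gen h a ha c hcz hcx
    · rw [mid_comm]; exact gen h.symm a ha c hcx hcz
  | inv_mem a ha =>
    intro c hc
    have hcz : c * z = z * c := (Subgroup.mem_centralizer_iff.1 hc z (Or.inl rfl)).symm
    have hcx : c * x = x * c := (Subgroup.mem_centralizer_iff.1 hc x (Or.inr rfl)).symm
    rcases ha with ha | ha
    · exact gen h a⁻¹ (inv_mem ha) c hcz hcx
    · rw [mid_comm]; exact gen h.symm a⁻¹ (inv_mem ha) c hcx hcz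
  | one => intro c _; simp
  | mul a b ha' _ ha hb =>
    intro c hc
    rw [show a * b * c * (a * b)⁻¹ * c⁻¹ = a * (b * c * b⁻¹ * c⁻¹) * a⁻¹ * (a * c * a⁻¹ * c⁻¹) by group]
    refine mul_mem (h.mid_normal a ?_ _ (hb c hc)) (ha c hc)
    rw [Subgroup.sup_eq_closure]; exact ha'

theorem mid_twoGroup (h : TwoCores z x g Q F) (hQ : IsPGroup 2 ↥Q) : IsPGroup 2 ↥(mid z x Q F) := by
  refine IsPGroup.to_sup_of_normal_right' ((hQ.map (MulAut.conj g).toMonoidHom).to_le ?_) (hQ.to_le inf_le_left) h.norm_le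
  rw [h.conjQ]
  exact inf_le_left

/-- The main structure statement. -/
theorem structure_X (h : TwoCores z x g Q F) (hQ : IsPGroup 2 ↥Q) :
    mid z x Q F = (Q ⊔ F) ⊓ Subgroup.centralizer ((Subgroup.closure ({z, x} : Set G) : Subgroup G) : Set G) ∧
    mid z x Q F = (pCore 2 ↥(Q ⊔ F)).map (Q ⊔ F).subtype ∧
    (∃ _ : ((mid z x Q F).subgroupOf (Q ⊔ F)).Normal,
      Nonempty (↥(Q ⊔ F) ⧸ (mid z x Q F).subgroupOf (Q ⊔ F) ≃* Equiv.Perm (Fin 3))) ∧
    Subgroup.normalizer ((Subgroup.closure ({z, x} : Set G) : Subgroup G) : Set G) =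
      (Q ⊔ F) ⊔ Subgroup.centralizer ({z, x} : Set G) := by
  classical
  haveI := Fact.mk Nat.prime_two
  have hR : mid z x Q F = (Q ⊔ F) ⊓ Subgroup.centralizer ((Subgroup.closure ({z, x} : Set G) : Subgroup G) : Set G) := by
    rw [h.cent_vV, h.cent_eq]
  obtain ⟨q, hq, eq⟩ := h.exists_move
  obtain ⟨f, hf, ef⟩ := h.symm.exists_move
  have hex : ∀ y : ↥(Q ⊔ F), ∃ σ : Equiv.Perm (Fin 3), ∀ i, (y : G) * pts z x i * (y : G)⁻¹ = pts z x (σ i) := by
    intro y
    choose σ hσ using fun i => h.exists_perm (h.X_le_normalizer y.2) i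
    have hinj : Function.Injective σ := fun i j e => h.pts_injective (by
      have := (hσ i).trans ((congrArg (pts z x) e).trans (hσ j).symm)
      simpa using this)
    exact ⟨Equiv.ofBijective σ ⟨hinj, Finite.surjective_of_injective hinj⟩, hσ⟩
  choose ψ₀ hψ₀ using hex
  let ψ : ↥(Q ⊔ F) →* Equiv.Perm (Fin 3) := MonoidHom.mk' ψ₀ fun a b => h.perm_unique (y := (a : G) * b)
    (fun i => by have := hψ₀ (a * b) i; simpa using this)
    (fun i => by
      rw [show (a : G) * b * pts z x i * ((a : G) * b)⁻¹ = a * ((b : G) * pts z x i * (b : G)⁻¹) * (a : G)⁻¹ by group,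
        hψ₀ b i, hψ₀ a]
      rfl)
  have hker : ψ.ker = (mid z x Q F).subgroupOf (Q ⊔ F) := by
    ext y
    rw [MonoidHom.mem_ker, Subgroup.mem_subgroupOf, h.cent_eq, Subgroup.mem_inf, Subgroup.mem_centralizer_iff]
    constructor
    · intro e
      refine ⟨y.2, fun a ha => ?_⟩
      have hi : ∀ i, (y : G) * pts z x i * (y : G)⁻¹ = pts z x i := fun i => by
        rw [hψ₀ y i, show ψ₀ y = 1 from e]; rfl
      rcases ha with rfl | rfl
      · exact (mul_inv_eq_iff_eq_mul.1 (hi 0)).symm
      · exact (mul_inv_eq_iff_eq_mul.1 (hi 1)).symm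
    · rintro ⟨-, hc⟩
      refine h.perm_unique (hψ₀ y) fun i => ?_
      have c0 : Commute (y : G) z := (hc z (Or.inl rfl)).symm
      have c1 : Commute (y : G) x := (hc x (Or.inr rfl)).symm
      have c : Commute (y : G) (pts z x i) := by
        fin_cases i
        exacts [c0, c1, c0.mul_right c1]
      rw [c.eq, mul_inv_cancel_right]; rfl
  have himq : ψ ⟨q, Subgroup.mem_sup_left hq⟩ = Equiv.swap 1 2 := h.perm_unique (hψ₀ _) (h.q_perm hq eq)
  have himf : ψ ⟨f, Subgroup.mem_sup_right hf⟩ = Equiv.swap 0 2 := h.perm_unique (hψ₀ _) (h.f_perm hf ef)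
  have hsurj : Function.Surjective ψ := by
    intro σ
    have : σ = 1 ∨ σ = Equiv.swap 1 2 ∨ σ = Equiv.swap 0 2 ∨ σ = Equiv.swap 1 2 * Equiv.swap 0 2 ∨
        σ = Equiv.swap 0 2 * Equiv.swap 1 2 ∨ σ = Equiv.swap 0 2 * Equiv.swap 1 2 * Equiv.swap 0 2 := by
      revert σ; decide
    rcases this with rfl | rfl | rfl | rfl | rfl | rfl
    · exact ⟨1, map_one ψ⟩
    · exact ⟨_, himq⟩
    · exact ⟨_, himf⟩
    · exact ⟨⟨q, Subgroup.mem_sup_left hq⟩ * ⟨f, Subgroup.mem_sup_right hf⟩, by rw [map_mul, himq, himf]⟩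
    · exact ⟨⟨f, Subgroup.mem_sup_right hf⟩ * ⟨q, Subgroup.mem_sup_left hq⟩, by rw [map_mul, himf, himq]⟩
    · exact ⟨⟨f, Subgroup.mem_sup_right hf⟩ * ⟨q, Subgroup.mem_sup_left hq⟩ * ⟨f, Subgroup.mem_sup_right hf⟩,
        by rw [map_mul, map_mul, himf, himq]⟩
  haveI hnorm : ((mid z x Q F).subgroupOf (Q ⊔ F)).Normal := hker ▸ inferInstance
  refine ⟨hR, ?_, ⟨hnorm, ⟨(QuotientGroup.quotientMulEquivOfEq hker.symm).trans
    (QuotientGroup.quotientKerEquivOfSurjective ψ hsurj)⟩⟩, ?_⟩
  · refine le_antisymm ?_ ?_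
    · intro r hr
      refine ⟨⟨r, mid_le Q F hr⟩, Core.le_pCore hnorm ?_ hr, rfl⟩
      exact (h.mid_twoGroup hQ).comap_of_injective (Q ⊔ F).subtype (Q ⊔ F).subtype_injective
    · rintro _ ⟨y, hy, rfl⟩
      have hone : ∀ σ ∈ (pCore 2 ↥(Q ⊔ F)).map ψ, σ = 1 := by
        intro σ hσ
        haveI : ((pCore 2 ↥(Q ⊔ F)).map ψ).Normal := Subgroup.Normal.map inferInstance ψ hsurj
        have hp : IsPGroup 2 ↥((pCore 2 ↥(Q ⊔ F)).map ψ) := (Core.isPGroup_pCore 2 _).map ψ
        have h6' : ∀ τ : Equiv.Perm (Fin 3), τ ^ 6 = 1 := by decide +kernel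
        have sq : ∀ τ ∈ (pCore 2 ↥(Q ⊔ F)).map ψ, τ * τ = 1 := by
          intro τ hτ
          obtain ⟨k, hk⟩ := hp ⟨τ, hτ⟩
          have hk' : τ ^ 2 ^ k = 1 := congrArg Subtype.val hk
          have h6 : τ ^ 6 = 1 := h6' τ
          rcases Nat.lt_or_ge k 2 with hk2 | hk2
          · interval_cases k
            · rw [pow_zero, pow_one] at hk'; rw [hk', one_mul]
            · simpa [pow_two] using hk'
          · have h4 := pow_gcd_eq_one.2 ⟨hk', h6⟩
            have hg : Nat.gcd (2 ^ k) 6 = 2 := by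
              rw [show 6 = 2 * 3 from rfl, Nat.Coprime.gcd_mul_right_cancel_right 2 (Nat.Coprime.pow_right k (by norm_num : Nat.Coprime 3 2))]
              exact Nat.gcd_eq_right (dvd_pow_self 2 (by omega))
            rw [hg, pow_two] at h4; exact h4
        have key : ∀ σ : Equiv.Perm (Fin 3), σ * σ = 1 → σ ≠ 1 →
            ∃ τ : Equiv.Perm (Fin 3), τ * σ * τ⁻¹ * σ * (τ * σ * τ⁻¹ * σ) ≠ 1 := by decide +kernel
        by_contra hne
        obtain ⟨τ, hτ⟩ := key σ (sq σ hσ) hne
        exact hτ (sq _ (mul_mem (Subgroup.Normal.conj_mem inferInstance σ hσ τ) hσ))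
      have h2 : y ∈ ψ.ker := hone _ ⟨y, hy, rfl⟩
      rw [hker] at h2
      exact h2
  · refine le_antisymm (fun y hy => ?_) (sup_le h.X_le_normalizer fun c hc => ?_)
    · choose σ hσ using fun i => h.exists_perm hy i
      have hinj : Function.Injective σ := fun i j e => h.pts_injective (by
        have := (hσ i).trans ((congrArg (pts z x) e).trans (hσ j).symm)
        simpa using this)
      obtain ⟨t, ht⟩ := hsurj (Equiv.ofBijective σ ⟨hinj, Finite.surjective_of_injective hinj⟩)
      have hfix : ∀ i, ((t : G)⁻¹ * y) * pts z x i * ((t : G)⁻¹ * y)⁻¹ = pts z x i := fun i => by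
        have e := hψ₀ t i
        rw [show ψ₀ t i = σ i from congrArg (fun π : Equiv.Perm (Fin 3) => π i) ht, ← hσ i] at e
        rw [show (t : G)⁻¹ * y * pts z x i * ((t : G)⁻¹ * y)⁻¹ = (t : G)⁻¹ * (y * pts z x i * y⁻¹) * t by group, ← e]
        group
      have hc : (t : G)⁻¹ * y ∈ Subgroup.centralizer ({z, x} : Set G) := Subgroup.mem_centralizer_iff.2 (by
        rintro a (rfl | rfl)
        exacts [(mul_inv_eq_iff_eq_mul.1 (hfix 0)).symm, (mul_inv_eq_iff_eq_mul.1 (hfix 1)).symm])
      rw [← mul_inv_cancel_left (t : G) y]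
      exact Subgroup.mul_mem_sup t.2 hc
    · refine h.normalizes_closure ?_ ?_
      · rw [← Subgroup.mem_centralizer_iff.1 hc z (Or.inl rfl), mul_inv_cancel_right]
        exact Subgroup.subset_closure (Or.inl rfl)
      · rw [← Subgroup.mem_centralizer_iff.1 hc x (Or.inr rfl), mul_inv_cancel_right]
        exact Subgroup.subset_closure (Or.inr rfl)

theorem center_mid (h : TwoCores z x g Q F) :
    (Subgroup.center ↥(mid z x Q F)).map (mid z x Q F).subtype = Subgroup.closure ({z, x} : Set G) := by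
  refine le_antisymm ?_ ((Subgroup.closure_le _).2 ?_)
  · rintro _ ⟨c, hc, rfl⟩
    obtain ⟨hcz, hcx⟩ := h.mid_le_cent c.2
    have hP : ∀ p ∈ Q, p * x = x * p → p * (c : G) = (c : G) * p := fun p hp hpx =>
      congrArg Subtype.val (Subgroup.mem_center_iff.1 hc
        ⟨p, Subgroup.mem_sup_right (Subgroup.mem_inf.2 ⟨hp, mem_cent_singleton.2 hpx⟩)⟩)
    obtain ⟨q, hq, eq⟩ := h.exists_move
    set d := (c : G) * q * (c : G)⁻¹ with hd
    have hdQ : d ∈ Q := h.core.norm _ hcz q hq
    have hdx : d * x * d⁻¹ = z * x := by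
      have c1 : (c : G) * (z * x) = z * x * c := (Commute.mul_right hcz hcx).eq
      calc d * x * d⁻¹ = (c : G) * (q * ((c : G)⁻¹ * (x * c)) * q⁻¹) * (c : G)⁻¹ := by rw [hd]; group
        _ = (c : G) * (z * x) * (c : G)⁻¹ := by rw [← hcx, inv_mul_cancel_left, eq]
        _ = _ := by rw [c1, mul_inv_cancel_right]
    set p := q⁻¹ * d with hp
    have hpQ : p ∈ Q := mul_mem (inv_mem hq) hdQ
    have hpx : p * x = x * p := by
      calc q⁻¹ * d * x = q⁻¹ * (d * x * d⁻¹) * d := by group
        _ = q⁻¹ * (q * x * q⁻¹) * d := by rw [hdx, eq]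
        _ = _ := by rw [hp]; group
    have hall : ∀ a ∈ Q, a * x = x * a → a * p = p * a := by
      intro a ha hax
      rw [← commutatorElement_eq_one_iff_mul_comm]
      -- the conjugate by c fixes a and q a q⁻¹
      have e1 : (c : G) * a * (c : G)⁻¹ = a := by rw [← hP a ha hax, mul_inv_cancel_right]
      have hqa : q * a * q⁻¹ ∈ Q ∧ (q * a * q⁻¹) * x = x * (q * a * q⁻¹) := by
        have h1 := h.conj_mem hq (Subgroup.mem_inf.2 ⟨ha, mem_cent_singleton.2 hax⟩)
        exact ⟨h1.1, mem_cent_singleton.1 h1.2⟩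
      have e2 : d * a * d⁻¹ = q * a * q⁻¹ := by
        calc d * a * d⁻¹ = d * ((c : G) * a * (c : G)⁻¹) * d⁻¹ := by rw [e1]
          _ = (c : G) * (q * a * q⁻¹) * (c : G)⁻¹ := by rw [hd]; group
          _ = _ := by rw [← hP _ hqa.1 hqa.2, mul_inv_cancel_right]
      have e3 : p * a * p⁻¹ = a := by
        calc p * a * p⁻¹ = q⁻¹ * (d * a * d⁻¹) * q := by rw [hp]; group
          _ = _ := by rw [e2]; group
      rw [mul_inv_eq_iff_eq_mul] at e3
      rw [commutatorElement_eq_one_iff_mul_comm, e3]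
    have hsq : d * d = q * q := by
      rw [show d * d = (c : G) * (q * q) * (c : G)⁻¹ by rw [hd]; group]
      rcases h.core.square q hq with e | e <;> rw [e]
      · simp
      · rw [hcz, mul_inv_cancel_right]
    have hpz : p = 1 ∨ p = z := by
      have bad : ∀ e : G, (e = x ∨ e = x * z) → d = q * e → False := by
        intro e he hde
        have h1 : q * e * (q * e) = q * q := by rw [← hde, hsq]
        have h2 : e * q * e = q := mul_left_cancel (a := q) (by rw [← h1]; group)
        have hee : e * e = 1 := by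
          rcases he with rfl | rfl
          · exact h.other.sq
          · rw [mul_assoc, ← mul_assoc z x z, h.zx, mul_assoc x z z, h.core.sq, mul_one, h.other.sq]
        have h3 : q * e = e * q := by
          calc q * e = e * q * e * e := by rw [h2]
            _ = e * q := by rw [mul_assoc (e * q), hee, mul_one]
        have h4 : q * x = x * q := by
          rcases he with rfl | rfl
          · exact h3
          · have hqz := h.core.comm q hq
            refine mul_right_cancel (b := z) ?_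
            calc q * x * z = q * (x * z) := by group
              _ = x * z * q := h3
              _ = x * (q * z) := by rw [hqz]; group
              _ = _ := by group
        rw [h4, mul_inv_cancel_right] at eq
        exact h.core.ne (by simpa using eq.symm)
      rcases h.core.cent_cases h.memx h.other.sq h.other.ne h.ne hpQ hall with e | e | e | e
      · exact Or.inl e
      · exact Or.inr e
      · exact (bad p (Or.inl e) (by rw [hp]; group)).elim
      · exact (bad p (Or.inr e) (by rw [hp]; group)).elim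
    -- c or c*x centralizes Q
    obtain ⟨u, hu, huc⟩ : ∃ u ∈ Subgroup.closure ({z, x} : Set G), ∀ y ∈ Q, y * ((c : G) * u) = (c : G) * u * y := by
      rcases hpz with e | e
      · refine ⟨1, one_mem _, fun y hy => ?_⟩
        rw [mul_one]
        have hqc : q * (c : G) = (c : G) * q := by
          have : d = q := by rw [← mul_inv_cancel_left q d, ← hp, e, mul_one]
          rw [hd] at this
          exact (mul_inv_eq_iff_eq_mul.1 this).symm
        rcases h.split hq eq hy with hm | hm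
        · exact hP y hy (mem_cent_singleton.1 hm.2)
        · have h1 := hP _ hm.1 (mem_cent_singleton.1 hm.2)
          calc y * (c : G) = q * (q⁻¹ * y * c) := by group
            _ = q * (c : G) * (q⁻¹ * y) := by rw [h1]; group
            _ = _ := by rw [hqc]; group
      · refine ⟨x, Subgroup.subset_closure (Or.inr rfl), fun y hy => ?_⟩
        have hdq : d = q * z := by rw [← mul_inv_cancel_left q d, ← hp, e]
        have hqc : q * ((c : G) * x) = (c : G) * x * q := by
          have e1 : (c : G) * q = q * z * c := by rw [hd, mul_inv_eq_iff_eq_mul] at hdq; exact hdq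
          have e2 : x * q = q * x * z := by
            have : q * x = z * x * q := mul_inv_eq_iff_eq_mul.1 eq
            calc x * q = z * (z * x * q) := by rw [← mul_assoc, ← mul_assoc, h.core.sq, one_mul]
              _ = z * (q * x) := by rw [this]
              _ = q * (z * x) := by rw [← mul_assoc, ← h.core.comm q hq]; group
              _ = _ := by rw [h.zx]; group
          calc q * ((c : G) * x) = q * z * c * (x * z) := by
                rw [show q * z * (c : G) * (x * z) = q * (z * ((c : G) * x) * z) by group,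
                  show z * ((c : G) * x) = (c : G) * x * z from ((Commute.mul_left hcz h.zx.symm).eq).symm,
                  mul_assoc _ z z, h.core.sq, mul_one]
            _ = (c : G) * q * (x * z) := by rw [e1]
            _ = (c : G) * (x * q) := by rw [e2]; group
            _ = _ := by group
        rcases h.split hq eq hy with hm | hm
        · have := hP y hy (mem_cent_singleton.1 hm.2)
          exact (Commute.mul_right this (mem_cent_singleton.1 hm.2)).eq
        · have h1 : Commute (q⁻¹ * y) ((c : G) * x) :=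
            Commute.mul_right (hP _ hm.1 (mem_cent_singleton.1 hm.2)) (mem_cent_singleton.1 hm.2)
          calc y * ((c : G) * x) = q * (q⁻¹ * y * ((c : G) * x)) := by group
            _ = q * ((c : G) * x) * (q⁻¹ * y) := by rw [h1.eq]; group
            _ = _ := by rw [hqc]; group
    have hcu := h.core.small _ huc
    have : (c : G) * u ∈ Subgroup.closure ({z, x} : Set G) := by
      rcases h.core.center _ hcu huc with e | e <;> rw [e]
      exacts [one_mem _, Subgroup.subset_closure (Or.inl rfl)]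
    simpa using mul_mem this (inv_mem hu)
  · rintro a ha
    have haR : a ∈ mid z x Q F := by
      rcases ha with rfl | rfl
      · exact Subgroup.mem_sup_right (Subgroup.mem_inf.2 ⟨h.core.mem, mem_cent_singleton.2 h.zx⟩)
      · exact Subgroup.mem_sup_right (Subgroup.mem_inf.2 ⟨h.memx, mem_cent_singleton.2 rfl⟩)
    refine ⟨⟨a, haR⟩, Subgroup.mem_center_iff.2 fun r => Subtype.ext ?_, rfl⟩
    rcases ha with rfl | rfl
    exacts [(h.mid_le_cent r.2).1, (h.mid_le_cent r.2).2]

theorem inter_sq (h : TwoCores z x g Q F) {a : G} (ha : a ∈ Q ⊓ F) : a * a = 1 := by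
  rcases h.core.square a ha.1 with e | e
  · exact e
  rcases h.other.square a ha.2 with e' | e'
  · exact e'
  · exact absurd (e'.symm.trans e) h.ne

theorem inter_comm (h : TwoCores z x g Q F) {a b : G} (ha : a ∈ Q ⊓ F) (hb : b ∈ Q ⊓ F) : a * b = b * a := by
  rw [← commutatorElement_eq_one_iff_mul_comm]
  rcases h.core.brack a ha.1 b hb.1 with e | e
  · exact e
  rcases h.other.brack a ha.2 b hb.2 with e' | e'
  · exact e'
  · exact absurd (e'.symm.trans e) h.ne

theorem inter_le_mid (h : TwoCores z x g Q F) : Q ⊓ F ≤ mid z x Q F :=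
  h.inter_le.trans le_sup_right

theorem layers_meet (h : TwoCores z x g Q F) :
    (F ⊓ Subgroup.centralizer ({z} : Set G)) ⊓ (Q ⊓ Subgroup.centralizer ({x} : Set G)) = Q ⊓ F :=
  le_antisymm (fun a ha => ⟨ha.2.1, ha.1.1⟩)
    (le_inf (le_inf inf_le_right fun a ha => mem_cent_singleton.2 (h.core.comm a ha.1)) h.inter_le)

theorem bracket_le (h : TwoCores z x g Q F) : ∀ y ∈ Q ⊔ F, ∀ e ∈ Q ⊓ F,
    ⁅y, e⁆ ∈ Subgroup.closure ({z, x} : Set G) := by
  have hz : z ∈ Subgroup.closure ({z, x} : Set G) := Subgroup.subset_closure (Or.inl rfl)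
  have hx : x ∈ Subgroup.closure ({z, x} : Set G) := Subgroup.subset_closure (Or.inr rfl)
  have gen : ∀ a, (a ∈ Q ∨ a ∈ F) → ∀ e ∈ Q ⊓ F, ⁅a, e⁆ ∈ Subgroup.closure ({z, x} : Set G) := by
    rintro a (ha | ha) e he
    · rcases h.core.brack a ha e he.1 with r | r <;> rw [r]
      exacts [one_mem _, hz]
    · rcases h.other.brack a ha e he.2 with r | r <;> rw [r]
      exacts [one_mem _, hx]
  intro y hy
  rw [Subgroup.sup_eq_closure] at hy
  induction hy using Subgroup.closure_induction'' with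
  | mem a ha => exact gen a ha
  | inv_mem a ha => exact gen a⁻¹ (ha.imp inv_mem inv_mem)
  | one => intro e _; rw [commutatorElement_one_left]; exact one_mem _
  | mul a b ha' _ ha hb =>
    intro e he
    rw [show ⁅a * b, e⁆ = a * ⁅b, e⁆ * a⁻¹ * ⁅a, e⁆ by simp only [commutatorElement_def]; group]
    refine mul_mem ((Subgroup.mem_normalizer_iff.1 (h.X_le_normalizer ?_) _).1 (hb e he)) (ha e he)
    rw [Subgroup.sup_eq_closure]; exact ha'

theorem mid_bracket (h : TwoCores z x g Q F) : ∀ a ∈ mid z x Q F, ∀ b ∈ mid z x Q F, ⁅a, b⁆ ∈ Q ⊓ F := by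
  have hV : Subgroup.closure ({z, x} : Set G) ≤ Q ⊓ F := (Subgroup.closure_le _).2 (by
    rintro a (rfl | rfl)
    exacts [⟨h.core.mem, h.memz⟩, ⟨h.memx, h.other.mem⟩])
  have conjE : ∀ r ∈ mid z x Q F, ∀ e ∈ Q ⊓ F, r * e * r⁻¹ ∈ Q ⊓ F := fun r hr e he =>
    ⟨h.core.norm r (h.mid_le_cent hr).1 e he.1, h.other.norm r (h.mid_le_cent hr).2 e he.2⟩
  have gen : ∀ a, (a ∈ F ⊓ Subgroup.centralizer ({z} : Set G) ∨ a ∈ Q ⊓ Subgroup.centralizer ({x} : Set G)) →
      ∀ b, (b ∈ F ⊓ Subgroup.centralizer ({z} : Set G) ∨ b ∈ Q ⊓ Subgroup.centralizer ({x} : Set G)) →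
      ⁅a, b⁆ ∈ Q ⊓ F := by
    rintro a (ha | ha) b (hb | hb)
    · rcases h.other.brack a ha.1 b hb.1 with r | r <;> rw [r]
      exacts [one_mem _, ⟨h.memx, h.other.mem⟩]
    · rw [commutatorElement_def]; exact h.left_normalizes ha hb
    · rw [← commutatorElement_inv, commutatorElement_def]; exact inv_mem (h.left_normalizes hb ha)
    · rcases h.core.brack a ha.1 b hb.1 with r | r <;> rw [r]
      exacts [one_mem _, ⟨h.core.mem, h.memz⟩]
  intro a ha b hb
  obtain ⟨p, hp, s, hs, rfl⟩ := h.mem_mid.1 ha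
  obtain ⟨p', hp', s', hs', rfl⟩ := h.mem_mid.1 hb
  have hpR : p ∈ mid z x Q F := Subgroup.mem_sup_right hp
  have hp'R : p' ∈ mid z x Q F := Subgroup.mem_sup_right hp'
  rw [show ⁅p * s, p' * s'⁆ = p * (⁅s, p'⁆ * (p' * ⁅s, s'⁆ * p'⁻¹)) * p⁻¹ * (⁅p, p'⁆ * (p' * ⁅p, s'⁆ * p'⁻¹)) by
    simp only [commutatorElement_def]; group]
  exact mul_mem (conjE p hpR _ (mul_mem (gen s (Or.inl hs) p' (Or.inr hp'))
    (conjE p' hp'R _ (gen s (Or.inl hs) s' (Or.inl hs')))))
    (mul_mem (gen p (Or.inr hp) p' (Or.inr hp')) (conjE p' hp'R _ (gen p (Or.inr hp) s' (Or.inl hs'))))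

theorem mid_square (h : TwoCores z x g Q F) {a : G} (ha : a ∈ mid z x Q F) : a * a ∈ Q ⊓ F := by
  obtain ⟨p, hp, s, hs, rfl⟩ := h.mem_mid.1 ha
  have h1 : p * p ∈ Q ⊓ F := by
    rcases h.core.square p hp.1 with r | r <;> rw [r]
    exacts [one_mem _, ⟨h.core.mem, h.memz⟩]
  have h2 : s * s ∈ Q ⊓ F := by
    rcases h.other.square s hs.1 with r | r <;> rw [r]
    exacts [one_mem _, ⟨h.memx, h.other.mem⟩]
  have hpR : p ∈ mid z x Q F := Subgroup.mem_sup_right hp
  have h3 := h.mid_bracket s (Subgroup.mem_sup_left hs) p hpR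
  have h4 : p * ⁅s, p⁆ * p⁻¹ ∈ Q ⊓ F :=
    ⟨h.core.norm p (h.mid_le_cent hpR).1 _ h3.1, h.other.norm p (h.mid_le_cent hpR).2 _ h3.2⟩
  rw [show p * s * (p * s) = p * ⁅s, p⁆ * p⁻¹ * (p * p) * (s * s) by simp only [commutatorElement_def]; group]
  exact mul_mem (mul_mem h4 h1) h2

theorem layers (h : TwoCores z x g Q F) :
    Q ⊓ F ≤ (Subgroup.upperCentralSeries ↥(mid z x Q F) 2).map (mid z x Q F).subtype ∧
    Subgroup.upperCentralSeries ↥(mid z x Q F) 3 = ⊤ := by
  have h1 : ∀ v : ↥(mid z x Q F), (v : G) ∈ Subgroup.closure ({z, x} : Set G) →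
      v ∈ Subgroup.upperCentralSeries ↥(mid z x Q F) 1 := by
    intro v hv
    rw [Subgroup.upperCentralSeries_one]
    rw [← h.center_mid] at hv
    obtain ⟨c, hc, e⟩ := hv
    rwa [← show c = v from Subtype.ext e]
  have h2 : ∀ e : ↥(mid z x Q F), (e : G) ∈ Q ⊓ F → e ∈ Subgroup.upperCentralSeries ↥(mid z x Q F) 2 := by
    intro e he
    rw [Subgroup.mem_upperCentralSeries_succ_iff]
    intro y
    refine h1 _ ?_
    have := inv_mem (h.bracket_le (y : G) (mid_le Q F y.2) (e : G) he)
    rw [commutatorElement_inv] at this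
    simpa [commutatorElement_def] using this
  refine ⟨fun e he => ⟨⟨e, h.inter_le_mid he⟩, h2 _ he, rfl⟩, eq_top_iff.2 fun a _ => ?_⟩
  rw [Subgroup.mem_upperCentralSeries_succ_iff]
  intro y
  refine h2 _ ?_
  simpa [commutatorElement_def] using h.mid_bracket (a : G) a.2 (y : G) y.2

end TwoCores

end Cfsg.Agent.Fischer
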